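import Mathlib
import Cfsg.Agent.H28.Util3
import Cfsg.Agent.H27.Frob2
import Cfsg.Agent.FT.BG03a
import Cfsg.Agent.H29.Pair
import Cfsg.Agent.H10.SmallId

/-! The three primes lemma; fixed-point-free automorphisms of order three (Neumann). -/

set_option autoImplicit false
set_option linter.style.haveILetI false
set_option linter.unusedSectionVars false

namespace Cfsg.Agent.H28

open Cfsg Subgroup Cfsg.Agent.FT
open scoped Pointwise commutatorElement

variable {G : Type*} [Group G] [Finite G] {p q r : ℕ} {K M R V : Subgroup G} {x : G}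

theorem exists_orderOf_mul_of_semiReg (hV : Sol V) (h1 : V ≠ ⊥) (hn : R ≤ N(V)) (h : FT.SemiReg V R) (hs : Sol R)
    (hq : q.Prime) (hr : r.Prime) (hne : q ≠ r) (h2 : q ∣ #R) (h3 : r ∣ #R) : ∃ x ∈ R, orderOf x = q * r := by
  obtain ⟨H, hH⟩ := Hall_exists {q, r} hs
  have h4 := hH.dvd_card hq (by simp) h2
  have h5 := hH.dvd_card hr (by simp) h3
  obtain ⟨N, hN, hm⟩ := exists_minNml (ne_bot_of_prime_dvd hq h4) (le_nrm H)
  obtain ⟨t, ht, hab⟩ := hm.abelem ((hs.mono hH.le).mono hN)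
  have hc := hab.card_of_cyc ht (H27.cyc_of_ab_semiReg hab.ab ((hN.trans hH.le).trans hn) h1 (h.mono_right (hN.trans hH.le))) hm.ne
  have key : ∀ u, u.Prime → u ≠ t → u ∣ #H → ∃ x ∈ R, orderOf x = t * u := fun u hu hut hd => by
    obtain ⟨X, hX, hX'⟩ := exists_card_prime_le hu hd
    have h6 : #(N ⊔ X) = t * u := by
      rw [card_sup_of_inf (hX.trans hm.nrm) ((pGrp_of_card_prime ht hc).cop_of_ne (pGrp_of_card_prime hu hX') hut.symm).inf, hc, hX']
    have h7 := (sup_le hN hX).trans hH.le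
    obtain ⟨x, hx, -, h8⟩ := (regular_pq_group_cyclic ht hu h6 h1 hV (h7.trans hn) (h.mono_right h7)).exists_gen
    exact ⟨x, h7 hx, h8.trans h6⟩
  rcases hH.pi.mem ht (hc ▸ card_dvd hN) with rfl | rfl
  · exact key r hr hne.symm h5
  · exact mul_comm q t ▸ key q hq hne h4

theorem exists_orderOf_mul_of_comm {y : G} (hp : p.Prime) (hq : q.Prime) (hne : p ≠ q) (h1 : p ∣ orderOf x)
    (h2 : q ∣ orderOf y) (h : x * y = y * x) : ∃ z ∈ ⟪x⟫ ⊔ ⟪y⟫, orderOf z = p * q := by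
  obtain ⟨a, ha, ha'⟩ := H27.exists_orderOf_of_dvd h1
  obtain ⟨b, hb, hb'⟩ := H27.exists_orderOf_of_dvd h2
  refine ⟨a * b, mul_mem (mem_sup_left ha) (mem_sup_right hb), ?_⟩
  rw [orderOf_mul_of_coprime _ (ha' ▸ hb' ▸ (Nat.coprime_primes hp hq).2 hne), ha', hb']
  exact Ab.comm ((ab_zpowers x).sup (ab_zpowers y) (zpowers_le.2 (by rw [cen_zpowers, mem_cen1, h])))
    (mem_sup_left ha) (mem_sup_right hb)

/-- the three primes lemma for solvable groups -/
theorem three_primes (hs : Sol M) (hp : p.Prime) (hq : q.Prime) (hr : r.Prime) (hpq : p ≠ q) (hpr : p ≠ r) (hqr : q ≠ r)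
    (h1 : p ∣ #M) (h2 : q ∣ #M) (h3 : r ∣ #M) :
    ∃ x ∈ M, orderOf x = p * q ∨ orderOf x = p * r ∨ orderOf x = q * r := by
  obtain ⟨H, hH⟩ := Hall_exists {p, q, r} hs
  have hs' := hs.mono hH.le
  obtain ⟨N, hN, hm⟩ := exists_minNml (ne_bot_of_prime_dvd hp (hH.dvd_card hp (by simp) h1)) (le_nrm H)
  obtain ⟨t, ht, hab⟩ := hm.abelem (hs'.mono hN)
  have key : ∀ u v, u.Prime → v.Prime → t ≠ u → t ≠ v → u ≠ v → u ∣ #H → v ∣ #H →
      ∃ x ∈ M, orderOf x = t * u ∨ orderOf x = t * v ∨ orderOf x = u * v := fun u v hu hv h4 h5 h6 h7 h8 => by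
    obtain ⟨R, hR⟩ := Hall_exists {u, v} hs'
    by_cases h : FT.SemiReg N R
    · obtain ⟨x, hx, e⟩ := exists_orderOf_mul_of_semiReg hab.sol hm.ne (hR.le.trans hm.nrm) h (hs'.mono hR.le) hu hv h6
        (hR.dvd_card hu (by simp) h7) (hR.dvd_card hv (by simp) h8)
      exact ⟨x, hH.le (hR.le hx), Or.inr (Or.inr e)⟩
    rw [FT.semiReg_iff] at h
    push Not at h
    obtain ⟨x, hx, hx1, y, hy, e, hy1⟩ := h
    obtain ⟨w, hw, hw'⟩ := Nat.exists_prime_and_dvd (orderOf_eq_one_iff.not.2 hx1)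
    have h9 := (hR.pi.piElt hx).mem hw hw'
    obtain ⟨z, hz, e'⟩ := exists_orderOf_mul_of_comm ht hw (by rintro rfl; simp [h4, h5] at h9)
      (hab.orderOf ht hy hy1).symm.dvd hw' e
    refine ⟨z, hH.le (sup_le (zpowers_le.2 (hN hy)) (zpowers_le.2 (hR.le hx)) hz), ?_⟩
    rcases h9 with rfl | rfl
    · exact Or.inl e'
    · exact Or.inr (Or.inl e')
  have h4 := hH.dvd_card hp (by simp) h1
  have h5 := hH.dvd_card hq (by simp) h2
  have h6 := hH.dvd_card hr (by simp) h3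
  rcases hH.pi.mem ht (((hab.pGrp ht).dvd hm.ne).trans (card_dvd hN)) with rfl | rfl | rfl
  · exact key q r hq hr hpq hpr hqr h5 h6
  · obtain ⟨x, hx, h⟩ := key p r hp hr hpq.symm hqr hpr h4 h6
    exact ⟨x, hx, by rw [mul_comm p t]; tauto⟩
  · obtain ⟨x, hx, h⟩ := key p q hp hq hpr.symm hqr.symm hpq h4 h5
    exact ⟨x, hx, by rw [mul_comm p t, mul_comm q t]; tauto⟩

theorem exists_comm_eq (hn : x ∈ N(K)) (hf : ∀ k ∈ K, k * x = x * k → k = 1) {k : G} (hk : k ∈ K) :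
    ∃ g ∈ K, ⁅g, x⁆ = k := by
  have hm : ∀ b ∈ K, ⁅b, x⁆ ∈ K := fun b hb => by
    rw [commutatorElement_def, mul_assoc, mul_assoc, ← mul_assoc x]; exact mul_mem hb (conj_mem hn (inv_mem hb))
  obtain ⟨g, e⟩ := Finite.surjective_of_injective (f := fun b : K => (⟨⁅(b : G), x⁆, hm b b.2⟩ : K)) (fun b c e => by
    have e' : ⁅(b : G), x⁆ = ⁅(c : G), x⁆ := congrArg Subtype.val e
    rw [commutatorElement_def, commutatorElement_def, mul_left_inj] at e'
    refine Subtype.ext (inv_mul_eq_one.1 (hf _ (mul_mem (inv_mem c.2) b.2) ?_)).symm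
    calc _ = (c : G)⁻¹ * (b * x * (b : G)⁻¹) * b := by group
      _ = _ := by rw [e']; group) ⟨k, hk⟩
  exact ⟨g, g.2, congrArg Subtype.val e⟩

theorem cube_of_fpf (hn : x ∈ N(K)) (hx : x ^ 3 = 1) (hf : ∀ k ∈ K, k * x = x * k → k = 1) {k : G} (hk : k ∈ K) :
    (k * x) ^ 3 = 1 := by
  obtain ⟨g, -, rfl⟩ := exists_comm_eq hn hf hk
  rw [commutatorElement_def, inv_mul_cancel_right, conj_pow, hx, mul_one, mul_inv_cancel]

theorem ring_three {A : Type*} [Ring A] {b s t : A} (hb : b * b + b + 1 = 0) (hs : s * b + b * s + s = 0)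
    (ht : t * b + b * t + t = 0) {d : A} (hd : d = (b + s) * b * b * (b + t)) (h : d * b + b * d + d + b + 1 + 1 = 0) :
    s * t + s * t + s * t = 0 := by
  have b3 : b * b * b = 1 := by linear_combination (norm := noncomm_ring) (b - 1) * hb
  have h1 : b * s = s * b * b := by linear_combination (norm := noncomm_ring) hs - s * hb
  have h2 : b * t = t * b * b := by linear_combination (norm := noncomm_ring) ht - t * hb
  have h3 : b * b * t = t * b := by linear_combination (norm := noncomm_ring) b * h2 + h2 * (b * b) + t * b3 * b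
  have h4 : d = b + s + t + s * t * b := by
    linear_combination (norm := noncomm_ring) hd + b3 * b + b3 * t + s * b3 + s * h3
  have h5 : s * t * (b * b - 1) = 0 := by
    rw [h4] at h
    linear_combination (norm := noncomm_ring) h - hs - ht - hb - hb - h1 * (t * b) - s * h3 * b - s * t * hb
  linear_combination (norm := noncomm_ring) - h5 * ((b * b - 1) * b) + s * t * (b * b - 1 - 1) * b3 + s * t * hb

theorem ring_three' {A : Type*} [Ring A] {a b c d : A} (hb : b * b + b + 1 = 0) (ha : a * b + b * a + a + b + 1 + 1 = 0)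
    (hc : c * b + b * c + c + b + 1 + 1 = 0) (hd : d = a * b * b * c) (h : d * b + b * d + d + b + 1 + 1 = 0) :
    (a - b) * (c - b) + (a - b) * (c - b) + (a - b) * (c - b) = 0 :=
  ring_three hb (by linear_combination (norm := noncomm_ring) ha - hb - hb)
    (by linear_combination (norm := noncomm_ring) hc - hb - hb) (by rw [hd, add_sub_cancel, add_sub_cancel]) h

theorem ring_rel {A : Type*} [Ring A] {a b : A} (ha : a * a + a + 1 = 0) (hb : b * b + b + 1 = 0)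
    (h : a * b * (a * b) + a * b + 1 = 0) : a * b + b * a + a + b + 1 + 1 = 0 := by
  linear_combination (norm := noncomm_ring) (1 + b) * (1 + a) * h - ((1 + b) * ha * b - hb) * (a * b + 1)

theorem ring_fin {A : Type*} [Ring A] {a b c : A} (hb : b * b + b + 1 = 0) (h4 : (a * b - b) * (c * b - b) = 0)
    (h5 : c * b * b + b * (c * b) + c * b + b + 1 + 1 = 0) : a * c = a + c - 1 := by
  have b3 : b * b * b = 1 := by linear_combination (norm := noncomm_ring) (b - 1) * hb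
  have h2 : b * (c * b - b) = (c * b - b) * b * b := by
    linear_combination (norm := noncomm_ring) h5 - hb - hb - (c * b - b) * hb
  have h6 : b * b * (c * b - b) = (c * b - b) * b := by
    linear_combination (norm := noncomm_ring) b * h2 + h2 * (b * b) + (c * b - b) * b3 * b
  linear_combination (norm := noncomm_ring) h4 * (b * b * b) + (a - 1) * b * h6 * (b * b) -
    (a - 1) * b3 * (c - 1) * (b * b * b) - (a - 1) * (c - 1) * b3

theorem comm_conj_of_cube {y k : G} (hy : y ^ 3 = 1) (h1 : (k * y) ^ 3 = 1) (h2 : (k⁻¹ * y) ^ 3 = 1) :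
    k * (y * k * y⁻¹) * (y * y * k * (y * y)⁻¹) = 1 ∧ k * (y * k * y⁻¹) = y * k * y⁻¹ * k := by
  have e : ∀ k : G, k * (y * k * y⁻¹) * (y * y * k * (y * y)⁻¹) = (k * y) ^ 3 * (y ^ 3)⁻¹ := fun k => by
    simp only [pow_succ, pow_zero]; group
  have e1 := e k
  have e2 := e k⁻¹
  rw [h1, hy, inv_one, mul_one] at e1
  rw [h2, hy, inv_one, mul_one] at e2
  refine ⟨e1, (eq_inv_of_mul_eq_one_left e1).trans ?_⟩
  calc _ = (y * k * y⁻¹) * k * (k⁻¹ * (y * k⁻¹ * y⁻¹) * (y * y * k⁻¹ * (y * y)⁻¹)) := by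
        simp only [mul_assoc, mul_inv_rev, inv_inv, inv_mul_cancel_left, mul_inv_cancel_left]
    _ = _ := by rw [e2, mul_one]

/-- Neumann: a group with a fixed-point-free automorphism of order three has class at most two -/
theorem neumann (hn : x ∈ N(K)) (hx : x ^ 3 = 1) (hf : ∀ k ∈ K, k * x = x * k → k = 1) : ⁅K, K⁆ ≤ C(K) := by
  classical
  by_cases h1 : x = 1
  · exact (der_le K).trans fun k hk => hf k hk (by rw [h1, one_mul, mul_one]) ▸ one_mem _
  haveI := Fact.mk Nat.prime_three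
  have ho : #⟪x⟫ = 3 := (card_zpowers' x).trans (orderOf_eq_prime hx h1)
  have h3 : (#K).Coprime 3 := ho ▸ (semiReg_of_prime (ho ▸ Nat.prime_three) (le_bot_iff.1 fun k hk =>
    hf k hk.1 (mem_cen.1 hk.2 x (mem_zpowers x)).symm)).cop (zpowers_le.2 hn)
  have hY : ∀ y, y * x⁻¹ ∈ K ∨ y * x ∈ K → ∀ k ∈ K, (k * y) ^ 3 = 1 := fun y hy k hk => by
    rcases hy with hy | hy
    · simpa only [mul_assoc, inv_mul_cancel, mul_one] using cube_of_fpf hn hx hf (mul_mem hk hy)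
    · simpa only [mul_assoc, mul_inv_cancel, mul_one] using cube_of_fpf (inv_mem hn) (by rw [inv_pow, hx, inv_one])
        (fun k hk e => hf k hk (Commute.inv_right_iff.1 e)) (mul_mem hk hy)
  have hE : ∀ y, y * x⁻¹ ∈ K ∨ y * x ∈ K → ∀ k ∈ K, _ := fun y hy k hk =>
    comm_conj_of_cube (one_mul y ▸ hY y hy 1 (one_mem _)) (hY y hy k hk) (hY y hy _ (inv_mem hk))
  have hxx : x * x * x = 1 := by rw [← hx, pow_succ, sq]
  have hH : ∀ g ∈ K ⊔ ⟪x⟫, g ∈ K ∨ g * x⁻¹ ∈ K ∨ g * x ∈ K := fun g hg => by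
    obtain ⟨a, ha, b, hb, rfl⟩ := (mem_sup_norm (zpowers_le.2 hn)).1 hg
    obtain ⟨i, hi, rfl⟩ := Finset.mem_image.1 (mem_zpowers_iff_mem_range_orderOf.1 hb)
    rw [← card_zpowers', ho, Finset.mem_range] at hi
    interval_cases i
    · exact Or.inl (by simpa using ha)
    · exact Or.inr (Or.inl (by simpa using ha))
    · exact Or.inr (Or.inr (by rwa [mul_assoc, ← pow_succ, hx, mul_one]))
  have hc : ∀ g ∈ K ⊔ ⟪x⟫, ∀ k ∈ K, k * (g * k * g⁻¹) = g * k * g⁻¹ * k := fun g hg k hk => by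
    rcases hH g hg with h | h
    · have e1 : Commute k _ := (hE (g * x) (Or.inl (by simpa using h)) k hk).2
      have e2 : Commute k _ := (hE (g * (x * x)) (Or.inr (by rwa [mul_assoc, hxx, mul_one])) k hk).2
      have e3 : g * k * g⁻¹ = (g * x * k * (g * x)⁻¹ * (g * (x * x) * k * (g * (x * x))⁻¹))⁻¹ := by
        have e := eq_inv_of_mul_eq_one_left ((mul_assoc _ _ _).symm.trans (hE x (Or.inl (by simp)) k hk).1)
        calc _ = g * (x * k * x⁻¹ * (x * x * k * (x * x)⁻¹))⁻¹ * g⁻¹ := by rw [← e]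
          _ = _ := by simp only [mul_assoc, mul_inv_rev, inv_inv, inv_mul_cancel_left]
      exact e3 ▸ (e1.mul_right e2).inv_right
    · exact (hE g h k hk).2
  refine centsC fun n hnK => ?_
  let V := closure {v | ∃ g ∈ K ⊔ ⟪x⟫, v = g * n * g⁻¹}
  have hKn : K ⊔ ⟪x⟫ ≤ N(K) := sup_le (le_nrm K) (zpowers_le.2 hn)
  have hVK : V ≤ K := (closure_le _).2 (by rintro _ ⟨g, hg, rfl⟩; exact conj_mem (hKn hg) hnK)
  have hVn : K ⊔ ⟪x⟫ ≤ N(V) := norms_closure (by
    rintro g hg _ ⟨h, hh, rfl⟩; exact ⟨g * h, mul_mem hg hh, by group⟩)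
  have hV : Ab V := by
    refine ab_iff.2 ((closure_le _).2 ?_)
    rintro _ ⟨g, hg, rfl⟩
    refine centsC ((closure_le _).2 ?_) (mem_zpowers _)
    rintro _ ⟨h, hh, rfl⟩
    have := hc (h * g⁻¹) (mul_mem hh (inv_mem hg)) _ (conj_mem (hKn hg) hnK)
    rw [cen_zpowers, SetLike.mem_coe, mem_cen1, ← show h * g⁻¹ * (g * n * g⁻¹) * (h * g⁻¹)⁻¹ = h * n * h⁻¹ by group, this]
  letI : CommGroup V := { (inferInstance : Group V) with mul_comm := hV.is_comm.comm }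
  let ρ : (K ⊔ ⟪x⟫ : Subgroup G) →* AddMonoid.End (Additive V) :=
    { toFun := fun g => MonoidHom.toAdditive (V.normalizerMonoidHom (inclusion hVn g)).toMonoidHom
      map_one' := by rw [map_one, map_one]; rfl
      map_mul' := fun x y => by rw [map_mul, map_mul]; rfl }
  have hρ : ∀ g (v : Additive V), ((ρ g v).toMul : G) = g * v.toMul * (g : G)⁻¹ := fun _ _ => rfl
  have q1 : ∀ y : (K ⊔ ⟪x⟫ : Subgroup G), (y : G) * x⁻¹ ∈ K ∨ (y : G) * x ∈ K → ρ y * ρ y + ρ y + 1 = 0 := fun y hy => by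
    rw [← map_mul, add_comm, add_comm (ρ (y * y)), ← add_assoc]
    exact AddMonoidHom.ext fun v => Subtype.ext (hE y hy _ (hVK v.toMul.2)).1
  let X : (K ⊔ ⟪x⟫ : Subgroup G) := ⟨x, mem_sup_right (mem_zpowers x)⟩
  have hb := q1 X (Or.inl (by simp [X]))
  have q2 : ∀ y : (K ⊔ ⟪x⟫ : Subgroup G), (y : G) * x⁻¹ ∈ K → ρ y * ρ X + ρ X * ρ y + ρ y + ρ X + 1 + 1 = 0 := fun y hy => by
    have h4 := q1 y (Or.inl hy)
    have h5 := q1 (y * X) (Or.inr (by
      rwa [show ((y * X : (K ⊔ ⟪x⟫ : Subgroup G)) : G) * x = y * x⁻¹ * (x * x * x) by simp [X, mul_assoc], hxx, mul_one]))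
    rw [map_mul] at h5
    exact ring_rel h4 hb h5
  have q3 : ∀ g h : (K ⊔ ⟪x⟫ : Subgroup G), (g : G) ∈ K → (h : G) ∈ K → (ρ (g * X) - ρ X) * (ρ (h * X) - ρ X) = 0 :=
    fun g h hg hh => by
      have := ring_three' hb (q2 (g * X) (by simpa [X] using hg)) (q2 (h * X) (by simpa [X] using hh))
        (d := ρ (g * X * X * X * (h * X))) (by simp only [map_mul]) (q2 _ (by
          rw [show ((g * X * X * X * (h * X) : (K ⊔ ⟪x⟫ : Subgroup G)) : G) * x⁻¹ = g * (x * x * x) * h by simp [X, mul_assoc],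
            hxx, mul_one]
          exact mul_mem hg hh))
      generalize (ρ (g * X) - ρ X) * (ρ (h * X) - ρ X) = u at this
      refine AddMonoidHom.ext fun v => ?_
      have h6 : (u v).toMul ^ 3 = 1 := by
        rw [pow_succ, sq]; exact DFunLike.congr_fun this v
      exact orderOf_eq_one_iff.1 (Nat.eq_one_of_dvd_coprimes h3 ((_root_.orderOf_dvd_natCard _).trans (card_dvd hVK))
        (orderOf_dvd_of_pow_eq_one h6))
  have q4 : ∀ g h : (K ⊔ ⟪x⟫ : Subgroup G), (g : G) ∈ K → (h : G) ∈ K → ρ g * ρ h = ρ g + ρ h - 1 := fun g h hg hh => by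
    have h4 := q3 g h hg hh
    have h5 := q2 (h * X) (by simpa [X] using hh)
    rw [map_mul] at h4 h5
    rw [map_mul] at h4
    exact ring_fin hb h4 h5
  rw [← le_cen1]
  refine commutator_le.2 fun g hg h hh => mem_cen1.2 ?_
  have h4 := q4 ⟨g, mem_sup_left hg⟩ ⟨h, mem_sup_left hh⟩ hg hh
  rw [add_comm, ← q4 _ _ hh hg, ← map_mul, ← map_mul] at h4
  have hv : (h * g)⁻¹ * n * (h * g) ∈ V := conj_mem' (hVn (mem_sup_left (mul_mem hh hg)))
    (subset_closure ⟨1, one_mem _, by simp⟩)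
  have h5 : g * h * ((h * g)⁻¹ * n * (h * g)) * (g * h)⁻¹ = h * g * ((h * g)⁻¹ * n * (h * g)) * (h * g)⁻¹ :=
    ((hρ _ (Additive.ofMul ⟨_, hv⟩)).symm.trans (h4 ▸ hρ _ (Additive.ofMul ⟨_, hv⟩))).symm
  rw [commutatorElement_def]
  calc _ = g * h * ((h * g)⁻¹ * n * (h * g)) * (g * h)⁻¹ * (g * h * g⁻¹ * h⁻¹) := by group
    _ = _ := by rw [h5]; group

theorem comm_mul_left (hz : ⁅K, K⁆ ≤ C(K)) {a b c : G} (ha : a ∈ K) (hb : b ∈ K) (hc : c ∈ K) :
    ⁅a * b, c⁆ = ⁅b, c⁆ * ⁅a, c⁆ := by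
  rw [show ⁅a * b, c⁆ = a * ⁅b, c⁆ * a⁻¹ * ⁅a, c⁆ by simp only [commutatorElement_def]; group,
    mem_cen.1 (hz (commutator_mem_commutator hb hc)) a ha, mul_inv_cancel_right]

theorem comm_mul_right (hz : ⁅K, K⁆ ≤ C(K)) {a b c : G} (ha : a ∈ K) (hb : b ∈ K) (hc : c ∈ K) :
    ⁅c, a * b⁆ = ⁅c, a⁆ * ⁅c, b⁆ := by
  rw [show ⁅c, a * b⁆ = ⁅c, a⁆ * (a * ⁅c, b⁆ * a⁻¹) by simp only [commutatorElement_def]; group,
    mem_cen.1 (hz (commutator_mem_commutator hc hb)) a ha, mul_inv_cancel_right]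

/-- `S₃` acting with a fixed-point-free element of order three, exponent four -/
theorem sq_eq_one_of_s3 {t : G} (hn : x ∈ N(K)) (hx : x ^ 3 = 1) (hf : ∀ k ∈ K, k * x = x * k → k = 1) (ht : t ∈ N(K))
    (ht2 : t * t = 1) (htx : t * x * t⁻¹ = x⁻¹) (h4 : ∀ k ∈ K, (k * t) ^ 4 = 1) : ∀ k ∈ K, k ^ 2 = 1 := by
  have hz := neumann hn hx hf
  have ti : t⁻¹ = t := inv_eq_of_mul_eq_one_right ht2
  have xi : x⁻¹ = x * x := inv_eq_of_mul_eq_one_right (by rw [← mul_assoc, ← hx, pow_succ, sq])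
  have e : ∀ g, (g * t) ^ 2 = g * (t * g * t⁻¹) := fun g => by rw [ti, sq]; simp only [mul_assoc]
  have hm : ∀ g ∈ K, (g * t) ^ 2 ∈ K := fun g hg => e g ▸ mul_mem hg (conj_mem ht hg)
  have h2 : ∀ g ∈ K, (g * t) ^ 2 * (g * t) ^ 2 = 1 := fun g hg => by rw [← pow_add, h4 g hg]
  have cm : ∀ i j : G, i * i = 1 → j * j = 1 → i * j * (i * j) = ⁅i, j⁆ := fun i j hi hj => by
    rw [commutatorElement_def, inv_eq_of_mul_eq_one_right hi, inv_eq_of_mul_eq_one_right hj, ← mul_assoc]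
  have hc : ∀ g ∈ K, x * (g * t) ^ 2 * x⁻¹ * (x * (g * t) ^ 2 * x⁻¹) = 1 := fun g hg => by
    rw [conj_mul, h2 g hg, mul_one, mul_inv_cancel]
  have dec : ∀ k ∈ K, ∃ g ∈ K, ∃ h ∈ K, k = x * (g * t) ^ 2 * x⁻¹ * (h * t) ^ 2 := fun k hk => by
    obtain ⟨g, hg, e1⟩ := exists_comm_eq (inv_mem hn) (fun k hk e => hf k hk (Commute.inv_right_iff.1 e))
      (conj_mem' (mul_mem (mul_mem hn ht) (inv_mem hn)) hk)
    refine ⟨_, conj_mem (mul_mem ht (inv_mem hn)) hg, _, inv_mem hg, ?_⟩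
    have e2 : x * t * x⁻¹ * t = x⁻¹ := by
      have e3 : t * x⁻¹ * t⁻¹ = x := by rw [← conj_inv, htx, inv_inv]
      rw [mul_assoc x, mul_assoc x, ← ti, xi, ← xi, ti]
      conv_lhs => enter [2, 2]; rw [← ti]
      rw [e3, xi]
    have e4 : x * t * x⁻¹ * x⁻¹ * t = 1 := by
      conv_lhs => enter [1, 2]; rw [← e2]
      calc _ = x * (t * t) * x⁻¹ * (t * t) := by
            simp only [mul_assoc, inv_mul_cancel_left]
        _ = 1 := by rw [ht2, mul_one, mul_one, mul_inv_cancel]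
    calc k = k * (x * t * x⁻¹ * x⁻¹ * t) := by rw [e4, mul_one]
      _ = x * t * x⁻¹ * ⁅g, x⁻¹⁆ * x⁻¹ * t := by
        rw [e1]; simp only [mul_assoc, mul_inv_rev, inv_inv, inv_mul_cancel_left, mul_inv_cancel_left]
      _ = x * t * x⁻¹ * g * (x * t * x⁻¹ * t) * g⁻¹ * t := by
        rw [e2, commutatorElement_def]
        simp only [mul_assoc, mul_inv_rev, inv_inv, inv_mul_cancel_left, mul_inv_cancel_left]
      _ = _ := by simp only [sq, mul_assoc, mul_inv_rev, inv_inv, inv_mul_cancel_left, mul_inv_cancel_left]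
  have hsq : ∀ k ∈ K, k * k ∈ C(K) := fun k hk => by
    obtain ⟨g, hg, h, hh, rfl⟩ := dec k hk
    rw [cm _ _ (hc g hg) (h2 h hh)]
    exact hz (commutator_mem_commutator (conj_mem hn (hm g hg)) (hm h hh))
  have hA : ∀ g ∈ K, ∀ h ∈ K, ⁅(g * t) ^ 2, (h * t) ^ 2⁆ = 1 := fun g hg h hh => by
    have h5 := conj_mem ht hg
    have h6 := mem_cen.1 (hz (commutator_mem_commutator h5 hh))
    have h7 : ⁅t * g * t⁻¹, h⁆ * ⁅t * g * t⁻¹, h⁆ = 1 := by
      rw [← comm_mul_left hz h5 h5 hh, commutatorElement_eq_one_iff_mul_comm, mem_cen.1 (hsq _ h5) h hh]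
    have h8 : (g * t) ^ 2 * (h * t) ^ 2 = ⁅t * g * t⁻¹, h⁆ * (g * h * t) ^ 2 := by
      rw [e, e, e, ← mul_assoc ⁅_, _⁆, ← mul_assoc ⁅_, _⁆, ← h6 g hg, commutatorElement_def]; group
    have h9 := h6 _ (hm _ (mul_mem hg hh))
    have h10 := h2 _ (mul_mem hg hh)
    rw [← cm _ _ (h2 g hg) (h2 h hh), h8]
    generalize ⁅t * g * t⁻¹, h⁆ = z at *
    generalize (g * h * t) ^ 2 = w at *
    rw [mul_assoc, ← mul_assoc w, h9, mul_assoc, h10, mul_one, h7]
  intro k hk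
  obtain ⟨g, hg, h, hh, rfl⟩ := dec k hk
  rw [sq, cm _ _ (hc g hg) (h2 h hh), ← commutatorElement_inv, inv_eq_one]
  have hab := hA g hg h hh
  have ha := hm g hg
  have hb := hm h hh
  generalize (g * t) ^ 2 = a at *
  generalize (h * t) ^ 2 = b at *
  have hE : ∀ k ∈ K, _ := fun k hk => comm_conj_of_cube hx (cube_of_fpf hn hx hf hk) (cube_of_fpf hn hx hf (inv_mem hk))
  have hE2 : ∀ k ∈ K, ⁅k, x * k * x⁻¹⁆ = 1 := fun k hk => commutatorElement_eq_one_iff_mul_comm.2 (hE k hk).2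
  have ha' := conj_mem hn ha
  have hb' := conj_mem hn hb
  have h5 := hE2 _ (mul_mem ha hb)
  rw [← conj_mul, comm_mul_left hz ha hb (mul_mem ha' hb'), comm_mul_right hz ha' hb' hb, comm_mul_right hz ha' hb' ha,
    hE2 a ha, hE2 b hb, mul_one, one_mul] at h5
  have h6 : x * ⁅b, x * a * x⁻¹⁆ * x⁻¹ = ⁅b, x * a * x⁻¹⁆⁻¹ := by
    have h7 := comm_mul_right hz (mul_mem ha ha') (conj_mem (mul_mem hn hn) ha) hb'
    rw [(hE a ha).1, comm_mul_right hz ha ha' hb', commutatorElement_one_right, ← conjugate_commutatorElement b a x,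
      ← commutatorElement_inv a b, hab, inv_one, mul_one, mul_inv_cancel, mul_one, ← commutatorElement_inv a] at h7
    rw [conjugate_commutatorElement, ← eq_inv_of_mul_eq_one_right h5, inv_mul_eq_one.1 h7.symm]
    congr 1; simp only [mul_assoc, mul_inv_rev]
  refine hf _ (der_le K (commutator_mem_commutator hb ha')) (Commute.inv_right_iff.1 ?_)
  generalize ⁅b, x * a * x⁻¹⁆ = c at h6
  rw [xi]
  refine (mul_inv_eq_iff_eq_mul.1 ?_).symm
  calc _ = x * (x * c * x⁻¹) * x⁻¹ := by simp only [mul_assoc, mul_inv_rev]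
    _ = (x * c * x⁻¹)⁻¹ := by rw [conj_inv, ← h6]
    _ = _ := by rw [h6, inv_inv]

/-- groups whose element orders are at most four -/
theorem orders_le_four (h : ∀ x : G, orderOf x ≤ 4) (h2 : 2 ∣ #(⊤ : Subgroup G)) (h3 : 3 ∣ #(⊤ : Subgroup G)) :
    (∃ V S : Subgroup G, Abelem 3 V ∧ V ≠ ⊥ ∧ Syl 2 S ⊤ ∧ SD V S ⊤ ∧ FT.SemiReg V S) ∨
    ∃ N H : Subgroup G, PGrp 2 N ∧ SD N H ⊤ ∧ (#H = 3 ∧ ⁅N, N⁆ ≤ C(N) ∨
      Nonempty (H ≃* Equiv.Perm (Fin 3)) ∧ Abelem 2 N ∧ ∃ t, t ∉ C(N) ∧ PGrp 2 (N ⊔ ⟪t⟫)) := by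
  have p2 := Nat.prime_two
  have p3 := Nat.prime_three
  have hπ : ∀ r, r.Prime → r ∣ #(⊤ : Subgroup G) → r = 2 ∨ r = 3 := fun r hr hd => by
    obtain ⟨x, -, hx⟩ := exists_elt_of_prime_dvd hr hd
    have h4 := hx ▸ h x
    have := hr.two_le
    interval_cases r <;> simp_all <;> norm_num at hr
  have hs : Sol (⊤ : Subgroup G) := sol_of_two_primes p2 p3 hπ
  have h23 : ∀ A : Subgroup G, PiGrp {3}ᶜ A → PGrp 2 A := fun A hA r hr hd =>
    (hπ r hr (hd.trans (card_dvd le_top))).resolve_right (hA r hr hd)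
  have h32 : ∀ A : Subgroup G, PiGrp {2}ᶜ A → PGrp 3 A := fun A hA r hr hd =>
    (hπ r hr (hd.trans (card_dvd le_top))).resolve_left (hA r hr hd)
  have dv : ∀ (p : ℕ) (A : Subgroup G), PGrp p A → ∀ x ∈ A, x ≠ 1 → p ∣ orderOf x := fun p A hA x hx h1 =>
    (hA.piElt hx).zpowers.dvd (zpowers_ne_bot.2 h1) |>.trans (card_zpowers' x).dvd
  have reg : ∀ A B : Subgroup G, PGrp 2 A → PGrp 3 B → FT.SemiReg A B := fun A B hA hB =>
    FT.semiReg_iff.2 fun x hx hx1 y hy e => by_contra fun hy1 => by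
      obtain ⟨z, -, hz⟩ := exists_orderOf_mul_of_comm p2 p3 (by norm_num) (dv 2 A hA y hy hy1) (dv 3 B hB x hx hx1) e
      have := h z; omega
  have cube : ∀ B : Subgroup G, PGrp 3 B → ∀ x ∈ B, x ^ 3 = 1 := fun B hB x hx => by
    by_cases h1 : x = 1
    · rw [h1, one_pow]
    have h4 := dv 3 B hB x hx h1
    have := h x
    have := orderOf_pos x
    rw [show 3 = orderOf x by omega, pow_orderOf_eq_one]
  have sq2 : ∀ u : G, orderOf u = 2 → u * u = 1 := fun u hu => by rw [← sq, ← hu, pow_orderOf_eq_one]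
  have inv : ∀ u : G, orderOf u = 2 → ∀ B : Subgroup G, PGrp 3 B → u ∈ N(B) → ∀ k ∈ B, u * k * u⁻¹ = k⁻¹ :=
    fun u hu B hB hn k hk => H5b.conj_eq_inv_of_reg hn (sq2 u hu)
      ((reg ⟪u⟫ B (pGrp_of_card_prime p2 ((card_zpowers' u).trans hu)) hB).symm.cent1 (mem_zpowers u)
        (by rintro rfl; simp at hu)) hk
  obtain ⟨T, hT⟩ := exists_syl 3 (⊤ : Subgroup G)
  by_cases hV1 : O[{3}]((⊤ : Subgroup G)) = ⊥
  · refine Or.inr ⟨O[{3}ᶜ](⊤), N(T), h23 _ (pcore_pi _ _), ?_⟩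
    have hN1 : O[{3}ᶜ]((⊤ : Subgroup G)) ≠ ⊥ := hs.pcore_ne_bot (ne_bot_of_prime_dvd p2 h2) (by rwa [compl_compl])
    have hN := h23 _ (pcore_pi {3}ᶜ (⊤ : Subgroup G))
    have hn : ∀ X : Subgroup G, X ≤ N(O[{3}ᶜ]((⊤ : Subgroup G))) := fun X => le_top.trans (pcore_nrm _ _)
    have hT1 : T ≠ ⊥ := ne_bot_of_prime_dvd p3 (hT.dvd_card p3 rfl h3)
    have hc := odd_regular_pgroup_cyclic hT.pi (odd_of_two' (hT.pi.p' (by norm_num))) hN1 (hn T) (reg _ _ hN hT.pi)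
    have hT3 : #T = 3 := (abelem_iff.2 ⟨hc.ab, cube T hT.pi⟩).card_of_cyc p3 hc hT1
    have hF := ppCore_frattini p3 (hT.subl ((le_inf le_rfl (ab_iff.1 hc.ab)).trans (center_syl_le_ppCore p3 hs hT))
      (ppCore_le _ _))
    rw [top_inf_eq] at hF
    refine ⟨sd_of_mulEq hF (hn _) (by
      rw [coprime_norm_cent (hn T) (hN.cop_of_ne hT.pi (by norm_num)), (reg _ _ hN hT.pi).cent le_rfl hT1]), ?_⟩
    generalize O[{3}ᶜ]((⊤ : Subgroup G)) = N at *
    have hC : C(T) = T := hT.max (h32 _ (p'grp_of_not_dvd fun hd => by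
      obtain ⟨X, hX, hX'⟩ := exists_card_prime_le p2 hd
      have := (reg X T (pGrp_of_card_prime p2 hX') hT.pi).cent le_rfl hT1
      rw [inf_of_le_left hX] at this
      simp [this] at hX')) (ab_iff.1 hc.ab) le_top
    have hi := relIndex_cen_dvd_pred p3 hT3 le_rfl
    have hH := FT.card_mul_relIndex (le_nrm T)
    obtain ⟨x, hx, hx', hx3⟩ := hc.exists_gen
    rw [hT3] at hx3 hH
    have hx1 : x ≠ 1 := by rintro rfl; simp at hx3
    have hf : ∀ k ∈ N, k * x = x * k → k = 1 := fun k hk => (reg _ _ hN hT.pi).eq_one hx hx1 hk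
    have hxn := hn ⊤ (mem_top x)
    rw [hC] at hi
    rcases (Nat.dvd_prime p2).1 hi with e | e <;> rw [e] at hH
    · exact Or.inl ⟨hH.symm, neumann hxn (cube T hT.pi x hx) hf⟩
    obtain ⟨t, ht, ht2⟩ := exists_elt_of_prime_dvd p2 (hH ▸ dvd_mul_left 2 3)
    have htx := inv t ht2 T hT.pi ht x hx
    have hP : PGrp 2 (N ⊔ ⟪t⟫) := hN.sup (pGrp_of_card_prime p2 ((card_zpowers' t).trans ht2)) (hn _)
    have h4 := sq_eq_one_of_s3 hxn (cube T hT.pi x hx) hf (hn ⊤ (mem_top t)) (sq2 t ht2) htx fun k hk => by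
      have h5 := hP.piElt (mul_mem (mem_sup_left hk) (mem_sup_right (mem_zpowers t)))
      have h6 := h (k * t)
      have := orderOf_pos (k * t)
      have h7 : orderOf (k * t) ≠ 3 := fun e => by simpa using (piElt_of_orderOf_prime p3 e).1 h5
      refine orderOf_dvd_iff_pow_eq_one.1 ?_
      interval_cases orderOf (k * t) <;> simp_all
    refine Or.inr ⟨?_, abelem_iff.2 ⟨ab_of_sq h4, h4⟩, t, fun htc => ?_, hP⟩
    · have h5 : orderOf (⟨x, le_nrm T hx⟩ : N(T)) = 3 := (orderOf_mk _ _).trans hx3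
      obtain ⟨e⟩ := H10.nonempty_equiv_dihedral (c := (⟨x, le_nrm T hx⟩ : N(T))) (s := ⟨t, ht⟩) (Subtype.ext (sq2 t ht2))
        (Subtype.ext htx) (fun ⟨i, hi⟩ => by
          have := orderOf_dvd_card' (show t ∈ T from (show x ^ i = t from congrArg Subtype.val hi) ▸ zpow_mem hx i)
          rw [ht2, hT3] at this; omega) (by rw [h5, ← hH])
      rw [h5] at e
      exact H29.dihedral_three_equiv.map e.trans
    · obtain ⟨k, hk, hk1⟩ := exists_ne_one hN1
      have h5 := mul_mem (conj_mem (norms_cent (hn ⊤) (mem_top x)) htc) (inv_mem htc)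
      rw [show x * t * x⁻¹ * t⁻¹ = x * (t * x * t⁻¹)⁻¹ by group, htx, inv_inv,
        eq_inv_of_mul_eq_one_left (show x * x * x = 1 by rw [← cube T hT.pi x hx, pow_succ, sq]), inv_mem_iff] at h5
      exact hk1 (hf k hk (mem_cen.1 h5 k hk))
  have hV := pcore_pi {3} (⊤ : Subgroup G)
  have hn : ∀ g : G, g ∈ N(O[{3}]((⊤ : Subgroup G))) := fun g => pcore_nrm _ _ (mem_top g)
  have hC := cent_sub_pcore (p := 3) hs (by
    rw [← (reg _ _ (h23 _ (pcore_pi {3}ᶜ (⊤ : Subgroup G))) hV).cent le_rfl hV1, inf_of_le_left (pcore_cents' _ _)])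
  have hVT := pcore_le_syl hT
  generalize O[{3}]((⊤ : Subgroup G)) = V at *
  obtain ⟨z, -, hz⟩ := exists_elt_of_prime_dvd p2 h2
  have zi : z⁻¹ = z := inv_eq_of_mul_eq_one_right (sq2 z hz)
  have hc : ∀ g : G, z * g * z⁻¹ * g⁻¹ ∈ V := fun g => hC ⟨trivial, mem_cen.2 fun v hv => by
    have h4 := inv _ ((orderOf_conj g z).trans hz) V hV (hn _) v hv
    calc _ = v * z * (g * z⁻¹ * g⁻¹) := by group
      _ = z * v⁻¹ * (g * z * g⁻¹) := by rw [zi, mul_inv_eq_iff_eq_mul.1 (inv z hz V hV (hn _) _ (inv_mem hv)), inv_inv]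
      _ = _ := by rw [← h4, zi]; group⟩
  have hzT : z ∈ N(T) := mem_nrm.2 fun t ht => by simpa using mul_mem (hVT (hc t)) ht
  obtain rfl : V = T := hVT.antisymm fun t ht => by
    have h4 := hc t
    rw [inv z hz T hT.pi hzT t ht, ← mul_inv_rev, eq_inv_of_mul_eq_one_left
      (show t * t * t = 1 by rw [← cube T hT.pi t ht, pow_succ, sq]), inv_inv] at h4
    exact h4
  obtain ⟨S, hS⟩ := exists_syl 2 (⊤ : Subgroup G)
  refine Or.inl ⟨V, S, abelem_iff.2 ⟨ab_iff_forall.2 fun a ha b hb => ?_, cube V hV⟩, hV1, hS,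
    hT.sd (fun g _ => hn g) (hS.congr fun r hr hd => ?_), (reg S V hS.pi hV).symm⟩
  · have h4 := inv z hz V hV (hn _) _ (mul_mem ha hb)
    rw [← conj_mul, inv z hz V hV (hn _) _ ha, inv z hz V hV (hn _) _ hb, ← mul_inv_rev, inv_inj] at h4
    exact h4.symm
  · rcases hπ r hr hd with rfl | rfl <;> simp

end Cfsg.Agent.H28
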