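import Cfsg.Agent.H1.G2a
import Cfsg.Agent.S0071

/-! S1744, piece `A2`: the involutions `τ(a,1)u` (`a` a nonsquare) are not conjugate to `y`. -/

set_option autoImplicit false
set_option linter.unusedSectionVars false
set_option linter.unusedVariables false

namespace Cfsg.Agent.H1.G2

open Subgroup Cfsg.Agent.H19.Gt

variable {G K : Type*} [Group G] [Finite G] [CommGroup K] {τ : K × K →* G} {u v : G} {z : K} {S : Sylow 2 G}
  {X : Subgroup G}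

theorem pA2_odd {g s q : G} (ho : Nat.Coprime (orderOf g) 2) (hs : g * s * g⁻¹ = s) (hq : g * q * g⁻¹ = s * q)
    {k : ℕ} (h2 : s ^ 2 ^ k = 1) : s = 1 := by
  have key : ∀ n : ℕ, g ^ n * q * (g ^ n)⁻¹ = s ^ n * q := fun n => by
    induction n with
    | zero => simp
    | succ n ih =>
      calc g ^ (n + 1) * q * (g ^ (n + 1))⁻¹ = g * (g ^ n * q * (g ^ n)⁻¹) * g⁻¹ := by rw [pow_succ']; group
        _ = (g * s * g⁻¹) ^ n * (g * q * g⁻¹) := by rw [ih, conj_pow]; group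
        _ = _ := by rw [hs, hq, pow_succ, mul_assoc]
  have h1 := key (orderOf g)
  rw [pow_orderOf_eq_one, one_mul, inv_one, mul_one, eq_comm, mul_eq_right] at h1
  have := Nat.dvd_gcd (orderOf_dvd_of_pow_eq_one h1) (orderOf_dvd_of_pow_eq_one h2)
  rw [(ho.pow_right k).gcd_eq_one, Nat.dvd_one, orderOf_eq_one_iff] at this
  exact this

theorem pA2_R (h : Gz (S : Subgroup G) τ u v z) {s : G} (hs : s ∈ (S : Subgroup G))
    (e : s * τ (z, 1) = τ (z, 1) * s) : ∃ a b, s = τ (a, b) ∨ s = τ (a, b) * u := by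
  obtain ⟨a, b, rfl | rfl | rfl | rfl⟩ := (h.mem _).1 hs
  · exact ⟨a, b, .inl rfl⟩
  · exact ⟨a, b, .inr rfl⟩
  · exact (h.z1 (h.toGs.cv.1 e.symm)).elim
  · exact (h.z1 (inv_eq_one.1 (h.toGs.cw.1 e.symm).symm)).elim

theorem pA2_V (h : Gz (S : Subgroup G) τ u v z) {a b : K} (e : τ (a, b) * τ (a, b) = 1) :
    τ (a, b) = 1 ∨ τ (a, b) = τ (z, z) ∨ τ (a, b) = τ (z, 1) ∨ τ (a, b) = τ (z, z) * τ (z, 1) := by
  rw [tm, h.toGs.teq1] at e
  rcases h.inv2 e.1 with rfl | rfl <;> rcases h.inv2 e.2 with rfl | rfl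
  · exact .inl (t1 τ)
  · exact .inr (.inr (.inr (by rw [tm, h.zz, mul_one])))
  · exact .inr (.inr (.inl rfl))
  · exact .inr (.inl rfl)

theorem pA2_usq (h : Gz (S : Subgroup G) τ u v z) (a b : K) : τ (a, b) * u * (τ (a, b) * u) = 1 := by
  rw [mul_assoc, h.toGs.ut', h.uu, mul_one, tm, mul_inv_cancel, mul_inv_cancel, t1]

theorem pA2_cen (h : Gz (S : Subgroup G) τ u v z) (hc : ∀ g : G, g * τ (z, z) = τ (z, z) * g) {Q : G → Prop}
    (QS : ∀ q, Q q → q ∈ (S : Subgroup G) ∧ q * τ (z, 1) = τ (z, 1) * q) (Qm : ∀ a b, Q a → Q b → Q (a * b⁻¹))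
    (Q2 : ∀ a, Q a → Q (a * a)) {g : G} (hg : g * τ (z, 1) = τ (z, 1) * g) (ho : Nat.Coprime (orderOf g) 2)
    (hn : ∀ q, Q q → Q (g * q * g⁻¹)) {q : G} (hq : Q q) : g * q * g⁻¹ = q := by
  have V : ∀ a b, τ (a, b) * τ (a, b) = 1 → g * τ (a, b) * g⁻¹ = τ (a, b) := fun a b e => by
    rw [mul_inv_eq_iff_eq_mul]
    rcases pA2_V h e with e | e | e | e <;> rw [e]
    · simp
    · exact hc g
    · exact hg
    · rw [← mul_assoc, hc g, mul_assoc, hg, mul_assoc]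
  have A : ∀ n : ℕ, ∀ a b, Q (τ (a, b)) → τ (a, b) ^ 2 ^ n = 1 → g * τ (a, b) * g⁻¹ = τ (a, b) := fun n => by
    induction n with
    | zero => intro a b _ e; rw [pow_zero, pow_one] at e; rw [e]; group
    | succ n ih =>
      intro a b hq e
      have h1 := ih (a * a) (b * b) (tm τ a b a b ▸ Q2 _ hq) (by rw [← tm, ← pow_two, ← pow_mul, ← pow_succ', e])
      rw [← tm, ← conj_mul] at h1
      obtain ⟨c, d, e1 | e1⟩ := pA2_R h (QS _ (hn _ hq)).1 (QS _ (hn _ hq)).2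
      · rw [e1, tm, tm, h.toGs.teq] at h1
        have e2 : τ (c * a⁻¹, d * b⁻¹) * τ (c * a⁻¹, d * b⁻¹) = 1 := by
          rw [tm, mul_mul_mul_comm, h1.1, mul_mul_mul_comm d, h1.2, ← mul_inv, ← mul_inv, mul_inv_cancel,
            mul_inv_cancel, t1]
        have e3 : g * τ (a, b) * g⁻¹ = τ (c * a⁻¹, d * b⁻¹) * τ (a, b) := by
          rw [e1, tm, inv_mul_cancel_right, inv_mul_cancel_right]
        rw [e3, pA2_odd ho (V _ _ e2) e3 (k := 1) (by rw [pow_one, pow_two, e2]), one_mul]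
      · rw [e1, pA2_usq h] at h1
        exact V a b h1.symm
  have A' : ∀ a b, Q (τ (a, b)) → g * τ (a, b) * g⁻¹ = τ (a, b) := fun a b hq => by
    obtain ⟨n, hn⟩ := S.2 ⟨_, h.toGs.tS a b⟩
    exact A n a b hq (congrArg Subtype.val hn)
  obtain ⟨a, b, rfl | rfl⟩ := pA2_R h (QS _ hq).1 (QS _ hq).2
  · exact A' a b hq
  obtain ⟨c, d, e1 | e1⟩ := pA2_R h (QS _ (hn _ hq)).1 (QS _ (hn _ hq)).2
  · have := A' c d (e1 ▸ hn _ hq)
    rw [← e1] at this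
    simpa using this
  · have e2 : g * (τ (a, b) * u) * g⁻¹ * (τ (a, b) * u)⁻¹ = τ (c * a⁻¹, d * b⁻¹) := by
      rw [e1, ← tm, ← tinv]; group
    have e3 : g * (τ (a, b) * u) * g⁻¹ = τ (c * a⁻¹, d * b⁻¹) * (τ (a, b) * u) := by rw [← e2]; group
    obtain ⟨n, hn'⟩ := S.2 ⟨_, h.toGs.tS (c * a⁻¹) (d * b⁻¹)⟩
    rw [e3, pA2_odd ho (A' _ _ (e2 ▸ Qm _ _ (hn _ hq) hq)) e3 (k := n) (congrArg Subtype.val hn'), one_mul]

theorem pA2_syl (h : Gz (S : Subgroup G) τ u v z) (hc : ∀ g : G, g * τ (z, z) = τ (z, z) * g) :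
    ∃ P : Sylow 2 (centralizer ({τ (z, 1)} : Set G)),
      (P : Subgroup (centralizer ({τ (z, 1)} : Set G))) = (S : Subgroup G).subgroupOf _ := by
  set H := centralizer ({τ (z, 1)} : Set G) with hH
  have p1 : IsPGroup 2 ((S : Subgroup G).subgroupOf H) :=
    S.2.comap_of_injective H.subtype H.subtype_injective
  obtain ⟨P, hP⟩ := p1.exists_le_sylow
  obtain ⟨R, hR⟩ := (P.2.map H.subtype).exists_le_sylow
  obtain ⟨g, hg⟩ := MulAction.exists_smul_eq G R S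
  have key : ∀ q : H, q ∈ (P : Subgroup H) → g * q * g⁻¹ ∈ (S : Subgroup G) := fun q hq => by
    rw [← hg]
    exact ⟨q, hR ⟨q, hq, rfl⟩, rfl⟩
  obtain ⟨ρ, r, -⟩ := h.rho
  have m : τ (ρ, 1) ∈ H := mem_centralizer_singleton_iff.2 (by rw [tm, tm, mul_comm ρ])
  obtain ⟨a, b, e⟩ := h.toGs.sq (key ⟨_, m⟩ (hP (h.toGs.tS ρ 1)))
  rw [conj_mul, tm, r, mul_one] at e
  have y1 : τ (z, 1) ≠ 1 := fun e => h.z1 (h.toGs.teq1.1 e).1
  have yt : τ (z, 1) ≠ τ (z, z) := fun e => h.z1 (h.toGs.teq.1 e).2.symm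
  obtain ⟨k, hk, kS⟩ : ∃ k : G, k * τ (z, 1) * k⁻¹ = τ (z, 1) ∧
      ∀ q : H, q ∈ (P : Subgroup H) → k * q * k⁻¹ ∈ (S : Subgroup G) := by
    rcases pA2_V h (a := a) (b := b) (by rw [← e, conj_mul, tm, h.zz, mul_one, t1]; group) with e' | e' | e' | e' <;>
      rw [e'] at e
    · exact (y1 (by simpa using e)).elim
    · refine (yt ?_).elim
      rw [mul_inv_eq_iff_eq_mul, ← hc g] at e
      exact mul_left_cancel e
    · exact ⟨g, e, key⟩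
    · refine ⟨v * g, ?_, fun q hq => ?_⟩
      · rw [show v * g * τ (z, 1) * (v * g)⁻¹ = v * (g * τ (z, 1) * g⁻¹) * v⁻¹ by group, e, tm, h.zz, mul_one, h.vt,
          mul_inv_cancel_right]
      · rw [show v * g * q * (v * g)⁻¹ = v * (g * q * g⁻¹) * v⁻¹ by group]
        exact mul_mem (mul_mem h.toGs.vS (key q hq)) (inv_mem h.toGs.vS)
  have kH : k ∈ H := mem_centralizer_singleton_iff.2 (mul_inv_eq_iff_eq_mul.1 hk)
  refine ⟨P, (eq_of_le_of_card_ge hP ?_).symm⟩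
  refine Nat.card_le_card_of_injective (fun q => ⟨⟨k, kH⟩ * q.1 * ⟨k, kH⟩⁻¹, kS q.1 q.2⟩) fun a b e => ?_
  have := congrArg Subtype.val e
  simp only [mul_left_inj, mul_right_inj] at this
  exact Subtype.ext this

theorem pA2 (h : Gz (S : Subgroup G) τ u v z) (hc : ∀ g : G, g * τ (z, z) = τ (z, z) * g) {a : K}
    (ha : ¬ IsSquare a) : ¬ IsConj (τ (a, 1) * u) (τ (z, 1)) := by
  intro hx
  obtain ⟨c0, hc0⟩ := isConj_iff.1 hx
  set H := centralizer ({τ (z, 1)} : Set G) with hH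
  obtain ⟨P, hP⟩ : ∃ P : Sylow 2 H, (P : Subgroup H) = (S : Subgroup G).subgroupOf H := pA2_syl h hc
  have mH : ∀ {g : G}, g ∈ H ↔ g * τ (z, 1) = τ (z, 1) * g := mem_centralizer_singleton_iff
  have mP : ∀ {q : H}, q ∈ (P : Subgroup H) ↔ (q : G) ∈ (S : Subgroup G) := by
    intro q; rw [hP, mem_subgroupOf]
  obtain ⟨N, nN, hN⟩ := (S0071.result P).2 fun Q hQ g hg ho q hq => by
    have := pA2_cen h hc (Q := fun x => ∃ hx : x ∈ H, (⟨x, hx⟩ : H) ∈ Q)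
      (fun q ⟨h1, h2⟩ => ⟨mP.1 (hQ h2), mH.1 h1⟩)
      (fun a b ⟨h1, h2⟩ ⟨h3, h4⟩ => ⟨mul_mem h1 (inv_mem h3), mul_mem h2 (inv_mem h4)⟩)
      (fun a ⟨h1, h2⟩ => ⟨mul_mem h1 h1, mul_mem h2 h2⟩) (g := g) (mH.1 g.2) (by rwa [Subgroup.orderOf_coe])
      (fun q ⟨h1, h2⟩ => ⟨mul_mem (mul_mem g.2 h1) (inv_mem g.2), (mem_normalizer_iff.1 hg _).1 h2⟩)
      (q := q) ⟨q.2, hq⟩
    exact Subtype.ext (mul_inv_eq_iff_eq_mul.1 this).symm
  have uy : ∀ a b, τ (a, b) * u * τ (z, 1) = τ (z, 1) * (τ (a, b) * u) := fun a b =>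
    (h.toGs.cu.2 ⟨h.zz, one_mul 1⟩).symm
  have yy : τ (z, 1) * τ (z, 1) = 1 := by rw [tm, h.zz, mul_one, t1]
  have y1 : τ (z, 1) ≠ 1 := fun e => h.z1 (h.toGs.teq1.1 e).1
  have yt : τ (z, 1) ≠ τ (z, z) := fun e => h.z1 (h.toGs.teq.1 e).2.symm
  -- adjust the conjugating element
  obtain ⟨c, hc1, hc2⟩ : ∃ c : G, c * (τ (a, 1) * u) * c⁻¹ = τ (z, 1) ∧ c * τ (z, 1) * c⁻¹ ∈ (S : Subgroup G) := by
    have m : c0 * τ (z, 1) * c0⁻¹ ∈ H := mH.2 (by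
      nth_rewrite 2 3 [← hc0]
      rw [conj_mul, conj_mul, uy])
    have p : IsPGroup 2 (zpowers (⟨_, m⟩ : H)) := IsPGroup.of_card (n := 1) (by
      rw [Nat.card_zpowers, pow_one]
      refine orderOf_eq_prime (Subtype.ext ?_) fun e => y1 (by simpa using congrArg Subtype.val e)
      change (c0 * τ (z, 1) * c0⁻¹) ^ 2 = 1
      rw [conj_pow, pow_two, yy]; group)
    obtain ⟨R, hR⟩ := p.exists_le_sylow
    obtain ⟨k, hk⟩ := MulAction.exists_smul_eq H R P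
    refine ⟨k * c0, ?_, ?_⟩
    · rw [show k * c0 * (τ (a, 1) * u) * (k * c0)⁻¹ = k * (c0 * (τ (a, 1) * u) * c0⁻¹) * (k : G)⁻¹ by group, hc0,
        mH.1 k.2, mul_inv_cancel_right]
    · have : k * ⟨_, m⟩ * k⁻¹ ∈ (P : Subgroup H) := by
        rw [← hk]
        exact ⟨_, hR (mem_zpowers _), rfl⟩
      have := mP.1 this
      rwa [show k * c0 * τ (z, 1) * (k * c0)⁻¹ = k * (c0 * τ (z, 1) * c0⁻¹) * (k : G)⁻¹ by group]
  have cy : c * τ (z, 1) * c⁻¹ * τ (z, 1) = τ (z, 1) * (c * τ (z, 1) * c⁻¹) := by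
    nth_rewrite 2 3 [← hc1]
    rw [conj_mul, conj_mul, uy]
  have ct : c * τ (z, z) * c⁻¹ = τ (z, z) := by rw [hc c, mul_inv_cancel_right]
  obtain ⟨p, q, e | e⟩ := pA2_R h hc2 cy
  · rcases pA2_V h (a := p) (b := q) (by rw [← e, conj_mul, yy]; group) with e' | e' | e' | e' <;> rw [e'] at e
    · exact y1 (by simpa using e)
    · rw [← ct] at e
      exact yt (by simpa using e)
    · nth_rewrite 2 [← hc1] at e
      exact h.ne_u a 1 z 1 (by simpa using e.symm)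
    · nth_rewrite 2 [← hc1] at e
      rw [← ct, conj_mul, mul_left_inj, mul_right_inj, tm'] at e
      exact h.ne_u _ _ _ _ e.symm
  obtain ⟨ρ, r, -⟩ := h.rho
  have w1 : τ (ρ, ρ) * τ (z, 1) * (τ (ρ, ρ))⁻¹ = τ (z, 1) := by
    rw [tm, tinv, tm, mul_inv_cancel_comm, mul_inv_cancel_comm]
  have w2 : τ (ρ, ρ) * (τ (p, q) * u) * (τ (ρ, ρ))⁻¹ = τ (z, z) * (τ (p, q) * u) := by
    rw [tinv, mul_assoc, mul_assoc, h.ut, tm', tm', tm', inv_inv, ← r, mul_right_comm ρ p, mul_right_comm ρ q]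
  set k := v * (c⁻¹ * τ (ρ, ρ) * c) with hk
  have k1 : k * τ (z, 1) * k⁻¹ = τ (z, 1) := by
    calc k * τ (z, 1) * k⁻¹ = v * (c⁻¹ * (τ (ρ, ρ) * (c * τ (z, 1) * c⁻¹) * (τ (ρ, ρ))⁻¹) * c) * v⁻¹ := by
          rw [hk]; group
      _ = v * (τ (z, z) * τ (z, 1)) * v⁻¹ := by
          rw [e, w2, ← e]
          nth_rewrite 1 [← ct]
          group
      _ = _ := by rw [tm, h.zz, mul_one, h.vt, mul_inv_cancel_right]
  have k2 : k * (τ (a, 1) * u) * k⁻¹ = τ (1, a) * u := by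
    calc k * (τ (a, 1) * u) * k⁻¹ = v * (c⁻¹ * (τ (ρ, ρ) * (c * (τ (a, 1) * u) * c⁻¹) * (τ (ρ, ρ))⁻¹) * c) * v⁻¹ := by
          rw [hk]; group
      _ = v * (τ (a, 1) * u) * v⁻¹ := by rw [hc1, w1, ← hc1]; group
      _ = _ := by rw [h.toGs.vt', ← h.uv, ← mul_assoc, mul_inv_cancel_right]
  have kH : k ∈ H := mH.2 (mul_inv_eq_iff_eq_mul.1 k1)
  obtain ⟨⟨n, s⟩, hns⟩ := hN.2 ⟨k, kH⟩
  have e1 : (n : H) * (s : H) = ⟨k, kH⟩ := hns
  let x1 : H := ⟨τ (a, 1) * u, mH.2 (uy _ _)⟩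
  let x2 : H := ⟨τ (1, a) * u, mH.2 (uy _ _)⟩
  have x1P : x1 ∈ (P : Subgroup H) := mP.2 (mul_mem (h.toGs.tS _ _) h.toGs.uS)
  have x2P : x2 ∈ (P : Subgroup H) := mP.2 (mul_mem (h.toGs.tS _ _) h.toGs.uS)
  have e2 : (n : H) * s * x1 * ((n : H) * s)⁻¹ = x2 := by rw [e1]; exact Subtype.ext k2
  have x3P : (s : H) * x1 * (s : H)⁻¹ ∈ (P : Subgroup H) := mul_mem (mul_mem s.2 x1P) (inv_mem s.2)
  have e3 : x2 * ((s : H) * x1 * (s : H)⁻¹)⁻¹ = 1 := by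
    refine (disjoint_def.1 hN.disjoint) ?_ (mul_mem x2P (inv_mem x3P))
    rw [← e2, show (n : H) * s * x1 * ((n : H) * s)⁻¹ * ((s : H) * x1 * (s : H)⁻¹)⁻¹ =
      n * (((s : H) * x1 * (s : H)⁻¹) * (n : H)⁻¹ * ((s : H) * x1 * (s : H)⁻¹)⁻¹) by group]
    exact mul_mem n.2 (nN.conj_mem _ (inv_mem n.2) _)
  have e4 : τ (1, a) * u = ((s : H) : G) * (τ (a, 1) * u) * ((s : H) : G)⁻¹ :=
    congrArg Subtype.val (mul_inv_eq_one.1 e3)
  obtain ⟨c', d, e5 | e5⟩ := pA2_R h (mP.1 s.2) (mH.1 (s : H).2) <;> rw [e5] at e4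
  · rw [tinv, mul_assoc, mul_assoc, h.ut, tm', tm', mul_left_inj, h.toGs.teq, inv_inv, inv_inv, mul_one] at e4
    exact ha ⟨d, e4.2⟩
  · rw [mul_inv_rev, h.toGs.ui, tinv] at e4
    simp only [mul_assoc, h.toGs.ut', h.toGs.uu', h.ut, tm', inv_inv, inv_one, mul_one, one_mul, mul_left_inj,
      h.toGs.teq] at e4
    exact ha ⟨d, e4.2⟩

end Cfsg.Agent.H1.G2
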