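import Cfsg.Agent.H7.Bf0
import Cfsg.Agent.H14.M24f

/-! S1741, piece `b0`: a Sylow `2`-subgroup of `M₁₂` is of type `Gs`. -/

set_option autoImplicit false
set_option linter.unusedVariables false

namespace Cfsg.Agent.H7.Bf

open Subgroup Cfsg.Agent.H19.Gt Cfsg.Agent.H1.G2 Cfsg.Agent.H14

/-- the homomorphism from the cyclic group of order four -/
def b0_h {G : Type*} [Group G] (a : G) (ha : a ^ 4 = 1) : Multiplicative (ZMod 4) →* G :=
  MonoidHom.mk' (fun x => a ^ x.toAdd.val) fun x y => by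
    rw [toAdd_mul, ZMod.val_add, ← pow_eq_pow_mod _ ha, pow_add]

theorem b0_gen {G : Type*} [Group G] {a b u v : G} (ha : a ^ 4 = 1) (hb : b ^ 4 = 1) (ab : a * b = b * a)
    (uu : u * u = 1) (vv : v * v = 1) (uv : u * v = v * u) (ua : a * u * a = u) (ub : b * u * b = u)
    (va : v * a = b * v) (ind : ∀ i < 4, ∀ j < 4, a ^ i * b ^ j = 1 → i = 0 ∧ j = 0) :
    ∃ (H : Subgroup G) (τ : Multiplicative (ZMod 4) × Multiplicative (ZMod 4) →* G),
      Gs H τ u v ∧ Nat.card H = 64 := by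
  let τ := (b0_h a ha).noncommCoprod (b0_h b hb) fun x y => Commute.pow_pow ab _ _
  have hτ : ∀ x y, τ (x, y) = a ^ x.toAdd.val * b ^ y.toAdd.val := fun x y => rfl
  have hτ' : ∀ x y, τ (x, y) = b0_h a ha x * b0_h b hb y := fun x y => rfl
  have vb : v * b = a * v := by
    calc v * b = v * (b * v) * v := by rw [mul_assoc, mul_assoc, vv, mul_one]
      _ = a * v := by rw [← va, ← mul_assoc, vv, one_mul]
  have inv : ∀ {c : G} (n : ℕ), c * u * c = u → u * c ^ n = (c ^ n)⁻¹ * u := fun {c} n h => by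
    have : SemiconjBy u c c⁻¹ := by rw [SemiconjBy, eq_inv_mul_iff_mul_eq, ← mul_assoc, h]
    rw [← inv_pow]
    exact this.pow_right n
  have ut : ∀ x y, u * τ (x, y) = τ (x⁻¹, y⁻¹) * u := fun x y => by
    rw [hτ' x⁻¹, map_inv, map_inv, hτ, ← mul_assoc, inv _ ua, mul_assoc, inv _ ub, mul_assoc]
    rfl
  have vt : ∀ x y, v * τ (x, y) = τ (y, x) * v := fun x y => by
    rw [hτ, hτ, ← mul_assoc, (SemiconjBy.pow_right va _).eq, mul_assoc, (SemiconjBy.pow_right vb _).eq, ← mul_assoc,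
      (Commute.pow_pow ab _ _).eq]
  have ut' : ∀ x y g, u * (τ (x, y) * g) = τ (x⁻¹, y⁻¹) * (u * g) := fun x y g => by
    rw [← mul_assoc, ut, mul_assoc]
  have vt' : ∀ x y g, v * (τ (x, y) * g) = τ (y, x) * (v * g) := fun x y g => by
    rw [← mul_assoc, vt, mul_assoc]
  have uu' : ∀ g, u * (u * g) = g := fun g => by rw [← mul_assoc, uu, one_mul]
  have vv' : ∀ g, v * (v * g) = g := fun g => by rw [← mul_assoc, vv, one_mul]
  have vu' : ∀ g, v * (u * g) = u * (v * g) := fun g => by rw [← mul_assoc, ← uv, mul_assoc]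
  have ui : u⁻¹ = u := inv_eq_of_mul_eq_one_right uu
  have vi : v⁻¹ = v := inv_eq_of_mul_eq_one_right vv
  let H : Subgroup G :=
    { carrier := {g | ∃ x y, g = τ (x, y) ∨ g = τ (x, y) * u ∨ g = τ (x, y) * v ∨ g = τ (x, y) * (u * v)}
      one_mem' := ⟨1, 1, .inl (t1 τ).symm⟩
      mul_mem' := by
        rintro _ _ ⟨a, b, rfl | rfl | rfl | rfl⟩ ⟨c, d, rfl | rfl | rfl | rfl⟩
        all_goals simp only [mul_assoc, ut', vt', ut, vt, uu', vv', vu', uu, vv, tm', tm, mul_one, ← uv]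
        all_goals first
          | exact ⟨_, _, .inl rfl⟩
          | exact ⟨_, _, .inr (.inl rfl)⟩
          | exact ⟨_, _, .inr (.inr (.inl rfl))⟩
          | exact ⟨_, _, .inr (.inr (.inr rfl))⟩
      inv_mem' := by
        rintro _ ⟨a, b, rfl | rfl | rfl | rfl⟩
        · exact ⟨_, _, .inl (tinv ..)⟩
        · exact ⟨a, b, .inr (.inl (by rw [mul_inv_rev, ui, tinv, ut, inv_inv, inv_inv]))⟩
        · exact ⟨_, _, .inr (.inr (.inl (by rw [mul_inv_rev, vi, tinv, vt])))⟩
        · exact ⟨b, a, .inr (.inr (.inr (by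
            rw [mul_inv_rev, mul_inv_rev, vi, ui, tinv, ← uv, mul_assoc, vt, ut', inv_inv, inv_inv])))⟩ }
  have gs : Gs H τ u v := ⟨inferInstance, by simp, (injective_iff_map_eq_one τ).2 fun ⟨x, y⟩ h => by
    obtain ⟨h1, h2⟩ := ind _ (ZMod.val_lt _) _ (ZMod.val_lt _) h
    exact Prod.ext ((ZMod.val_eq_zero _).1 h1) ((ZMod.val_eq_zero _).1 h2), uu, vv, uv, ut, vt, fun g => Iff.rfl⟩
  have gz : Gz H τ u v (Multiplicative.ofAdd 2) :=
    ⟨gs, inferInstance, IsPGroup.of_card (n := 2) (by simp), by decide, by decide⟩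
  refine ⟨H, τ, gs, ?_⟩
  let f : (Multiplicative (ZMod 4) × Multiplicative (ZMod 4)) × Fin 4 → H := fun p =>
    ⟨τ p.1 * ![1, u, v, u * v] p.2, p.1.1, p.1.2, by
      obtain ⟨⟨x, y⟩, k⟩ := p
      fin_cases k <;> simp⟩
  have k0 : ∀ (x y x' y') (g : G), τ (x, y) * g = τ (x', y') * g → ((x, y) : _ × _) = (x', y') :=
    fun x y x' y' g e => gs.inj (mul_right_cancel e)
  have nu := gz.ne_u
  have nv := gz.ne_v
  have nw := gz.ne_w
  have hf : Function.Bijective f := by
    constructor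
    · rintro ⟨⟨x, y⟩, k⟩ ⟨⟨x', y'⟩, k'⟩ e
      have e1 : τ (x, y) * ![1, u, v, u * v] k = τ (x', y') * ![1, u, v, u * v] k' := congrArg Subtype.val e
      have e2 : τ (x, y) * (![1, u, v, u * v] k * (![1, u, v, u * v] k')⁻¹) = τ (x', y') := by
        rw [← mul_assoc, e1, mul_inv_cancel_right]
      have : k = k' := by
        fin_cases k <;> fin_cases k' <;>
          simp only [Fin.zero_eta, Fin.mk_one, Fin.reduceFinMk, Matrix.cons_val, Matrix.cons_val_zero,
            Matrix.cons_val_one, mul_inv_rev, ui, vi, inv_one, one_mul, mul_one, ← uv, mul_assoc, uu', vv', vu', uu,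
            vv] at e2 ⊢ <;>
          first
          | exact (nu _ _ _ _ e2).elim
          | exact (nv _ _ _ _ e2).elim
          | exact (nw _ _ _ _ e2).elim
      subst this
      rw [k0 _ _ _ _ _ e1]
    · rintro ⟨_, x, y, rfl | rfl | rfl | rfl⟩
      exacts [⟨((x, y), 0), Subtype.ext (mul_one _)⟩, ⟨((x, y), 1), rfl⟩, ⟨((x, y), 2), rfl⟩, ⟨((x, y), 3), rfl⟩]
  rw [← Nat.card_eq_of_bijective f hf]
  simp

def b0_a : ℕ := nat_lit 0x75973b8a32ad0833a90d780a960606
def b0_b : ℕ := nat_lit 0x9c6aea08b27dd265d9a438d480060c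
def b0_u : ℕ := nat_lit 0x9a96eb88a13d086ad9097b22d04a03
def b0_v : ℕ := nat_lit 0x72d53a04e22dc69b55868a1e06c244

theorem b0 : ∃ (H : Subgroup Spor.M12) (τ : Multiplicative (ZMod 4) × Multiplicative (ZMod 4) →* Spor.M12)
    (u v : Spor.M12), Gs H τ u v ∧ ¬ 2 ∣ H.index := by
  have oa : A24.ok b0_a := A24_ok (by decide +kernel)
  have ob : A24.ok b0_b := A24_ok (by decide +kernel)
  have ou : A24.ok b0_u := A24_ok (by decide +kernel)
  have ov : A24.ok b0_v := A24_ok (by decide +kernel)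
  let a : SDs.K := ⟨A24.el b0_a, (SDs.test_iff _ oa).1 (by decide +kernel)⟩
  let b : SDs.K := ⟨A24.el b0_b, (SDs.test_iff _ ob).1 (by decide +kernel)⟩
  let u : SDs.K := ⟨A24.el b0_u, (SDs.test_iff _ ou).1 (by decide +kernel)⟩
  let v : SDs.K := ⟨A24.el b0_v, (SDs.test_iff _ ov).1 (by decide +kernel)⟩
  have m2 : ∀ {p q r s : ℕ}, A24.ok p → A24.ok q → A24.ok r → A24.ok s → Nat.beq (A24.mul p q) (A24.mul r s) = true →
      A24.el p * A24.el q = A24.el r * A24.el s := fun hp hq hr hs h => by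
    rw [← A24.el_mul _ _ hp hq, ← A24.el_mul _ _ hr hs, nbeq_iff.1 h]
  have m1 : ∀ {p q : ℕ}, A24.ok p → A24.ok q → Nat.beq (A24.mul p q) A24.one = true →
      A24.el p * A24.el q = 1 := fun hp hq h => by
    rw [← A24.el_mul _ _ hp hq, nbeq_iff.1 h, A24.el_one]
  have m3 : ∀ {p q : ℕ}, A24.ok p → A24.ok q → Nat.beq (A24.mul (A24.mul p q) p) q = true →
      A24.el p * A24.el q * A24.el p = A24.el q := fun hp hq h => by
    rw [← A24.el_mul _ _ hp hq, ← A24.el_mul _ _ (A24.ok_mul _ _ hp hq) hp, nbeq_iff.1 h]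
  have p4 : ∀ {p : ℕ}, A24.ok p → Nat.beq (A24.pow p 4) A24.one = true → A24.el p ^ 4 = 1 := fun hp h => by
    rw [← (A24.pow_spec hp 4).2, nbeq_iff.1 h, A24.el_one]
  have ind : ∀ i < 4, ∀ j < 4, A24.mul (A24.pow b0_a i) (A24.pow b0_b j) = A24.one → i = 0 ∧ j = 0 := by
    decide +kernel
  obtain ⟨H, τ, h, c⟩ := b0_gen (a := equivM12 a) (b := equivM12 b) (u := equivM12 u) (v := equivM12 v)
    (by rw [← map_pow, show a ^ 4 = 1 from Subtype.ext (p4 oa (by decide +kernel)), map_one])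
    (by rw [← map_pow, show b ^ 4 = 1 from Subtype.ext (p4 ob (by decide +kernel)), map_one])
    (by rw [← map_mul, ← map_mul, show a * b = b * a from Subtype.ext (m2 oa ob ob oa (by decide +kernel))])
    (by rw [← map_mul, show u * u = 1 from Subtype.ext (m1 ou ou (by decide +kernel)), map_one])
    (by rw [← map_mul, show v * v = 1 from Subtype.ext (m1 ov ov (by decide +kernel)), map_one])
    (by rw [← map_mul, ← map_mul, show u * v = v * u from Subtype.ext (m2 ou ov ov ou (by decide +kernel))])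
    (by rw [← map_mul, ← map_mul, show a * u * a = u from Subtype.ext (m3 oa ou (by decide +kernel))])
    (by rw [← map_mul, ← map_mul, show b * u * b = u from Subtype.ext (m3 ob ou (by decide +kernel))])
    (by rw [← map_mul, ← map_mul, show v * a = b * v from Subtype.ext (m2 ov oa ob ov (by decide +kernel))])
    (fun i hi j hj e => ind i hi j hj (by
      rw [← map_pow, ← map_pow, ← map_mul, map_eq_one_iff _ equivM12.injective] at e
      have e1 : A24.el b0_a ^ i * A24.el b0_b ^ j = 1 := congrArg Subtype.val e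
      rw [← (A24.pow_spec oa i).2, ← (A24.pow_spec ob j).2,
        ← A24.el_mul _ _ (A24.pow_spec oa i).1 (A24.pow_spec ob j).1,
        A24.el_eq_one_iff (A24.ok_mul _ _ (A24.pow_spec oa i).1 (A24.pow_spec ob j).1)] at e1
      exact nbeq_iff.1 e1))
  refine ⟨H, τ, _, _, h, ?_⟩
  have := H.card_mul_index
  rw [c, card_M12] at this
  omega

end Cfsg.Agent.H7.Bf
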