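import Cfsg.Agent.H27.Mt0

/-! S4351, piece `emb`: the twisted natural module embeds. -/

set_option autoImplicit false
namespace Cfsg.Agent.H27.Mt
open Matrix Cfsg.Agent.H13

universe u
variable {G : Type*} [Group G] {F : Type} [Field F] (S : SzData G F) {E : Type*} [AddCommGroup E] [Module F E]
  {π : G →* (E →ₗ[F] E)}

theorem emb_uw (g : G) (a b : F) : S.ρ (g * (S.u a b * S.w)) 0 0 =
    S.ρ g 0 0 * szf S.θ a b + S.ρ g 0 1 * b + S.ρ g 0 2 * a + S.ρ g 0 3 := by
  simp [S.ρ_u, S.ρ_w, szU, suzukiForm, Matrix.mul_apply, Fin.sum_univ_four]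

theorem emb_w (g : G) : S.ρ (g * S.w) 0 0 = S.ρ g 0 3 := by
  simp [S.ρ_w, suzukiForm, Matrix.mul_apply, Fin.sum_univ_four]

theorem emb {v f χ} (H : HW S π v f χ) (τ : F →+* F) (hτ : ∀ g, f (π g v) = τ (S.ρ g 0 0)) :
    ∃ φ : (Fin 4 → F) →ₗ[F] E, Function.Injective φ ∧ GM S τ π φ := by
  let φ : (Fin 4 → F) →ₗ[F] E :=
    (LinearMap.proj 0).smulRight (π 1 v) +
    (LinearMap.proj 1).smulRight (π (S.u 0 1 * S.w) v - π 1 v - π S.w v) +
    (LinearMap.proj 2).smulRight (π (S.u 1 0 * S.w) v - π 1 v - π S.w v) +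
    (LinearMap.proj 3).smulRight (π S.w v)
  have hφ : ∀ x, φ x = x 0 • π 1 v + x 1 • (π (S.u 0 1 * S.w) v - π 1 v - π S.w v) +
      x 2 • (π (S.u 1 0 * S.w) v - π 1 v - π S.w v) + x 3 • π S.w v := fun x => rfl
  have mul : ∀ g k x, π g (π k x) = π (g * k) x := fun g k x => by rw [map_mul, Module.End.mul_apply]
  have A : ∀ g x, f (π g (φ x)) = nat S τ g x 0 := fun g x => by
    simp only [hφ, map_add, map_smul, map_sub, mul, hτ, emb_uw, emb_w, mul_one, smul_eq_mul]
    simp [nat, szf, Matrix.mulVec, dotProduct, Fin.sum_univ_four]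
    ring
  have m0 : ∀ g, π g v ∈ Submodule.span F (Set.range fun g => π g v) := fun g => Submodule.subset_span ⟨g, rfl⟩
  have m : ∀ g x, π g (φ x) ∈ Submodule.span F (Set.range fun g => π g v) := fun g x => by
    simp only [hφ, map_add, map_smul, map_sub, mul]
    exact add_mem (add_mem (add_mem (Submodule.smul_mem _ _ (m0 _))
      (Submodule.smul_mem _ _ (sub_mem (sub_mem (m0 _) (m0 _)) (m0 _))))
      (Submodule.smul_mem _ _ (sub_mem (sub_mem (m0 _) (m0 _)) (m0 _)))) (Submodule.smul_mem _ _ (m0 _))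
  refine ⟨φ, (injective_iff_map_eq_zero φ).2 fun x hx => ?_, fun g x => ?_⟩
  · have z : ∀ g, nat S τ g x 0 = 0 := fun g => by rw [← A, hx, map_zero, map_zero]
    have h0 := z 1
    have h3 := z S.w
    have h1 := z (S.u 1 0)
    have h2 := z (S.u 0 1)
    rw [nat_one] at h0
    simp [nat_w] at h3
    simp [nat_u, h0, h3] at h1 h2
    rw [h2, add_zero] at h1
    ext i
    fin_cases i <;> simpa
  · have h1 := m 1 (nat S τ g x)
    rw [map_one, Module.End.one_apply] at h1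
    refine sub_eq_zero.1 (H.sep _ (sub_mem h1 (m g x)) fun k => ?_)
    rw [map_sub, map_sub, mul, A, A, nat_mul, sub_self]

end Cfsg.Agent.H27.Mt
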