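import Cfsg.Agent.H27.Mt0

/-! S4351, piece `tau`: the highest weight is a field endomorphism twist of the natural one. -/

set_option autoImplicit false
namespace Cfsg.Agent.H27.Mt
open Matrix Cfsg.Agent.H13

universe u
variable {G : Type*} [Group G] {F : Type} [Field F] (S : SzData G F) {E : Type*} [AddCommGroup E] [Module F E]
  {π : G →* (E →ₗ[F] E)}

theorem tau_e1 (a b : F) (k : Fˣ) : S.ρ (S.w * (S.u a b * S.h k)) 0 0 = 0 := by
  simp [S.ρ_u, S.ρ_w, S.ρ_h, szU, szH, suzukiForm, Matrix.mul_apply, Fin.sum_univ_four]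

theorem tau_e2 (a b c d : F) (k : Fˣ) :
    S.ρ (S.w * S.u a b * S.w * (S.u c d * S.h k)) 0 0 = (k : F) ^ 2 ^ S.m * k := by
  simp [S.ρ_u, S.ρ_w, S.ρ_h, szU, szH, suzukiForm, Matrix.mul_apply, Fin.sum_univ_four, S.θ_root, -map_pow]

theorem tau_e3 (a b : F) : S.ρ (S.u a b * S.w) 0 0 = szf S.θ a b := by
  simp [S.ρ_u, S.ρ_w, szU, suzukiForm, Matrix.mul_apply, Fin.sum_univ_four]

theorem tau {v f χ} (h : Nz π) (H : HW S π v f χ) : ∃ τ : F →+* F, ∀ g, f (π g v) = τ (S.ρ g 0 0) := by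
  classical
  haveI := S.charP
  have two : (2 : F) = 0 := CharP.cast_eq_zero F 2
  have mul : ∀ g k x, π (g * k) x = π g (π k x) := fun g k x => by rw [map_mul, Module.End.mul_apply]
  have m0 : ∀ g, π g v ∈ Submodule.span F (Set.range fun g => π g v) := fun g => Submodule.subset_span ⟨g, rfl⟩
  have mv : v ∈ Submodule.span F (Set.range fun g => π g v) := by simpa using m0 1
  have χ1 : χ 1 = 1 := by
    have := congrArg f (H.eig 1)
    simpa [H.fv] using this.symm
  have χm : ∀ k l, χ (k * l) = χ k * χ l := fun k l => by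
    have := congrArg f (H.eig (k * l))
    rw [map_mul, mul, H.eig, map_smul, H.eig] at this
    simpa [H.fv, mul_comm] using this.symm
  have u2 : S.u 1 0 ^ 2 = S.u 0 1 := by rw [pow_two, S.u_sq]; simp
  have u3 : S.u 1 0 ^ 3 = S.u 1 1 := by rw [pow_succ, u2, S.u_mul]; simp
  have r := rel5 S h v
  simp only [u2, u3, mul, H.fixu] at r
  have fw : f (π S.w v) = 0 := by
    have := congrArg (fun x => f (π S.w x)) r
    have e : ∀ a b, f (π S.w (π (S.u a b) (π S.w v))) = 1 := fun a b => by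
      rw [← mul, ← mul, H.finv a b v mv, H.fv]
    simp only [map_add, map_zero, e] at this
    rw [← mul, S.w_mul_w, map_one, Module.End.one_apply, H.fv] at this
    linear_combination this - 2 * two
  have ne : ∀ {y : F}, y ≠ 0 → y ^ 2 / S.θ y ≠ 0 := fun hy => div_ne_zero (pow_ne_zero _ hy) ((map_ne_zero _).2 hy)
  let t : F → F := fun y => if hy : y = 0 then 0 else χ (Units.mk0 _ (ne hy))
  have t0 : t 0 = 0 := dif_pos rfl
  have tn : ∀ {y : F} (hy : y ≠ 0), t y = χ (Units.mk0 _ (ne hy)) := fun hy => dif_neg hy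
  have t1 : t 1 = 1 := by
    rw [tn one_ne_zero]; refine Eq.trans ?_ χ1; congr 1; ext; simp
  have tm : ∀ x y, t (x * y) = t x * t y := fun x y => by
    by_cases hx : x = 0
    · rw [hx, zero_mul, t0, zero_mul]
    by_cases hy : y = 0
    · rw [hy, mul_zero, t0, mul_zero]
    rw [tn hx, tn hy, tn (mul_ne_zero hx hy), ← χm]
    congr 1; ext
    simp only [Units.val_mk0, Units.val_mul, map_mul, mul_pow, mul_div_mul_comm]
  have key : ∀ g, f (π g v) = t (S.ρ g 0 0) := fun g => by
    have eg : g = S.w * (S.w * g) := by rw [← mul_assoc, S.w_mul_w, one_mul]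
    rcases S.bruhat (S.w * g) with ⟨a, b, k, e⟩ | ⟨a, b, c, d, k, e⟩
    · rw [eg, e, tau_e1, t0, mul, mul, H.eig, map_smul, H.fixu, map_smul, map_smul, fw, smul_zero]
    · have hk : (k : F) ^ 2 ^ S.m ≠ 0 := pow_ne_zero _ k.ne_zero
      rw [eg, e, ← mul_assoc, ← mul_assoc S.w, tau_e2, tn (mul_ne_zero hk k.ne_zero), mul, H.finv a b _ (m0 _), mul,
        H.eig, map_smul, H.fixu, map_smul, H.fv, smul_eq_mul, mul_one]
      congr 1; ext
      have h1 : S.θ (k : F) = ((k : F) ^ 2 ^ S.m) ^ 2 := by rw [← S.θθ, S.θ_root]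
      rw [Units.val_mk0, map_mul, S.θ_root, h1]
      have := k.ne_zero
      field_simp
  have ta : ∀ x, t (x + 1) = t x + 1 := fun x => by
    obtain ⟨b, rfl⟩ := S.θ_surjective x
    have := congrArg (fun x => f (π (S.u 0 b) x)) r
    simp only [map_add, map_zero, ← mul, ← mul_assoc, S.u_mul, H.fixu, H.fv, key, tau_e3] at this
    have e1 : szf S.θ 0 b = S.θ b := by simp [szf]
    have e2 : szf S.θ (0 + 0) (b + 1 + S.θ 0 * 0) = S.θ b + 1 := by simp [szf]
    have e3 : szf S.θ (0 + 1) (b + 1 + S.θ 0 * 1) = szf S.θ (0 + 1) (b + 0 + S.θ 0 * 1) := by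
      simp only [szf, map_zero, zero_add, map_add, map_one, zero_mul, add_zero]
      linear_combination two
    simp only [map_zero] at e2 e3
    rw [e1, e2, e3] at this
    linear_combination this - (1 + t (S.θ b) + t (szf S.θ (0 + 1) (b + 0 + 0 * 1))) * two
  have tadd : ∀ x y, t (x + y) = t x + t y := fun x y => by
    by_cases hy : y = 0
    · rw [hy, add_zero, t0, add_zero]
    have e : x + y = (x / y + 1) * y := by field_simp
    rw [e, tm, ta, add_mul, ← tm, one_mul, div_mul_cancel₀ _ hy]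
  exact ⟨⟨⟨⟨t, t1⟩, tm⟩, t0, tadd⟩, key⟩

end Cfsg.Agent.H27.Mt
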