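import Cfsg.Agent.H28.AepA0

/-! S3329, piece `pA`: the normalizer of `⟨z⟩` and the swapping involution. -/

set_option autoImplicit false
set_option linter.unusedVariables false

namespace Cfsg.Agent.H12.Ae

open Subgroup Equiv

variable {G : Type*} [Group G] [Finite G]

theorem pA_zp3 {H : Type*} [Group H] {x u : H} (h3 : x ^ 3 = 1) (hu : u ∈ zpowers x) : u = 1 ∨ u = x ∨ u = x⁻¹ := by
  obtain ⟨k, rfl⟩ := hu
  have e : x ^ k = x ^ (k % 3) := by
    conv_lhs => rw [← Int.emod_add_mul_ediv k 3, zpow_add, zpow_mul]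
    rw [show x ^ (3 : ℤ) = 1 by exact_mod_cast h3, one_zpow, mul_one]
  have h2 : x ^ (2 : ℤ) = x⁻¹ := by
    rw [eq_inv_iff_mul_eq_one, ← zpow_add_one]; exact_mod_cast h3
  simp only [e]
  have : k % 3 = 0 ∨ k % 3 = 1 ∨ k % 3 = 2 := by omega
  rcases this with h | h | h <;> rw [h]
  · exact Or.inl (zpow_zero x)
  · exact Or.inr (Or.inl (zpow_one x))
  · exact Or.inr (Or.inr h2)

theorem pA_nrm {g z : G} (h : g * z * g⁻¹ ∈ zpowers z) : g ∈ normalizer (zpowers z : Set G) :=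
  mem_normalizer_fintype fun n ⟨k, hk⟩ => by
    rw [← hk]
    simp only [← conj_zpow]
    exact zpow_mem h k

/-- the twisted embedding -/
theorem pA_eps (D : Subgroup G) (y z : G) (hgen : closure {y, z} = D)
    (hcomm : IsMulCommutative D) (hcard : Nat.card D = 9) (hexp : ∀ a ∈ D, a ^ 3 = 1)
    (eL : normalizer (zpowers z : Set G) ≃* E35) : ∃ ε : E35 →* G, Function.Injective ε ∧
      ε.range = normalizer (zpowers z : Set G) ∧ ε zE = z ∧ ε zE' ∈ D := by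
  have yD : y ∈ D := hgen ▸ subset_closure (by simp)
  have zD : z ∈ D := hgen ▸ subset_closure (by simp)
  have cm : ∀ a ∈ D, ∀ b ∈ D, a * b = b * a := fun a ha b hb =>
    congrArg Subtype.val (hcomm.is_comm.comm (⟨a, ha⟩ : D) ⟨b, hb⟩)
  have small : ∀ x ∈ D, y ∈ zpowers x → z ∈ zpowers x → False := fun x hx h1 h2 => by
    have : D ≤ zpowers x := by
      rw [← hgen, closure_le]
      rintro _ (rfl | rfl) <;> assumption
    have h3 := card_le_of_le this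
    rw [Nat.card_zpowers, hcard] at h3
    have := Nat.le_of_dvd (by norm_num) (orderOf_dvd_of_pow_eq_one (hexp x hx))
    omega
  let ε0 : E35 →* G := (normalizer (zpowers z : Set G)).subtype.comp eL.symm.toMonoidHom
  have inj0 : Function.Injective ε0 := Subtype.val_injective.comp eL.symm.injective
  have rng0 : ε0.range = normalizer (zpowers z : Set G) := by
    ext g
    exact ⟨fun ⟨x, hx⟩ => hx ▸ (eL.symm x).2, fun hg => ⟨eL ⟨g, hg⟩, by simp [ε0]⟩⟩
  have DL : ∀ d ∈ D, d ∈ ε0.range := fun d hd => rng0 ▸ pA_nrm (by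
    rw [cm d hd z zD, mul_inv_cancel_right]; exact mem_zpowers z)
  obtain ⟨z0, hz0⟩ := DL z zD
  obtain ⟨y0, hy0⟩ := DL y yD
  have z3 : z0 ^ 3 = 1 := inj0 (by rw [map_pow, hz0, hexp z zD, map_one])
  have y3 : y0 ^ 3 = 1 := inj0 (by rw [map_pow, hy0, hexp y yD, map_one])
  have nz : ∀ x : E35, x.1.2 * z0.1.2 * x.1.2⁻¹ = 1 ∨ x.1.2 * z0.1.2 * x.1.2⁻¹ = z0.1.2 ∨
      x.1.2 * z0.1.2 * x.1.2⁻¹ = z0.1.2⁻¹ := fun x => by
    have h1 : ε0 x ∈ normalizer (zpowers z : Set G) := rng0 ▸ ⟨x, rfl⟩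
    have h2 := pA_zp3 (hexp z zD) ((mem_normalizer_iff.1 h1 z).1 (mem_zpowers z))
    rw [← hz0, ← map_inv, ← map_mul, ← map_mul, ← map_inv, ← map_one ε0, inj0.eq_iff, inj0.eq_iff, inj0.eq_iff] at h2
    exact h2.imp (congrArg fun x : E35 => x.1.2) (Or.imp (congrArg fun x : E35 => x.1.2) (congrArg fun x : E35 => x.1.2))
  have zb : z0.1.2 = 1 := pA_d1 _ (congrArg (fun x : E35 => x.1.2) z3) (nz u1E) (nz u2E)
  have za : z0.1.1 ≠ 1 := fun e => by
    have : z0 = 1 := Subtype.ext (Prod.ext e zb)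
    rw [this, map_one] at hz0
    exact small y yD (mem_zpowers y) (hz0 ▸ one_mem _)
  obtain ⟨k, hk⟩ := pA_d4 _ y0.1.1 (congrArg (fun x : E35 => x.1.1) z3) za (congrArg (fun x : E35 => x.1.1) y3)
  have yb : y0.1.2 ≠ 1 := fun e => by
    have : y0 * z0 ^ k.val = 1 := Subtype.ext (Prod.ext hk (by
      change y0.1.2 * z0.1.2 ^ k.val = 1
      rw [e, zb, one_pow, one_mul]))
    have h2 := congrArg ε0 this
    rw [map_mul, map_pow, hy0, hz0, map_one, mul_eq_one_iff_eq_inv] at h2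
    exact small z zD (h2 ▸ inv_mem (pow_mem (mem_zpowers z) _)) (mem_zpowers z)
  obtain ⟨t1, h1⟩ := pA_d2 _ (congrArg (fun x : E35 => x.1.1) z3) za
  obtain ⟨t2, h2⟩ := pA_d3 _ (congrArg (fun x : E35 => x.1.2) y3) yb
  let τ : MulAut E35 := MulAut.conjNormal (t1, t2)
  refine ⟨ε0.comp τ.toMonoidHom, inj0.comp τ.injective, ?_, ?_, ?_⟩
  · rw [← rng0]
    ext g
    exact ⟨fun ⟨x, hx⟩ => ⟨_, hx⟩, fun ⟨x, hx⟩ => ⟨τ.symm x, by simpa using hx⟩⟩
  · rw [← hz0]
    refine congrArg ε0 (Subtype.ext (Prod.ext h1 ?_))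
    change t2 * 1 * t2⁻¹ = _
    rw [zb, mul_one, mul_inv_cancel]
  · have : τ zE' = y0 * z0 ^ k.val := Subtype.ext (Prod.ext (by
      change t1 * 1 * t1⁻¹ = y0.1.1 * z0.1.1 ^ k.val
      rw [hk, mul_one, mul_inv_cancel]) (by
      change t2 * zE'.1.2 * t2⁻¹ = y0.1.2 * z0.1.2 ^ k.val
      rw [h2, zb, one_pow, mul_one]))
    change ε0 (τ zE') ∈ D
    rw [this, map_mul, map_pow, hy0, hz0]
    exact mul_mem yD (pow_mem zD _)

theorem pA_cinv (x : G) : centralizer ({x⁻¹} : Set G) = centralizer {x} := by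
  ext g
  rw [mem_centralizer_singleton_iff, mem_centralizer_singleton_iff]
  exact Commute.inv_right_iff

theorem pA (P : Sylow 3 G) (D : Subgroup G) (hDP : D = P) (y z : G) (hgen : closure {y, z} = D)
    (hcomm : IsMulCommutative D) (hcard : Nat.card D = 9) (hexp : ∀ a ∈ D, a ^ 3 = 1)
    (eN : normalizer (D : Set G) ⧸ D.subgroupOf (normalizer (D : Set G)) ≃* DihedralGroup 4)
    (hycard : Nat.card (centralizer ({y} : Set G)) = 18)
    (eC : centralizer ({z} : Set G) ≃* Multiplicative (ZMod 3) × alternatingGroup (Fin 5))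
    (eL : normalizer (zpowers z : Set G) ≃* E35) : ∃ (ε : E35 →* G) (σ : G), SA ε σ := by
  obtain ⟨ε, inj, rng, rfl, z'D⟩ := pA_eps D y z hgen hcomm hcard hexp eL
  have yD : y ∈ D := hgen ▸ subset_closure (by simp)
  have zD : ε zE ∈ D := hgen ▸ subset_closure (by simp)
  have cm : ∀ a ∈ D, ∀ b ∈ D, a * b = b * a := fun a ha b hb =>
    congrArg Subtype.val (hcomm.is_comm.comm (⟨a, ha⟩ : D) ⟨b, hb⟩)
  obtain ⟨r1, r2, r3, r4, r5, r6, r7, r8, r9, r10, r11, r12, r13⟩ := pA_rel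
  have cz : Nat.card (centralizer ({ε zE} : Set G)) = 180 := by
    rw [Nat.card_congr eC.toEquiv, Nat.card_prod, Nat.card_congr Multiplicative.toAdd, Nat.card_zmod,
      nat_card_alternatingGroup, Nat.card_eq_fintype_card, Fintype.card_fin]
    rfl
  have mL : ∀ {g : G}, g * ε zE * g⁻¹ ∈ zpowers (ε zE) → g ∈ ε.range := fun h => rng ▸ pA_nrm h
  have Lm : ∀ {g : G}, g ∈ ε.range → g * ε zE * g⁻¹ ∈ zpowers (ε zE) := fun h =>
    (mem_normalizer_iff.1 (rng ▸ h) _).1 (mem_zpowers _)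
  have DL : ∀ d ∈ D, d ∈ ε.range := fun d hd => mL (by
    rw [cm d hd _ zD, mul_inv_cancel_right]; exact mem_zpowers _)
  have mD : ∀ d ∈ D, ∃ i j : Fin 3, d = ε (zE ^ i.val * zE' ^ j.val) := fun d hd => by
    obtain ⟨x, rfl⟩ := DL d hd
    obtain ⟨i, j, e⟩ := pA_d5 x (inj (by rw [map_pow, hexp _ hd, map_one]))
      (inj (by rw [map_mul, map_mul, cm _ hd _ z'D]))
    exact ⟨i, j, by rw [← e]⟩
  have Dm : ∀ i j : ℕ, ε (zE ^ i * zE' ^ j) ∈ D := fun i j => by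
    rw [map_mul, map_pow, map_pow]
    exact mul_mem (pow_mem zD _) (pow_mem z'D _)
  have cj : ∀ {a b c : E35}, a * b * a⁻¹ = c → ε a * ε b * (ε a)⁻¹ = ε c := fun h => by
    rw [← h, map_mul, map_mul, map_inv]
  have nD : ∀ {g : G}, g * ε zE * g⁻¹ ∈ D → g * ε zE' * g⁻¹ ∈ D → g ∈ normalizer (D : Set G) := fun {g} h1 h2 =>
    mem_normalizer_fintype fun d hd => by
      obtain ⟨i, j, rfl⟩ := mD d hd
      have := mul_mem (pow_mem h1 i.val) (pow_mem h2 j.val)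
      rw [conj_pow, conj_pow, conj_mul] at this
      rwa [map_mul, map_pow, map_pow]
  have eN1 : ε eE ∈ normalizer (D : Set G) := nD (by rw [cj r7]; exact zD) (by rw [cj r8, map_inv]; exact inv_mem z'D)
  have eN2 : ε eE' ∈ normalizer (D : Set G) := nD (by rw [cj r9, map_inv]; exact inv_mem zD) (by rw [cj r10]; exact z'D)
  let φ : normalizer (D : Set G) →* DihedralGroup 4 := eN.toMonoidHom.comp (QuotientGroup.mk' _)
  have φ1 : ∀ n, φ n = 1 ↔ (n : G) ∈ D := fun n => by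
    change eN (QuotientGroup.mk n) = 1 ↔ _
    rw [map_eq_one_iff _ eN.injective, QuotientGroup.eq_one_iff, mem_subgroupOf]
  have φL : ∀ n m, φ n = φ m → (m : G) ∈ ε.range → (n : G) ∈ ε.range := fun n m h hm => by
    have := DL _ ((φ1 (n * m⁻¹)).1 (by rw [map_mul, map_inv, h, mul_inv_cancel]))
    exact (mul_mem_cancel_right (inv_mem hm)).1 this
  obtain ⟨s, hs⟩ : ∃ s, φ s = DihedralGroup.r 1 := (eN.surjective.comp (QuotientGroup.mk'_surjective _)) _
  set a : normalizer (D : Set G) := ⟨_, eN1⟩ with ha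
  set b : normalizer (D : Set G) := ⟨_, eN2⟩ with hb
  have nd : ∀ x : E35, x ^ 3 ≠ 1 → ε x ∉ D := fun x hx h => hx (inj (by rw [map_pow, hexp _ h, map_one]))
  obtain ⟨k1, k2⟩ := pA_d7 (φ a) (φ b) (φ s)
    (by rw [← map_mul, φ1]; change ε eE * ε eE ∈ D; rw [← map_mul, r4, map_one]; exact one_mem _)
    (by rw [← map_mul, φ1]; change ε eE' * ε eE' ∈ D; rw [← map_mul, r5, map_one]; exact one_mem _)
    (fun e => nd _ r11 ((φ1 _).1 e)) (fun e => nd _ r12 ((φ1 _).1 e))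
    (fun e => nd _ r13 (by rw [← map_mul, φ1] at e; rw [map_mul]; exact e))
    (by rw [← map_mul, ← map_mul]; congr 1; ext1; change ε eE * ε eE' = ε eE' * ε eE; rw [← map_mul, r6, map_mul])
  have VL : ∀ n, (φ n = φ a ∨ φ n = φ b ∨ φ n = φ a * φ b) → (n : G) ∈ ε.range := by
    rintro n (e | e | e)
    · exact φL _ _ e ⟨eE, rfl⟩
    · exact φL _ _ e ⟨eE', rfl⟩
    · exact φL _ (a * b) (by rw [e, map_mul]) ⟨eE * eE', map_mul _ _ _⟩
  have m1 : (s : G)⁻¹ * ε eE * s ∈ ε.range := VL (s⁻¹ * a * s) (by rwa [map_mul, map_mul, map_inv])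
  have m2 : (s : G) * s ∈ ε.range := VL (s * s) (by rwa [map_mul, hs])
  have sD : ∀ d ∈ D, (s : G) * d * (s : G)⁻¹ ∈ D := fun d hd => (mem_normalizer_iff.1 s.2 d).1 hd
  have sL : (s : G) ∉ ε.range := fun ⟨x, hx⟩ => by
    obtain ⟨i, j, e⟩ := mD _ (sD _ z'D)
    obtain ⟨i', j', e'⟩ := pA_d6 x i j (inj (by rw [← e, map_mul, map_mul, map_inv, hx]))
    have : φ (s * s) = 1 := (φ1 _).2 (by
      change (s : G) * s ∈ D
      rw [← hx, ← map_mul, e']; exact Dm _ _)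
    rw [map_mul, hs] at this
    exact absurd this (by decide)
  have z3 : ε zE ^ 3 = 1 := hexp _ zD
  have sz : (s : G) * ε zE * (s : G)⁻¹ = ε zE' ∨ (s : G) * ε zE * (s : G)⁻¹ = (ε zE')⁻¹ := by
    obtain ⟨i, j, e⟩ := mD _ (sD _ zD)
    have h1 := pA_zp3 z3 (Lm m1)
    have h2 : ∀ t, (s : G)⁻¹ * ε eE * s * ε zE * ((s : G)⁻¹ * ε eE * s)⁻¹ = t →
        ε (eE * (zE ^ i.val * zE' ^ j.val) * eE⁻¹) = s * t * (s : G)⁻¹ := fun t ht => by
      rw [map_mul, map_mul, map_inv, ← e, ← ht]; group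
    have h3 := pA_d8 i j (h1.imp (fun h => inj (by rw [h2 _ h, map_one]; group)) (Or.imp
      (fun h => inj (by rw [h2 _ h, e])) fun h => inj (by rw [h2 _ h, map_inv, ← e]; group)))
    rcases h3 with rfl | h3 | h3
    · refine absurd (mL ?_) sL
      rw [e]
      simp only [Fin.val_zero, pow_zero, mul_one, map_pow]
      exact pow_mem (mem_zpowers _) _
    · left; rw [e, h3]
    · right; rw [e, h3, map_inv]
  have z1 : ε zE ≠ 1 := fun e => absurd (inj (e.trans (map_one ε).symm)) (by decide +kernel)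
  have sz' : (s : G) * ε zE' * (s : G)⁻¹ = ε zE ∨ (s : G) * ε zE' * (s : G)⁻¹ = (ε zE)⁻¹ := by
    have h1 := pA_zp3 z3 (Lm m2)
    have h2 : (s : G) * s * ε zE * ((s : G) * s)⁻¹ = s * ((s : G) * ε zE * (s : G)⁻¹) * (s : G)⁻¹ := by group
    rw [h2] at h1
    rcases h1 with h1 | h1
    · exact absurd (by simpa using h1) z1
    rcases sz with e | e <;> rw [e] at h1
    · exact h1
    · rw [← conj_inv, inv_eq_iff_eq_inv, inv_inj] at h1
      exact h1.symm
  have q7 := cj r7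
  have q8 := cj r8
  have q9 := cj r9
  have q10 := cj r10
  rw [map_inv] at q8 q9
  obtain ⟨σ1, s1, s2⟩ : ∃ σ1 : G, σ1 * ε zE * σ1⁻¹ = ε zE' ∧ σ1 * ε zE' * σ1⁻¹ = ε zE := by
    have cc : ∀ g h x : G, g * h * x * (g * h)⁻¹ = g * (h * x * h⁻¹) * g⁻¹ := fun g h x => by group
    rcases sz with e | e <;> rcases sz' with e' | e'
    · exact ⟨s, e, e'⟩
    · exact ⟨s * ε eE, by rw [cc, q7, e], by rw [cc, q8, ← conj_inv, e', inv_inv]⟩
    · exact ⟨s * ε eE', by rw [cc, q9, ← conj_inv, e, inv_inv], by rw [cc, q10, e']⟩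
    · exact ⟨s * ε eE * ε eE', by rw [cc, cc, q9, ← conj_inv, q7, ← conj_inv, e, inv_inv],
        by rw [cc, cc, q10, q8, ← conj_inv, e', inv_inv]⟩
  have tr : ∀ g x t : G, g * x * g⁻¹ = t →
      (σ1 * g * σ1⁻¹) * (σ1 * x * σ1⁻¹) * (σ1 * g * σ1⁻¹)⁻¹ = σ1 * t * σ1⁻¹ := fun g x t h => by
    rw [← h]; group
  have t1 := tr _ _ _ q7
  have t2 := tr _ _ _ q8
  have t3 := tr _ _ _ q9
  have t4 := tr _ _ _ q10
  rw [← conj_inv] at t2 t3
  rw [s1] at t1 t3
  rw [s2] at t2 t4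
  obtain ⟨x1, hx1⟩ := mL (g := σ1 * ε eE * σ1⁻¹) (by rw [t2]; exact inv_mem (mem_zpowers _))
  obtain ⟨x2, hx2⟩ := mL (g := σ1 * ε eE' * σ1⁻¹) (by rw [t4]; exact mem_zpowers _)
  have sq : ∀ x e : E35, e * e = 1 → ε x = σ1 * ε e * σ1⁻¹ → x * x = 1 := fun x e h1 h2 => inj (by
    rw [map_mul, h2, conj_mul, ← map_mul, h1, map_one]; group)
  obtain ⟨k, hk⟩ := pA_d9 x1 (sq _ _ r4 hx1) (inj (by simp only [map_mul, map_inv, hx1, t2]))
    (inj (by simp only [map_mul, map_inv, hx1, t1]))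
  obtain ⟨l, hl⟩ := pA_d10 x2 (sq _ _ r5 hx2) (inj (by simp only [map_mul, map_inv, hx2, t4]))
    (inj (by simp only [map_mul, map_inv, hx2, t3]))
  have cc : ∀ g h x : G, g * h * x * (g * h)⁻¹ = g * (h * x * h⁻¹) * g⁻¹ := fun g h x => by group
  have fx : ∀ {g x : G} (n : ℕ), x * g * x⁻¹ = g → g ^ n * x * (g ^ n)⁻¹ = x := fun {g x} n h => by
    have : Commute g x := (mul_inv_eq_iff_eq_mul.1 h).symm
    rw [(this.pow_left n).eq, mul_inv_cancel_right]
  have hk' := cj hk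
  have hl' := cj hl
  rw [map_pow, hx1] at hk'
  rw [map_pow, hx2] at hl'
  have zz : ε zE * ε zE' * (ε zE)⁻¹ = ε zE' := by rw [cm _ zD _ z'D, mul_inv_cancel_right]
  have zz' : ε zE' * ε zE * (ε zE')⁻¹ = ε zE := by rw [cm _ z'D _ zD, mul_inv_cancel_right]
  have cpw : ε zE' ^ l.val * ε zE ^ k.val = ε zE ^ k.val * ε zE' ^ l.val := cm _ (pow_mem z'D _) _ (pow_mem zD _)
  set σ := ε zE' ^ l.val * ε zE ^ k.val * σ1 with hσ
  have u1 : σ * ε zE * σ⁻¹ = ε zE' := by rw [cc, cc, s1, fx _ zz', fx _ (mul_inv_cancel_right _ _)]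
  have u2 : σ * ε zE' * σ⁻¹ = ε zE := by rw [cc, cc, s2, fx _ (mul_inv_cancel_right _ _), fx _ zz]
  have u3 : σ * ε eE * σ⁻¹ = ε eE' := by rw [cc, cc, hk', fx _ q10]
  have u4 : σ * ε eE' * σ⁻¹ = ε eE := by rw [hσ, cpw, cc, cc, hl', fx _ q7]
  have ss : σ * σ = 1 := by
    have v1 : σ * σ * ε zE * (σ * σ)⁻¹ = ε zE := by rw [cc, u1, u2]
    obtain ⟨x, hx⟩ := mL (g := σ * σ) (by rw [v1]; exact mem_zpowers _)
    rw [← hx, pA_d11 x (inj (by rw [map_mul, map_mul, map_inv, hx, v1]))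
      (inj (by rw [map_mul, map_mul, map_inv, hx, cc, u2, u1]))
      (inj (by rw [map_mul, map_mul, map_inv, hx, cc, u3, u4]))
      (inj (by rw [map_mul, map_mul, map_inv, hx, cc, u4, u3])), map_one]
  refine ⟨ε, σ, inj, fun g => by rw [rng], ss, u1, u3, ?_, cz, P, hDP ▸ hcard⟩
  obtain ⟨i, j, e⟩ := mD y yD
  have cz' : Nat.card (centralizer ({ε zE'} : Set G)) = 180 := by rw [← u1, card_cen_conj, cz]
  rcases pA_d12 i j with h | ⟨t, -, h⟩
  · exfalso
    simp only [Finset.mem_insert, Finset.mem_singleton] at h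
    rcases h with h | h | h | h | h <;> rw [e, h] at hycard
    · have := card_le_of_le (show centralizer ({ε zE} : Set G) ≤ centralizer {ε 1} from fun g _ => by
        rw [mem_centralizer_singleton_iff, map_one, mul_one, one_mul])
      omega
    · omega
    · rw [map_inv, pA_cinv] at hycard; omega
    · omega
    · rw [map_inv, pA_cinv] at hycard; omega
  · rw [← map_mul, h, map_mul, map_mul, map_inv, card_cen_conj, ← e, hycard]

end Cfsg.Agent.H12.Ae
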