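import Cfsg.Agent.H12.Ae0

/-! S3329, piece `pA`: finite computations. -/

set_option autoImplicit false
set_option linter.unusedVariables false
set_option synthInstance.maxSize 4096
set_option synthInstance.maxHeartbeats 400000

namespace Cfsg.Agent.H12.Ae

open Subgroup Equiv

theorem pA_d1 : ∀ b : Perm (Fin 5), b ^ 3 = 1 →
    (u1E.1.2 * b * u1E.1.2⁻¹ = 1 ∨ u1E.1.2 * b * u1E.1.2⁻¹ = b ∨ u1E.1.2 * b * u1E.1.2⁻¹ = b⁻¹) →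
    (u2E.1.2 * b * u2E.1.2⁻¹ = 1 ∨ u2E.1.2 * b * u2E.1.2⁻¹ = b ∨ u2E.1.2 * b * u2E.1.2⁻¹ = b⁻¹) → b = 1 := by
  decide +kernel

theorem pA_d2 : ∀ a : Perm (Fin 3), a ^ 3 = 1 → a ≠ 1 → ∃ t : Perm (Fin 3), t * zE.1.1 * t⁻¹ = a := by
  decide +kernel

theorem pA_d3 : ∀ b : Perm (Fin 5), b ^ 3 = 1 → b ≠ 1 → ∃ t : Perm (Fin 5), t * zE'.1.2 * t⁻¹ = b := by
  decide +kernel

theorem pA_d4 : ∀ a a' : Perm (Fin 3), a ^ 3 = 1 → a ≠ 1 → a' ^ 3 = 1 → ∃ k : Fin 3, a' * a ^ k.val = 1 := by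
  decide +kernel

theorem pA_d5a : ∀ a : Perm (Fin 3), a ^ 3 = 1 → ∃ i : Fin 3, a = zE.1.1 ^ i.val := by
  decide +kernel

theorem pA_d5b : ∀ b : Perm (Fin 5), b ^ 3 = 1 → b * zE'.1.2 = zE'.1.2 * b → ∃ i : Fin 3, b = zE'.1.2 ^ i.val := by
  decide +kernel

theorem pA_d5 (x : E35) (h3 : x ^ 3 = 1) (hc : x * zE' = zE' * x) : ∃ i j : Fin 3, x = zE ^ i.val * zE' ^ j.val := by
  obtain ⟨i, hi⟩ := pA_d5a x.1.1 (congrArg (fun x : E35 => x.1.1) h3)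
  obtain ⟨j, hj⟩ := pA_d5b x.1.2 (congrArg (fun x : E35 => x.1.2) h3) (congrArg (fun x : E35 => x.1.2) hc)
  refine ⟨i, j, Subtype.ext (Prod.ext ?_ ?_)⟩
  · rw [hi]
    change _ = zE.1.1 ^ i.val * (1 : Perm (Fin 3)) ^ j.val
    rw [one_pow, mul_one]
  · rw [hj]
    change _ = (1 : Perm (Fin 5)) ^ i.val * zE'.1.2 ^ j.val
    rw [one_pow, one_mul]

theorem pA_d6a : ∀ a : Perm (Fin 3), ∃ i : Fin 3, a * a = zE.1.1 ^ i.val := by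
  decide +kernel

theorem pA_d6b : ∀ b : Perm (Fin 5), ∀ k : Fin 3, b * zE'.1.2 * b⁻¹ = zE'.1.2 ^ k.val →
    ∃ i : Fin 3, b * b = zE'.1.2 ^ i.val := by
  decide +kernel

theorem pA_d6 (x : E35) (i j : Fin 3) (hc : x * zE' * x⁻¹ = zE ^ i.val * zE' ^ j.val) :
    ∃ i j : Fin 3, x * x = zE ^ i.val * zE' ^ j.val := by
  obtain ⟨i', hi⟩ := pA_d6a x.1.1
  obtain ⟨j', hj⟩ := pA_d6b x.1.2 j (by
    have := congrArg (fun x : E35 => x.1.2) hc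
    change _ = (1 : Perm (Fin 5)) ^ i.val * zE'.1.2 ^ j.val at this
    rwa [one_pow, one_mul] at this)
  refine ⟨i', j', Subtype.ext (Prod.ext ?_ ?_)⟩
  · change x.1.1 * x.1.1 = zE.1.1 ^ i'.val * (1 : Perm (Fin 3)) ^ j'.val
    rw [one_pow, mul_one, hi]
  · change x.1.2 * x.1.2 = (1 : Perm (Fin 5)) ^ i'.val * zE'.1.2 ^ j'.val
    rw [one_pow, one_mul, hj]

theorem pA_d7 : ∀ a b s : DihedralGroup 4, a * a = 1 → b * b = 1 → a ≠ 1 → b ≠ 1 → a * b ≠ 1 → a * b = b * a →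
    (s⁻¹ * a * s = a ∨ s⁻¹ * a * s = b ∨ s⁻¹ * a * s = a * b) ∧
      (DihedralGroup.r 1 * DihedralGroup.r 1 = a ∨ DihedralGroup.r 1 * DihedralGroup.r 1 = b ∨
        DihedralGroup.r 1 * DihedralGroup.r 1 = a * b) := by
  decide +kernel

theorem pA_d8 : ∀ i j : Fin 3, (eE * (zE ^ i.val * zE' ^ j.val) * eE⁻¹ = 1 ∨
    eE * (zE ^ i.val * zE' ^ j.val) * eE⁻¹ = zE ^ i.val * zE' ^ j.val ∨
    eE * (zE ^ i.val * zE' ^ j.val) * eE⁻¹ = (zE ^ i.val * zE' ^ j.val)⁻¹) →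
    j = 0 ∨ zE ^ i.val * zE' ^ j.val = zE' ∨ zE ^ i.val * zE' ^ j.val = zE'⁻¹ := by
  decide +kernel

theorem pA_d9a : ∀ a : Perm (Fin 3), a * zE.1.1 * a⁻¹ = zE.1.1⁻¹ →
    Perm.sign a = -1 ∧ ∃ k : Fin 3, zE.1.1 ^ k.val * a * (zE.1.1 ^ k.val)⁻¹ = eE'.1.1 := by
  decide +kernel

theorem pA_d9b : ∀ b : Perm (Fin 5), b * b = 1 → b * zE'.1.2 * b⁻¹ = zE'.1.2 → -1 * Perm.sign b = 1 → b = eE'.1.2 := by
  decide +kernel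

theorem pA_d9 (x : E35) (h2 : x * x = 1) (h1 : x * zE * x⁻¹ = zE⁻¹) (hc : x * zE' * x⁻¹ = zE') :
    ∃ k : Fin 3, zE ^ k.val * x * (zE ^ k.val)⁻¹ = eE' := by
  obtain ⟨hs, k, hk⟩ := pA_d9a x.1.1 (congrArg (fun x : E35 => x.1.1) h1)
  have hb := pA_d9b x.1.2 (congrArg (fun x : E35 => x.1.2) h2) (congrArg (fun x : E35 => x.1.2) hc)
    (hs ▸ mem_E35.1 x.2)
  refine ⟨k, Subtype.ext (Prod.ext hk ?_)⟩
  change (1 : Perm (Fin 5)) ^ k.val * x.1.2 * ((1 : Perm (Fin 5)) ^ k.val)⁻¹ = _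
  rw [one_pow, one_mul, inv_one, mul_one, hb]

theorem pA_d10a : ∀ a : Perm (Fin 3), a * a = 1 → a * zE.1.1 * a⁻¹ = zE.1.1 → a = 1 := by
  decide +kernel

theorem pA_d10b : ∀ b : Perm (Fin 5), b * b = 1 → b * zE'.1.2 * b⁻¹ = zE'.1.2⁻¹ → Perm.sign b = 1 →
    ∃ k : Fin 3, zE'.1.2 ^ k.val * b * (zE'.1.2 ^ k.val)⁻¹ = eE.1.2 := by
  decide +kernel

theorem pA_d10 (x : E35) (h2 : x * x = 1) (h1 : x * zE * x⁻¹ = zE) (hc : x * zE' * x⁻¹ = zE'⁻¹) :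
    ∃ k : Fin 3, zE' ^ k.val * x * (zE' ^ k.val)⁻¹ = eE := by
  have ha := pA_d10a x.1.1 (congrArg (fun x : E35 => x.1.1) h2) (congrArg (fun x : E35 => x.1.1) h1)
  obtain ⟨k, hk⟩ := pA_d10b x.1.2 (congrArg (fun x : E35 => x.1.2) h2) (congrArg (fun x : E35 => x.1.2) hc) (by
    have := mem_E35.1 x.2
    rwa [ha, map_one, one_mul] at this)
  refine ⟨k, Subtype.ext (Prod.ext ?_ hk)⟩
  change (1 : Perm (Fin 3)) ^ k.val * x.1.1 * ((1 : Perm (Fin 3)) ^ k.val)⁻¹ = 1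
  rw [one_pow, one_mul, inv_one, mul_one, ha]

theorem pA_d11a : ∀ a : Perm (Fin 3), a * zE.1.1 * a⁻¹ = zE.1.1 → a * eE'.1.1 * a⁻¹ = eE'.1.1 → a = 1 := by
  decide +kernel

theorem pA_d11b : ∀ b : Perm (Fin 5), b * zE'.1.2 * b⁻¹ = zE'.1.2 → b * eE.1.2 * b⁻¹ = eE.1.2 →
    Perm.sign b = 1 → b = 1 := by
  decide +kernel

theorem pA_d11 (x : E35) (h1 : x * zE * x⁻¹ = zE) (h2 : x * zE' * x⁻¹ = zE') (h3 : x * eE * x⁻¹ = eE)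
    (h4 : x * eE' * x⁻¹ = eE') : x = 1 := by
  have ha := pA_d11a x.1.1 (congrArg (fun x : E35 => x.1.1) h1) (congrArg (fun x : E35 => x.1.1) h4)
  have hb := pA_d11b x.1.2 (congrArg (fun x : E35 => x.1.2) h2) (congrArg (fun x : E35 => x.1.2) h3) (by
    have := mem_E35.1 x.2
    rwa [ha, map_one, one_mul] at this)
  exact Subtype.ext (Prod.ext ha hb)

theorem pA_d12 : ∀ i j : Fin 3, zE ^ i.val * zE' ^ j.val ∈ ({1, zE, zE⁻¹, zE', zE'⁻¹} : Finset E35) ∨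
    ∃ t ∈ ({1, eE, eE', eE * eE'} : Finset E35), zE * zE' = t * (zE ^ i.val * zE' ^ j.val) * t⁻¹ := by
  decide +kernel

theorem pA_rel : zE ^ 3 = 1 ∧ zE' ^ 3 = 1 ∧ zE * zE' = zE' * zE ∧ eE * eE = 1 ∧ eE' * eE' = 1 ∧
    eE * eE' = eE' * eE ∧ eE * zE * eE⁻¹ = zE ∧ eE * zE' * eE⁻¹ = zE'⁻¹ ∧ eE' * zE * eE'⁻¹ = zE⁻¹ ∧
    eE' * zE' * eE'⁻¹ = zE' ∧ eE ^ 3 ≠ 1 ∧ eE' ^ 3 ≠ 1 ∧ (eE * eE') ^ 3 ≠ 1 := by
  decide +kernel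

end Cfsg.Agent.H12.Ae
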