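import Cfsg.Agent.H28.MZi
import Cfsg.Agent.H28.HJ2
import Cfsg.Agent.H28.Amk
import Cfsg.Agent.H28.Ama
import Cfsg.Agent.H28.Amg
import Cfsg.Agent.H10.Am0

/-! The completion `M₁₂` of the amalgam of two copies of `3² : GL₂(3)`. -/

set_option autoImplicit false
set_option maxRecDepth 100000

namespace Cfsg.Agent.H28.AmM
open H14 H15 HJ MZ Equiv

variable {G : Type*} [Group G]

def BX : List (List ℕ × ℕ) := [([2], 3), ([4], 3), ([0], 3), ([6, 7], 2), ([2, 0, 3, 1], 1), ([4, 0, 5, 1], 1), ([2, 4, 3, 5, 1], 1), ([6, 2, 6, 2], 1), ([6, 4, 6, 5], 1), ([6, 0, 6, 0], 1), ([7, 2, 7, 3], 1), ([7, 4, 7, 4], 1), ([7, 0, 7, 0], 1), ([8, 8, 6], 1), ([8, 7, 9, 7, 6], 1), ([8, 2, 9, 0], 1), ([8, 0, 9, 3], 1), ([8, 4], 3), ([10, 10, 7], 1), ([10, 6, 11, 7, 6], 1), ([10, 4, 11, 1], 1), ([10, 0, 11, 4], 1), ([10, 2], 3), ([8, 10, 8, 10, 8, 10, 4, 8, 10, 8, 10, 8, 10, 4, 8, 10, 8, 10, 8, 10, 4, 6], 1)]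
theorem upX {E : ℕ → G} (h : Sat E (invT 750698579164945461249 12) BX) : CardLe (gp E (sgl 12)) 95040 :=
  (CardLe.step (CardLe.step (CardLe.step cardLe_nil (Amk.idx h.hi h.hB [[0], [1], [2], [3], [4], [5], [6], [7]] (hs := []) (ks := sgl 8) (by decide +kernel)) (by decide +kernel)) (Ama.idx h.hi h.hB [[0], [1], [2], [3], [4], [5], [6], [7], [8], [9]] (hs := sgl 8) (ks := sgl 10) (by decide +kernel)) (by decide +kernel)) (Amg.idx h.hi h.hB [[0], [1], [2], [3], [4], [5], [6], [7], [8], [9], [10], [11]] (hs := sgl 10) (ks := sgl 12) (by decide +kernel)) (by decide +kernel))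
def mX : List ℕ := [nat_lit 0x79ef49b229a9408758325356418a06, nat_lit 0xaa9f49a221bacd229e0cb01c41892d, nat_lit 0x514f49a229b5db2ab82c599e220e00, nat_lit 0x73d749b2212a9a83de12a9ac311120, nat_lit 0xa9df388292bb8265d98d524a418910, nat_lit 0x7aaf1a4260ab90959cc1b30a4189b2, nat_lit 0x556d49b2293b9b22de087816219026, nat_lit 0xb9df48a66cab9b02aa41b016418906, nat_lit 0x5bcf49c22cab86951641b0ae668104, nat_lit 0x29df49a632b3870bad81a914069902, nat_lit 0x53ece2b1723d1a99de06a862418808, nat_lit 0x554ee5c0a9b51b28dd807a264188c1]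
noncomputable def EX : ℕ → M24 := lt 1 (mX.map A24.el)
theorem envX : RM.Env (nthD oM mX) EX := amb_env A24 (by decide +kernel) mX (by decide +kernel)
theorem satX : Sat EX (invT 750698579164945461249 12) BX := envX.sat (fun _ h => lt_of_le h) (by decide +kernel)
theorem memX (l : ℕ) (hl : l < 12) : EX l ∈ SDs.K :=
  have : allLt 12 (fun l => SDs.test (nthD oM mX l)) = true := by decide +kernel
  (envX l).2 ▸ (SDs.test_iff _ (envX l).1).1 (allLt_iff.1 this l hl)
theorem gpX : gp EX (sgl 12) = SDs.K :=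
  le_antisymm (gp_sgl_le memX) (SDs.eq_gen.trans_le (gen_le_gp A24 (o := oM) (W := [[1, 6, 7], [4, 8, 10, 8, 10, 3, 8, 5, 10, 8]]) (by decide +kernel)
    (by decide +kernel) (by decide) (by decide +kernel)))
theorem isoX {E : ℕ → G} (h : Sat E (invT 750698579164945461249 12) BX) (h1 : E 0 ≠ 1) : Nonempty (gp E (sgl 12) ≃* Spor.M12) := by
  obtain ⟨φ⟩ := iso_gen (upX (satX.pair h)) (by rw [gpX, SDs.card_eq]; rfl) (gpX ▸ simple_SD) (by decide) h1
  exact ⟨φ.trans ((MulEquiv.subgroupCongr gpX).trans equivM12)⟩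

end Cfsg.Agent.H28.AmM

namespace Cfsg.Agent.H10.Am
open Subgroup H14 H15 H28 H28.HJ H28.AmM
universe u
variable {G : Type u} [Group G] {a b z t s m n : G}

theorem c2x_sat (h : AM a b z t s m n) (r : ((m*n)^3*b)^3 = t) :
    Sat (lt 1 [z, z⁻¹, a, a⁻¹, b, b⁻¹, t, s, m, m⁻¹, n, n⁻¹]) (invT 750698579164945461249 12) BX := by
  have ti : t⁻¹ = t := inv_eq_of_mul_eq_one_right h.tt
  have si : s⁻¹ = s := inv_eq_of_mul_eq_one_right h.ss
  have k : ∀ {x y : G}, x = y → x * y⁻¹ = 1 := fun e => mul_inv_eq_one.2 e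
  refine sat_of rfl (fun k hk => ?_) ?_
  · interval_cases k
    exacts [inv_mul_cancel z, mul_inv_cancel z, inv_mul_cancel a, mul_inv_cancel a, inv_mul_cancel b, mul_inv_cancel b,
      h.tt, h.ss, inv_mul_cancel m, mul_inv_cancel m, inv_mul_cancel n, mul_inv_cancel n]
  · simp only [BX, List.forall_mem_cons, List.not_mem_nil, false_imp_iff, implies_true, and_true, lprod_cons,
      lprod_nil, lt, mul_one, pow_one]
    refine ⟨by rw [pow_three', h.a3], by rw [pow_three', h.b3], by rw [pow_three', h.z3], ?_, ?_, ?_, ?_, ?_, ?_, ?_, ?_,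
      ?_, ?_, ?_, ?_, ?_, ?_, h.mb, ?_, ?_, ?_, ?_, h.na, ?_⟩
    · simpa only [pow_two, mul_inv_rev, ti, si, inv_inv, mul_assoc] using k h.ts
    · simpa only [mul_inv_rev, ti, si, inv_inv, mul_assoc] using k h.az
    · simpa only [mul_inv_rev, ti, si, inv_inv, mul_assoc] using k h.bz
    · simpa only [mul_inv_rev, ti, si, inv_inv, mul_assoc] using k h.ab
    · simpa only [mul_inv_rev, ti, si, inv_inv, mul_assoc] using k h.ta
    · simpa only [mul_inv_rev, ti, si, inv_inv, mul_assoc] using k h.tb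
    · simpa only [mul_inv_rev, ti, si, inv_inv, mul_assoc] using k h.tz
    · simpa only [mul_inv_rev, ti, si, inv_inv, mul_assoc] using k h.sa
    · simpa only [mul_inv_rev, ti, si, inv_inv, mul_assoc] using k h.sb
    · simpa only [mul_inv_rev, ti, si, inv_inv, mul_assoc] using k h.sz
    · simpa only [mul_inv_rev, ti, si, inv_inv, mul_assoc] using k h.mm
    · simpa only [mul_inv_rev, ti, si, inv_inv, mul_assoc] using k h.ms
    · simpa only [mul_inv_rev, ti, si, inv_inv, mul_assoc] using k h.ma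
    · simpa only [mul_inv_rev, ti, si, inv_inv, mul_assoc] using k h.mz
    · simpa only [mul_inv_rev, ti, si, inv_inv, mul_assoc] using k h.nn
    · simpa only [mul_inv_rev, ti, si, inv_inv, mul_assoc] using k h.nt
    · simpa only [mul_inv_rev, ti, si, inv_inv, mul_assoc] using k h.nb
    · simpa only [mul_inv_rev, ti, si, inv_inv, mul_assoc] using k h.nz
    · simpa only [pow_three, mul_inv_rev, ti, si, inv_inv, mul_assoc] using k r

theorem c2_x (h : AM a b z t s m n) (r : ((m*n)^3*b)^3 = t) (hz : z ≠ 1)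
    (top : closure {a,b,z,t,s,m,n} = ⊤) : Cfsg.Spor.IsoM12 G := by
  obtain ⟨φ⟩ := isoX (c2x_sat h r) hz
  have e := fun l (hl : l < 12) =>
    (mem_gp_sgl hl : lt 1 [z, z⁻¹, a, a⁻¹, b, b⁻¹, t, s, m, m⁻¹, n, n⁻¹] l ∈ gp _ (sgl 12))
  have : gp (lt 1 [z, z⁻¹, a, a⁻¹, b, b⁻¹, t, s, m, m⁻¹, n, n⁻¹]) (sgl 12) = ⊤ := by
    rw [eq_top_iff, ← top, closure_le]
    rintro x (rfl | rfl | rfl | rfl | rfl | rfl | rfl)
    exacts [e 2 (by decide), e 4 (by decide), e 0 (by decide), e 6 (by decide), e 7 (by decide), e 8 (by decide),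
      e 10 (by decide)]
  rw [this] at φ
  exact ⟨topEquiv.symm.trans φ⟩

end Cfsg.Agent.H10.Am
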