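import Mathlib
import Cfsg.Agent.H2.Rel
import Cfsg.Agent.H2.Zipper

/-! The generation version of Wielandt's zipper lemma (Guralnick-Tracey). -/

set_option autoImplicit false
set_option linter.style.haveILetI false
set_option linter.unusedSectionVars false

namespace Cfsg.Agent.H28

open Cfsg Subgroup Cfsg.Agent.FT
open scoped Pointwise commutatorElement

variable {G : Type*} [Group G] [Finite G] {A B H K : Subgroup G}

/-- `H` is the normal closure of `A` in `H` -/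
structure NG (A H : Subgroup G) : Prop where
  le : A ≤ H
  gen : ∀ K, K ⊴ H → A ≤ K → H ≤ K

theorem ng_iff (h : A ≤ H) : NG A H ↔ normalClosure (A.subgroupOf H : Set H) = ⊤ := by
  refine ⟨fun h' => ?_, fun h' => ⟨h, fun K hK hA => ?_⟩⟩
  · have := h'.gen _ (nml_map_subtype (normalClosure (A.subgroupOf H : Set H)))
      ((map_so h).ge.trans (map_mono le_normalClosure))
    exact map_injective H.subtype_injective (le_antisymm (map_mono le_top) ((map_subtype_top H).le.trans this))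
  · haveI := hK.normal
    have : normalClosure (A.subgroupOf H : Set H) ≤ K.subgroupOf H := normalClosure_le_normal fun x hx => hA hx
    exact fun x hx => this (show (⟨x, hx⟩ : H) ∈ _ from h' ▸ mem_top _)

theorem ng_top_iff : NG A ⊤ ↔ normalClosure (A : Set G) = ⊤ := by
  refine ⟨fun h => top_le_iff.1 (h.gen _ (nml_top_iff.2 inferInstance) le_normalClosure), fun h => ⟨le_top, fun K hK hA => ?_⟩⟩
  haveI := nml_top_iff.1 hK
  exact h.ge.trans (normalClosure_le_normal hA)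

theorem NG.refl (A : Subgroup G) : NG A A := ⟨le_rfl, fun _ _ h => h⟩
theorem NG.mono (h : NG A H) (h1 : A ≤ B) (h2 : B ≤ H) : NG B H := ⟨h2, fun K hK hB => h.gen K hK (h1.trans hB)⟩
theorem NG.trans (h1 : NG A B) (h2 : NG B H) : NG A H :=
  ⟨h1.le.trans h2.le, fun K hK hA => h2.gen K hK
    ((h1.gen _ (nml_inf_of_norms (h2.le.trans hK.nrm)) (le_inf h1.le hA)).trans inf_le_right)⟩
theorem NG.cj (h : NG A H) (g : G) : NG (cj g A) (cj g H) :=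
  ⟨cj_mono g h.le, fun K hK hA => cj_le_iff.2 (h.gen _ (by simpa only [cj_inv_cj] using hK.cj g⁻¹) (cj_le_iff.1 hA))⟩
theorem NG.eq_of_subn (h : NG A H) (hs : Subn A H) : A = H := by
  by_contra hne
  obtain ⟨K, hK, h1, h2⟩ := hs.exists_nml hne
  exact h2.not_ge (h.gen K hK h1)
theorem NG.nrm_ne (h : NG A ⊤) (h1 : A ≤ B) (h2 : B ≠ ⊤) : N(B) ≠ ⊤ :=
  fun e => h2 (top_le_iff.1 (h.gen B ⟨le_top, e.ge⟩ h1))

theorem subn_or_ng (h : A ≤ H) : Subn A H ∨ ∃ K, A < K ∧ K ≤ H ∧ NG A K := by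
  induction H using WellFoundedLT.induction with
  | _ H ih =>
    by_cases h1 : NG A H
    · exact h.eq_or_lt.imp (fun e : A = H => e ▸ Subn.refl A) fun h2 => ⟨H, h2, le_rfl, h1⟩
    have : ∃ K, K ⊴ H ∧ A ≤ K ∧ ¬ H ≤ K := by
      by_contra hc
      push Not at hc
      exact h1 ⟨h, hc⟩
    obtain ⟨K, hK, h2, h3⟩ := this
    exact (ih K (lt_of_le_not_ge hK.le h3) h2).imp (fun h4 => h4.trans hK.subn)
      fun ⟨L, h4, h5, h6⟩ => ⟨L, h4, h5.trans hK.le, h6⟩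

/-- `A` lies in two different maximal subgroups -/
def TwoMax (A : Subgroup G) : Prop := ∃ M N, IsCoatom M ∧ IsCoatom N ∧ M ≠ N ∧ A ≤ M ∧ A ≤ N

theorem TwoMax.mono (h : TwoMax A) (hB : B ≤ A) : TwoMax B :=
  let ⟨M, N, h1, h2, h3, h4, h5⟩ := h
  ⟨M, N, h1, h2, h3, hB.trans h4, hB.trans h5⟩

theorem gz_core (S : Set (Subgroup G)) (μ : Subgroup G → Subgroup G) (a : ℕ)
    (hcj : ∀ X ∈ S, ∀ g, cj g X ∈ S) (hcard : ∀ X ∈ S, #X = a) (hng : ∀ X ∈ S, NG X ⊤)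
    (hμ : ∀ X ∈ S, IsCoatom (μ X)) (hle : ∀ X ∈ S, X ≤ μ X) (hns : ∀ X ∈ S, ¬ Subn X (μ X))
    (hs : ∀ X ∈ S, ∀ N, IsCoatom N → X ≤ N → N ≠ μ X → Subn X N)
    (ih : ∀ B : Subgroup G, a < #B → NG B ⊤ → TwoMax B → ∀ L, IsCoatom L → ∃ H, NG B H ∧ H ≠ ⊤ ∧ ¬ H ≤ L)
    (hA : A ∈ S) : ¬ TwoMax A := by
  intro h2
  have μcj : ∀ X ∈ S, ∀ g, μ (cj g X) = cj g (μ X) := fun X hX g => by
    by_contra hne
    have := (hs _ (hcj X hX g) _ (isCoatom_cj.2 (hμ X hX)) (cj_mono g (hle X hX)) (Ne.symm hne)).cj g⁻¹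
    rw [cj_inv_cj, cj_inv_cj] at this
    exact hns X hX this
  have selfn : ∀ X ∈ S, N(μ X) ≤ μ X := fun X hX =>
    ((hμ X hX).le_iff.1 (le_nrm _)).elim (fun e => absurd e ((hng X hX).nrm_ne (hle X hX) (hμ X hX).1)) Eq.le
  have nrmle : ∀ X ∈ S, N(X) ≤ μ X := fun X hX g hg =>
    selfn X hX (cj_eq_self.1 (by rw [← μcj X hX, cj_of_mem_nrm hg]))
  have P4 : ∀ X ∈ S, ∀ Y ∈ S, X ≠ Y → TwoMax (X ⊔ Y) → μ X ≠ μ Y ∧ X ≤ μ Y := fun X hX Y hY hne h => by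
    have hlt : a < #(X ⊔ Y) := hcard X hX ▸ card_lt (lt_of_le_of_ne le_sup_left fun e =>
      hne (eq_of_card_eq (le_sup_right.trans e.ge) ((hcard Y hY).trans (hcard X hX).symm)).symm)
    have key : ∀ L, IsCoatom L → X ⊔ Y ≤ L → ∃ N, N ≠ L ∧ IsCoatom N ∧ X ⊔ Y ≤ N ∧ (N = μ X ∨ N = μ Y) := fun L hL h1 => by
      obtain ⟨H, h3, h4, h5⟩ := ih _ hlt ((hng X hX).mono le_sup_left le_top) h L hL
      obtain ⟨N, hN, h6⟩ := exists_coatom h4
      refine ⟨N, fun e => h5 (e ▸ h6), hN, h3.le.trans h6, ?_⟩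
      by_contra hc
      push Not at hc
      have h7 := h3.le.trans h6
      have := (hs X hX N hN (le_sup_left.trans h7) hc.1).sup (hs Y hY N hN (le_sup_right.trans h7) hc.2)
      exact h5 (h3.eq_of_subn (this.mono h3.le h6) ▸ h1)
    obtain ⟨L, -, hL, -, -, h1, -⟩ := id h
    obtain ⟨N, -, hN, h3, h4⟩ := key L hL h1
    obtain ⟨N', h5, -, h6, h7⟩ := key N hN h3
    rcases h4 with rfl | rfl <;> rcases h7 with rfl | rfl
    · exact absurd rfl h5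
    · exact ⟨h5.symm, le_sup_left.trans h6⟩
    · exact ⟨h5, le_sup_left.trans h3⟩
    · exact absurd rfl h5
  have P5 : ∀ X ∈ S, ∀ N, IsCoatom N → N ≠ μ X → X ≤ N → ∀ g ∈ μ X, cj g X ≤ N → g ∈ N(X) := fun X hX N hN hne h1 g hg h3 => by
    by_contra hc
    have e : μ (cj g X) = μ X := by rw [μcj X hX, cj_of_mem hg]
    exact (P4 _ (hcj X hX g) X hX (fun e => hc (cj_eq_self.1 e))
      ⟨N, μ X, hN, hμ X hX, hne, sup_le h3 h1, sup_le (e ▸ hle _ (hcj X hX g)) (hle X hX)⟩).1 e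
  have P6 : ∀ X ∈ S, ∀ Y ∈ S, TwoMax (X ⊔ Y) → Y ≤ N(X) := fun X hX Y hY h g hg => by
    by_cases hne : X = Y
    · exact le_nrm X (hne ▸ hg)
    obtain ⟨h1, h3⟩ := P4 X hX Y hY hne h
    exact P5 X hX (μ Y) (hμ Y hY) h1.symm h3 g ((P4 Y hY X hX (Ne.symm hne) (sup_comm X Y ▸ h)).2 hg)
      (cj_le_of_mem (hle Y hY hg) h3)
  have step : ∀ N (T : Set (Subgroup G)), (∀ X ∈ T, X ∈ S ∧ Subn X N) → ¬ N ≤ N(sSup T) →
      ∃ X ∈ S, Subn X N ∧ X ∉ T ∧ X ≤ N(sSup T) := fun N T hT hn => by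
    have hc : ∀ U ∈ {X | X ∈ S ∧ Subn X N}, ∀ g ∈ N, MulAut.conj g • U ∈ {X | X ∈ S ∧ Subn X N} :=
      fun U hU g hg => ⟨hcj U hU.1 g, hU.2.cj_of_nrm (le_nrm N hg)⟩
    obtain ⟨X, h1, h3, h4⟩ := H2.exists_le_normalizer_sSup_of_subnormalIn N {X | X ∈ S ∧ Subn X N} T
      (fun U hU => hU.2.h2) hc ⟨hT, fun h => hn (H2.le_normalizer_sSup fun U hU g hg => h (hc U (hT U hU) g hg))⟩
    exact ⟨X, h1.1, h1.2, h3, h4⟩
  -- the first pair
  have : ∃ N, IsCoatom N ∧ A ≤ N ∧ N ≠ μ A := by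
    obtain ⟨M, N, h1, h3, h4, h5, h6⟩ := h2
    by_cases e : M = μ A
    · exact ⟨N, h3, h6, fun e' => h4 (e.trans e'.symm)⟩
    · exact ⟨M, h1, h5, e⟩
  obtain ⟨N, hN, hAN, hne⟩ := this
  obtain ⟨X0, hX0, hX1, hX2, hX3⟩ := step N {A} (fun X hX => hX ▸ ⟨hA, hs A hA N hN hAN hne⟩) (by
    rw [sSup_singleton]
    exact fun h => hne ((hN.le_iff.1 (h.trans (nrmle A hA))).resolve_left (hμ A hA).1).symm)
  rw [sSup_singleton] at hX3
  obtain ⟨R, hR0, ⟨hR, hR1⟩, hmax⟩ := exists_max (fun R => TwoMax R ∧ R ≤ sSup {X ∈ S | X ≤ R}) (A := A ⊔ X0)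
    ⟨⟨N, μ A, hN, hμ A hA, hne, sup_le hAN hX1.le, sup_le (hle A hA) (hX3.trans (nrmle A hA))⟩,
      sup_le (le_sSup ⟨hA, le_sup_left⟩) (le_sSup ⟨hX0, le_sup_right⟩)⟩
  have hmax' : ∀ X ∈ S, TwoMax (R ⊔ X) → X ≤ R := fun X hX h =>
    le_sup_right.trans (hmax _ ⟨h, sup_le (hR1.trans (sSup_le_sSup fun Y hY => ⟨hY.1, hY.2.trans le_sup_left⟩))
      (le_sSup ⟨hX, le_sup_right⟩)⟩ le_sup_left).le
  have hRμ : ∀ X ∈ S, X ≤ R → R ≤ μ X := fun X hX h =>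
    hR1.trans (sSup_le fun Y hY => (P6 X hX Y hY.1 (hR.mono (sup_le h hY.2))).trans (nrmle X hX))
  obtain ⟨N0, hN0, hN1⟩ := exists_coatom ((hng A hA).nrm_ne (le_sup_left.trans hR0)
    fun e => (hμ A hA).1 (top_le_iff.1 (e ▸ hRμ A hA (le_sup_left.trans hR0))))
  have fin : ∀ X ∈ S, X ≤ R → ∀ Y ∈ S, Y ≤ R → Y ≠ X → N0 = μ X := fun X hX hXR Y hY hYR hYX => by
    have hT : ∀ U ∈ {U | (U ∈ S ∧ U ≤ R) ∧ U ≠ X}, U ∈ S ∧ Subn U (μ X) := fun U hU =>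
      ⟨hU.1.1, hs U hU.1.1 _ (hμ X hX) (hU.1.2.trans (hRμ X hX hXR))
        (P4 U hU.1.1 X hX hU.2 (hR.mono (sup_le hU.1.2 hXR))).1.symm⟩
    have hR2 : sSup {U | (U ∈ S ∧ U ≤ R) ∧ U ≠ X} ≤ R := sSup_le fun U hU => hU.1.2
    have h1 : ∀ g ∈ μ X, g ∈ N(sSup {U | (U ∈ S ∧ U ≤ R) ∧ U ≠ X}) → g ∈ N(X) := fun g hg hg' => by
      have h3 : cj g Y ≤ R := (cj_le_of_nrm hg' (le_sSup ⟨⟨hY, hYR⟩, hYX⟩)).trans hR2
      refine P5 X hX (μ (cj g Y)) (hμ _ (hcj Y hY g)) ?_ (hXR.trans (hRμ _ (hcj Y hY g) h3)) g hg ?_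
      · rw [μcj Y hY, Ne, cj_eq_iff, cj_of_mem (inv_mem hg)]
        exact (P4 Y hY X hX hYX (hR.mono (sup_le hYR hXR))).1
      · exact μcj Y hY g ▸ cj_mono g (hXR.trans (hRμ Y hY hYR))
    obtain ⟨U, hU, hU1, hU2, hU3⟩ := step (μ X) _ hT fun h =>
      hns X hX (Nml.subn ⟨hle X hX, fun g hg => h1 g hg (h hg)⟩)
    by_contra hc
    have hU4 : U ≤ N(R) := by
      have e : R = sSup {U | (U ∈ S ∧ U ≤ R) ∧ U ≠ X} ⊔ X := le_antisymm (hR1.trans (sSup_le fun V hV => by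
        by_cases e : V = X
        · exact e ▸ le_sup_right
        · exact le_sup_of_le_left (le_sSup ⟨hV, e⟩))) (sup_le hR2 hXR)
      rw [e]
      exact normsY hU3 fun g hg => h1 g (hU1.le hg) (hU3 hg)
    exact hU2 ⟨⟨hU, hmax' U hU ⟨N0, μ X, hN0, hμ X hX, hc, (sup_le (le_nrm R) hU4).trans hN1,
      sup_le (hRμ X hX hXR) hU1.le⟩⟩, fun e => hns X hX (e ▸ hU1)⟩
  have h1 := le_sup_left.trans hR0
  have h3 := le_sup_right.trans hR0
  exact (P4 A hA X0 hX0 (Ne.symm hX2) (hR.mono hR0)).1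
    ((fin A hA h1 X0 hX0 h3 hX2).symm.trans (fin X0 hX0 h3 A hA h1 (Ne.symm hX2)))

theorem gen_zipper (hA : NG A ⊤) (h2 : TwoMax A) {M : Subgroup G} (hM : IsCoatom M) :
    ∃ H, NG A H ∧ H ≠ ⊤ ∧ ¬ H ≤ M := by
  induction hn : A.index using Nat.strong_induction_on generalizing A M with
  | _ n ih0 =>
  have ih : ∀ B : Subgroup G, #A < #B → NG B ⊤ → TwoMax B → ∀ L, IsCoatom L → ∃ H, NG B H ∧ H ≠ ⊤ ∧ ¬ H ≤ L :=
    fun B hB h1 h3 L hL => ih0 B.index (by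
      rw [← hn]
      by_contra hc
      have := Nat.mul_lt_mul_of_lt_of_le hB (not_lt.1 hc) (Nat.pos_of_ne_zero index_ne_zero_of_finite)
      rw [card_mul_index, card_mul_index] at this
      exact this.false) h1 h3 hL rfl
  by_contra hc
  push Not at hc
  have hAt : A ≠ ⊤ := let ⟨N, _, hN, _, _, h, _⟩ := h2; ne_top_of_le_ne_top hN.1 h
  have hAM := hc A (NG.refl A) hAt
  have ha : ∀ N, IsCoatom N → A ≤ N → N ≠ M → Subn A N := fun N hN h1 hne =>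
    (subn_or_ng h1).resolve_right fun ⟨K, h3, h4, h5⟩ => by
      obtain ⟨H, h6, h7, h8⟩ := ih K (card_lt h3) (hA.mono h3.le le_top)
        ⟨N, M, hN, hM, hne, h4, hc K h5 (ne_top_of_le_ne_top hN.1 h4)⟩ M hM
      exact h8 (hc H (h5.trans h6) h7)
  have hb : ¬ Subn A M := fun h => by
    obtain ⟨M0, hM0, -, h3⟩ := H2.zipper (A := A) (fun h1 => hAt (hA.eq_of_subn (subn_top.2 h1))) fun H hH h1 => by
      obtain ⟨N, hN, h4⟩ := exists_coatom hH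
      by_cases e : N = M
      · exact (h.mono h1 (e ▸ h4)).subn
      · exact ((ha N hN (h1.trans h4) e).mono h1 h4).subn
    obtain ⟨N, N', hN, hN', hne, h4, h5⟩ := h2
    exact hne (((hN.le_iff.1 (h3 N hN.1 h4)).resolve_left hM0.1).symm.trans
      ((hN'.le_iff.1 (h3 N' hN'.1 h5)).resolve_left hM0.1))
  have : ∀ X : Subgroup G, ∃ N, (∃ g, X = cj g A) → ∃ g, X = cj g A ∧ N = cj g M := fun X => by
    by_cases h : ∃ g, X = cj g A
    · exact ⟨cj h.choose M, fun _ => ⟨_, h.choose_spec, rfl⟩⟩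
    · exact ⟨M, fun h' => absurd h' h⟩
  choose μ hμ using this
  refine gz_core {X | ∃ g, X = cj g A} μ #A ?_ ?_ ?_ ?_ ?_ ?_ ?_ ih ⟨1, (cj_one A).symm⟩ h2
  · rintro _ ⟨g, rfl⟩ k; exact ⟨_, cj_cj k g A⟩
  · rintro _ ⟨g, rfl⟩; exact card_cj g A
  · rintro _ ⟨g, rfl⟩; exact cj_top g ▸ hA.cj g
  all_goals intro X hX; obtain ⟨g, e1, e2⟩ := hμ X hX; rw [e2]; subst e1
  · exact isCoatom_cj.2 hM
  · exact cj_mono g hAM
  · exact fun h => hb (by simpa only [cj_inv_cj] using h.cj g⁻¹)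
  · intro N hN h1 hne
    simpa only [cj_cj_inv] using (ha (cj g⁻¹ N) (isCoatom_cj.2 hN) (cj_le_iff.1 h1)
      fun e => hne (by rw [← e, cj_cj_inv])).cj g

theorem NG.map {G' : Type*} [Group G'] {f : G →* G'} (hf : Function.Injective f) (h : NG A H) :
    NG (A.map f) (H.map f) :=
  ⟨map_mono h.le, fun K hK hA => map_le_iff_le_comap.2 (h.gen _
    (by simpa only [comap_map_eq_self_of_injective hf] using hK.comap (f := f)) (map_le_iff_le_comap.1 hA))⟩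

theorem gen_zipper_rel {L M N : Subgroup G} (hA : NG A L) (hM : MaxIn M L) (hN : MaxIn N L) (hne : M ≠ N) (h1 : A ≤ M)
    (h2 : A ≤ N) : ∃ H, NG A H ∧ H < L ∧ ¬ H ≤ M := by
  have hM' := (maxIn_iff_isCoatom hM.lt.le).1 hM
  obtain ⟨H, h3, h4, h5⟩ := gen_zipper (ng_top_iff.2 ((ng_iff hA.le).1 hA)) ⟨_, _, hM', (maxIn_iff_isCoatom hN.lt.le).1 hN,
    fun e => hne ((so_inj hM.lt.le hN.lt.le).1 e), comap_mono h1, comap_mono h2⟩ hM'
  refine ⟨H.map L.subtype, map_so hA.le ▸ h3.map L.subtype_injective, lt_of_le_of_ne (map_subtype_le _) fun e => h4 ?_,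
    fun h => h5 (map_le_iff_le_comap.1 h)⟩
  exact map_injective L.subtype_injective (e.trans (map_subtype_top L).symm)

/-- iterated commutators with `a` generate -/
theorem le_iter_comm {N : Subgroup G} {a : G} (ha : a ∈ N(N)) (k : ℕ) (h : NG ⟪a⟫ H) (hH : H ≤ N ⊔ ⟪a⟫) :
    H ≤ closure ((fun x => ⁅x, a⁆)^[k] '' N) ⊔ ⟪a⟫ := by
  induction H using WellFoundedLT.induction with
  | _ H ih =>
    by_contra hc
    obtain ⟨M, h1, hM⟩ := exists_maxIn (inf_lt_left.2 hc)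
    have hA : ⟪a⟫ ≤ M := (le_inf h.le le_sup_right).trans h1
    have haH : a ∈ H := h.le (mem_zpowers a)
    have key : ∀ g ∈ H, g ∉ M → ⁅g, a⁆ ∉ M := fun g hg hgM hc => by
      have hM' : MaxIn (cj g⁻¹ M) H := by simpa only [cj_of_mem (inv_mem hg)] using hM.cj g⁻¹
      have hne : M ≠ cj g⁻¹ M := fun e => by
        have hn : H ≤ N(M) := by
          rw [← hM.sup_eq (zpowers_le.2 hg) fun h => hgM (h (mem_zpowers g))]
          exact sup_le (le_nrm M) (zpowers_le.2 (inv_mem_iff.1 (cj_eq_self.1 e.symm)))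
        exact hM.lt.not_ge (h.gen M ⟨hM.lt.le, hn⟩ hA)
      obtain ⟨K, h3, h4, h5⟩ := gen_zipper_rel h hM hM' hne hA (zpowers_le.2 (mem_cj.2 (by
        have := mul_mem hc (hA (mem_zpowers a))
        rwa [commutatorElement_def, inv_mul_cancel_right, ← inv_inv g, inv_inv g⁻¹] at this)))
      exact h5 ((le_inf h4.le (ih K h4 h3 (h4.le.trans hH))).trans h1)
    have : ∃ g ∈ H ⊓ N, g ∉ M := by
      by_contra hc
      push Not at hc
      refine hM.lt.not_ge ((inf_eq_left.2 hH).ge.trans ?_)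
      rw [inf_sup_right (zpowers_le.2 ha) h.le]
      exact sup_le hc hA
    obtain ⟨g, hg, hgM⟩ := this
    have : ∀ j, (fun x => ⁅x, a⁆)^[j] g ∈ H ∧ (fun x => ⁅x, a⁆)^[j] g ∉ M := fun j => by
      induction j with
      | zero => exact ⟨hg.1, hgM⟩
      | succ j ih =>
        rw [Function.iterate_succ_apply']
        exact ⟨comm_le_of_le le_rfl le_rfl (commutator_mem_commutator ih.1 haH), key _ ih.1 ih.2⟩
    exact (this k).2 (h1 ⟨(this k).1, mem_sup_left (subset_closure ⟨g, hg.2, rfl⟩)⟩)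

end Cfsg.Agent.H28
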