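import Mathlib
import Cfsg.Agent.H28.HJ5
import Cfsg.Agent.H28.HJc

/-! The centraliser of an involution of the second class in the Hall–Janko group. -/

set_option autoImplicit false
set_option maxRecDepth 100000

namespace Cfsg.Agent.H28.HJ
open Subgroup L1ES H15 Equiv

variable {G : Type*} [Group G] {z s r h u t g : G} {Q : Subgroup G}

local notation "C[" z "]" => centralizer ({z} : Set _)
local notation "A4" => alternatingGroup (Fin 4)
local notation "A5" => alternatingGroup (Fin 5)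

def BC : List (List ℕ × ℕ) := [([2], 3), ([2, 0], 2), ([2, 3], 3), ([0, 3], 3), ([6], 3), ([6, 4], 3), ([0, 4], 2), ([3, 4], 2), ([1, 4, 2, 4], 1), ([6, 0, 5, 0], 1), ([6, 3, 5, 3], 1), ([6, 2, 5, 1], 1)]
theorem upC {E : ℕ → G} (h : Sat E (invT 350107734144 7) BC) : CardLe (gp E (sgl 7)) 720 :=
  (CardLe.step (CardLe.step cardLe_nil (HJa.idx h.hi h.hB [[0], [1], [2], [3]] (hs := []) (ks := sgl 4) (by decide +kernel)) (by decide +kernel)) (HJc.idx h.hi h.hB [[0], [1], [2], [3], [4], [5], [6]] (hs := sgl 4) (ks := sgl 7) (by decide +kernel)) (by decide +kernel))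

def t4 : A4 := ⟨swap 0 1 * swap 2 3, Perm.mem_alternatingGroup.2 (by decide)⟩
def u4 : A4 := ⟨swap 1 2 * swap 2 3, Perm.mem_alternatingGroup.2 (by decide)⟩
def z5 : A5 := ⟨swap 0 1 * swap 2 3, Perm.mem_alternatingGroup.2 (by decide)⟩
def w5 : A5 := ⟨swap 1 2 * swap 2 3, Perm.mem_alternatingGroup.2 (by decide)⟩
def y5 : A5 := ⟨swap 2 3 * swap 0 4, Perm.mem_alternatingGroup.2 (by decide)⟩
def mC : ℕ → A4 × A5 := lt 1 [(1, y5), (1, w5), (1, w5⁻¹), (1, z5), (t4, 1), (u4, 1), (u4⁻¹, 1)]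

theorem satC : Sat mC (invT 350107734144 7) BC := sat_of rfl (by decide +kernel) (by decide +kernel)

theorem gpC : gp mC (sgl 7) = ⊤ := eq_top_iff.2 fun x _ => by
  have h1 : ∀ x : A4, ∃ w ∈ [[], [4], [5], [6], [4, 5], [4, 6], [5, 4], [6, 4], [4, 5, 4], [4, 6, 4], [5, 4, 6], [6, 4, 5]], lprod mC w = (x, 1) := by decide +kernel
  have h2 : ∀ x : A5, ∃ w ∈ [[], [0], [1], [2], [3], [0, 1], [0, 2], [0, 3], [1, 3], [2, 3], [3, 0], [3, 1], [3, 2], [0, 1, 3], [0, 2, 3], [0, 3, 0], [0, 3, 1], [0, 3, 2], [1, 3, 0], [1, 3, 1], [1, 3, 2], [2, 3, 0], [2, 3, 1], [2, 3, 2], [3, 0, 1], [3, 0, 2], [0, 1, 3, 0], [0, 1, 3, 1], [0, 1, 3, 2], [0, 2, 3, 0], [0, 2, 3, 1], [0, 2, 3, 2], [0, 3, 0, 1], [0, 3, 0, 2], [1, 3, 0, 1], [1, 3, 0, 2], [2, 3, 0, 1], [2, 3, 0, 2], [3, 0, 1, 3], [3, 0, 2, 3], [0, 1, 3, 0, 1], [0, 1, 3, 0, 2], [0, 2, 3, 0, 1], [0, 2, 3, 0, 2], [0, 3, 0, 1, 3], [0, 3, 0, 2, 3], [1, 3, 0, 1, 3],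 [1, 3, 0, 2, 3], [2, 3, 0, 1, 3], [2, 3, 0, 2, 3], [3, 0, 1, 3, 2], [3, 0, 2, 3, 1], [0, 1, 3, 0, 1, 3], [0, 1, 3, 0, 2, 3], [0, 2, 3, 0, 1, 3], [0, 2, 3, 0, 2, 3], [1, 3, 0, 1, 3, 2], [1, 3, 0, 2, 3, 1], [2, 3, 0, 1, 3, 2], [2, 3, 0, 2, 3, 1]], lprod mC w = (1, x) := by decide +kernel
  obtain ⟨v, -, e1⟩ := h1 x.1
  obtain ⟨w, -, e2⟩ := h2 x.2
  have := mul_mem (lprod_mem_sgl (E := mC) (L := 7) (fun _ h => lt_of_le h) v)
    (lprod_mem_sgl (E := mC) (fun _ h => lt_of_le h) w)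
  simpa [e1, e2] using this

theorem card720 : Nat.card (A4 × A5) = 720 := by
  rw [Nat.card_prod, nat_card_alternatingGroup, nat_card_alternatingGroup]; simp [Nat.factorial]

variable [Finite G]

theorem B2.psi (B : B2 z Q s r h u t g) (hn : ¬ IsConj t z) :
    (∃ ψ : A4 × A5 →* G, Function.Injective ψ ∧ ψ (t4, 1) = t) ∧ Nat.card C[t] = 240 := by
  obtain ⟨y, yy, yt, yu, yw, yz, -, cT⟩ := B.ct hn
  obtain ⟨Y, M⟩ := B.mh
  obtain ⟨-, -, -, tt, zz, u3, -, -, -, -, -, -, ut, -⟩ := M.h8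
  obtain ⟨-, -, -, -, -, -, -, -, n9, -, -, -, n13, -⟩ := M.h6
  obtain ⟨sz, -, -, uz, tz⟩ := B.gens
  obtain ⟨w, hw, wt, wu, wz, ws, wsz, w3⟩ := B.wf
  rw [← hw] at yw
  obtain ⟨φ, h1, -⟩ := pair_hom mC (lt 1 [y, w, w⁻¹, z, t, u, u⁻¹]) (upC (satC.pair (sat_of rfl (fun k hk => by
    interval_cases k
    exacts [yy, inv_mul_cancel w, mul_inv_cancel w, zz, tt, inv_mul_cancel u, mul_inv_cancel u]) (by
      simp only [BC, List.forall_mem_cons, List.not_mem_nil, false_imp_iff, implies_true, and_true,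
        lprod_cons, lprod_nil, lt, mul_one, pow_one]
      refine ⟨by rw [inv_pow, w3, inv_one], by rw [← inv2 yy, ← mul_inv_rev, inv_pow, yw, inv_one], ?_, yz,
        by rw [inv_pow, u3, inv_one], ut, by rw [Commute.mul_pow yt, sq, sq, yy, tt, one_mul],
        by rw [Commute.mul_pow tz.symm, sq, sq, zz, tt, one_mul], by rw [kk wt, mul_assoc, mul_inv_cancel_left, tt],
        by rw [kk yu, mul_assoc, inv_mul_cancel_left, yy], by rw [kk uz.symm, mul_assoc, inv_mul_cancel_left, zz],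
        by rw [← wu, inv_mul_cancel_left, inv_mul_cancel]⟩
      calc (w⁻¹ * z) ^ 3 = w⁻¹ * z * w⁻¹⁻¹ * (w⁻¹ * (w⁻¹ * z * w⁻¹⁻¹) * w⁻¹⁻¹) * ((w ^ 3)⁻¹ * z) := by
            simp only [pow_succ, pow_zero]; group
        _ = 1 := by
          rw [cji wsz, ← ws, cji rfl, ws, w3, inv_one, one_mul, mul_assoc s, ← sz, kk M.h8.1, one_mul, zz]))))
    (by rw [gpC, card_top, card720])
  let ψ := φ.comp ((MulEquiv.subgroupCongr gpC).trans topEquiv).symm.toMonoidHom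
  have e1 : ψ (t4, 1) = t := h1 4 (by decide)
  have e2 : ψ (1, z5) = z := h1 3 (by decide)
  refine ⟨⟨ψ, (injective_iff_map_eq_one ψ).2 fun x hx => ?_, e1⟩, cT⟩
  have k : ∀ a b : A4 × A5, ψ (a * (b * x * b⁻¹ * x⁻¹) * a⁻¹) = 1 := fun a b => by simp [hx]
  have k1 : ∀ x : A5, x ≠ 1 → ∃ b : A5, b * x * b⁻¹ * x⁻¹ ≠ 1 := by decide +kernel
  have k2 : ∀ x : A4, x ≠ 1 → (∃ a b : A4, a * (b * x * b⁻¹ * x⁻¹) * a⁻¹ = t4) := by decide +kernel
  by_contra n
  by_cases h2 : x.2 = 1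
  · obtain ⟨a, b, e⟩ := k2 x.1 fun e => n (Prod.ext e h2)
    exact n9 (by rw [← e1, ← k (a, 1) (b, 1), ← e]; congr 1; exact Prod.ext rfl (by simp))
  · obtain ⟨b, e⟩ := k1 x.2 h2
    rcases IsSimpleGroup.eq_bot_or_eq_top_of_normal (ψ.comp (MonoidHom.inr A4 A5)).ker inferInstance with h | h
    · exact e (h.le (show ψ _ = 1 by rw [← k 1 (1, b)]; congr 1; exact Prod.ext (by simp) (by simp)))
    · exact n13 (e2.symm.trans (h.ge (mem_top z5)))

theorem psi_spec (ψ : A4 × A5 →* G) (hψ : Function.Injective ψ) (e : ψ (t4, 1) = t) (cT : Nat.card C[t] = 240) :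
    Nonempty (C[t] ≃* (Multiplicative (ZMod 2) × Multiplicative (ZMod 2)) × A5) ∧
    Nonempty (normalizer (((pCore 2 C[t]).map (C[t]).subtype : Subgroup G) : Set G) ≃* A4 × A5) := by
  set V : Subgroup A4 := C[t4]
  have mV : ∀ x : A4, x ∈ V ↔ x * x = 1 := fun x => memC.trans (by revert x; decide +kernel)
  have c4 : Nat.card V = 4 := by
    rw [Nat.card_congr (Equiv.subtypeEquivRight mV), Nat.card_eq_fintype_card]; decide +kernel
  have : IsKleinFour V := ⟨c4, by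
    have : Nontrivial V := Finite.one_lt_card_iff_nontrivial.1 (by omega)
    exact (Monoid.exponent_eq_prime_iff Nat.prime_two).2 fun x hx =>
      H20.orderOf_two_of (Subtype.ext ((mV x).1 x.2)) hx⟩
  have : IsKleinFour (Multiplicative (ZMod 2) × Multiplicative (ZMod 2)) := ⟨by simp, by simp [Monoid.exponent_prod]⟩
  obtain ⟨f⟩ := IsKleinFour.nonempty_mulEquiv (G₁ := V) (G₂ := Multiplicative (ZMod 2) × Multiplicative (ZMod 2))
  have c60 : Nat.card A5 = 60 := card60 (MulEquiv.refl _)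
  have eC : (V.prod ⊤).map ψ = C[t] := eq_of_le_of_card_ge (by
    rintro _ ⟨x, hx, rfl⟩
    exact memC.2 (by rw [← e, ← map_mul, ← map_mul]; congr 1; exact Prod.ext (memC.1 hx.1) (by simp))) (by
      rw [card_map_of_injective hψ, Nat.card_congr (prodEquiv _ _).toEquiv, Nat.card_prod, c4, card_top, c60, cT])
  have φ := (MulEquiv.subgroupCongr eC.symm).trans ((V.prod ⊤).equivMapOfInjective ψ hψ).symm
  refine ⟨⟨((MulEquiv.subgroupCongr eC.symm).trans ((V.prod ⊤).equivMapOfInjective ψ hψ).symm).trans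
    ((prodEquiv _ _).trans (f.prodCongr topEquiv))⟩, ?_⟩
  have nV : ∀ a : A4 × A5, ∀ x ∈ (V.prod ⊥).map ψ, ψ a * x * (ψ a)⁻¹ ∈ (V.prod ⊥).map ψ := by
    rintro a _ ⟨x, hx, rfl⟩
    exact ⟨a * x * a⁻¹, ⟨(mV _).2 (cjs _ ((mV _).1 hx.1)), by simpa using hx.2⟩, by simp⟩
  have eU : (pCore 2 C[t]).map (C[t]).subtype = (V.prod ⊥).map ψ := by
    refine le_antisymm ?_ (H2.le_pCore_map_subtype (eC ▸ map_mono (prod_mono le_rfl bot_le)) ?_
      (IsPGroup.of_card (n := 2) (by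
        rw [card_map_of_injective hψ, Nat.card_congr (prodEquiv _ _).toEquiv, Nat.card_prod, c4, card_bot]; rfl)))
    · let D := ((pCore 2 C[t]).map (C[t]).subtype).comap (ψ.comp (MonoidHom.inr A4 A5))
      have hn : ∀ c ∈ C[t], ∀ x ∈ (pCore 2 C[t]).map (C[t]).subtype, c * x * c⁻¹ ∈ (pCore 2 C[t]).map (C[t]).subtype := by
        rintro c hc _ ⟨x, hx, rfl⟩
        exact ⟨_, Normal.conj_mem inferInstance x hx ⟨c, hc⟩, rfl⟩
      have m5 : ∀ a : A5, ψ (1, a) ∈ C[t] := fun a => eC ▸ mem_map_of_mem ψ ⟨one_mem _, mem_top _⟩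
      have hD : D = ⊥ := (IsSimpleGroup.eq_bot_or_eq_top_of_normal D ⟨fun x hx a => by
        have := hn _ (m5 a) _ hx
        rwa [← map_inv, MonoidHom.comp_apply, ← map_mul, ← map_mul] at this⟩).resolve_right fun h => by
          obtain ⟨x, hx, e⟩ := h.ge (mem_top w5)
          obtain ⟨n, hn⟩ := (H2.pCore_isPGroup (p := 2)) ⟨x, hx⟩
          have h1 : w5 ^ 2 ^ n = 1 := congrArg Prod.snd (hψ (a₁ := (1, w5) ^ 2 ^ n) (a₂ := 1) (by
            rw [map_pow, map_one]; exact e ▸ congrArg (C[t]).subtype (congrArg Subtype.val hn)))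
          have h2 := orderOf_dvd_of_pow_eq_one h1
          rw [orderOf_eq_prime (p := 3) (by decide +kernel) (by decide +kernel)] at h2
          exact absurd (Nat.prime_three.dvd_of_dvd_pow h2) (by norm_num)
      intro x hx
      obtain ⟨y, hy, rfl⟩ := eC.ge (map_subtype_le _ hx)
      refine ⟨y, ⟨hy.1, ?_⟩, rfl⟩
      have k1 : ∀ x : A5, (∀ b : A5, b * x * b⁻¹ * x⁻¹ = 1) → x = 1 := by decide +kernel
      refine k1 _ fun b => hD.le ?_
      have := mul_mem (hn _ (m5 b) _ hx) (inv_mem hx)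
      rw [← map_inv, ← map_inv, ← map_mul, ← map_mul, ← map_mul] at this
      rwa [show (1, b) * y * (1, b)⁻¹ * y⁻¹ = (1, b * y.2 * b⁻¹ * y.2⁻¹) from Prod.ext (by simp) rfl] at this
    · rw [← eC]
      rintro _ ⟨a, -, rfl⟩
      exact mem_normalizer_fintype (nV a)
  rw [eU]
  refine ⟨(MulEquiv.subgroupCongr (le_antisymm (fun c hc => ?_) ?_)).trans (ψ.ofInjective hψ).symm⟩
  · obtain ⟨x, hx, h⟩ := (mem_normalizer_iff.1 hc t).1 ⟨(t4, 1), ⟨memC.2 rfl, one_mem _⟩, e⟩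
    have k : ∀ x : A4, x * x = 1 → x = 1 ∨ ∃ a, a * x * a⁻¹ = t4 := by decide +kernel
    have h2 : x = (x.1, 1) := Prod.ext rfl hx.2
    rcases k _ ((mV _).1 hx.1) with h1 | ⟨a, h1⟩
    · rw [h2, h1, eq_comm, ← e] at h
      exact absurd (congrArg Prod.fst (hψ ((cj1 (h.trans (map_one ψ))).trans (map_one ψ).symm))) (by decide +kernel)
    · have : ψ (a, 1) * c ∈ C[t] := memC.2 (by
        rw [← mul_inv_eq_iff_eq_mul, cjm, ← h, ← e, ← map_inv, ← map_mul, ← map_mul, h2]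
        congr 1; exact Prod.ext h1 (by simp))
      exact (ψ.range.mul_mem_cancel_left ⟨(a, 1), rfl⟩).1 (map_le_range ψ _ (eC.ge this))
  · rintro _ ⟨a, rfl⟩
    exact mem_normalizer_fintype (nV a)

end Cfsg.Agent.H28.HJ
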