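import Mathlib
import Cfsg.Agent.H28.J2L
import Cfsg.Agent.H28.HJ7

/-! Sylow subgroups of a group isomorphic to the Hall–Janko group. -/

set_option autoImplicit false
set_option maxRecDepth 100000

namespace Cfsg.Agent.H28.J2P
open MulAction H14 Subgroup

local notation "S100" => Equiv.Perm (Fin 100)

variable {G : Type*} [Group G] [Finite G]

theorem cardc {ι : G →* S100} (hι : Function.Injective ι) (hr : ι.range = KJ.K) (S : CSub A)
    (h : allL S.gens KJ.test = true) : Nat.card (S.K.comap ι) = S.ord := by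
  rw [← card_map_of_injective hι, map_comap_eq_self (hr ▸ KJ.le_of_test S h), S.card_eq]

theorem adj (f : G ≃* KJ.K) {p k : ℕ} [Fact p.Prime] (S : CSub A) (h : allL S.gens KJ.test = true)
    (c : S.ord = p ^ k) (h2 : ¬ p ^ (k + 1) ∣ 604800) (P : Sylow p G) :
    ∃ ι : G →* S100, Function.Injective ι ∧ ι.range = KJ.K ∧ S.K.comap ι = P := by
  have i0 : Function.Injective (KJ.K.subtype.comp f.toMonoidHom) := KJ.K.subtype_injective.comp f.injective
  have r0 : ∀ φ : G →* KJ.K, Function.Surjective φ → (KJ.K.subtype.comp φ).range = KJ.K := fun φ hφ => by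
    rw [MonoidHom.range_comp, MonoidHom.range_eq_top.2 hφ, ← MonoidHom.range_eq_map, range_subtype]
  obtain ⟨R, hR⟩ := HJ.syl_of (p := p) (k := k) (by rwa [Nat.card_congr f.toEquiv, card_K])
    ((cardc i0 (r0 _ f.surjective) S h).trans c)
  obtain ⟨g, rfl⟩ := exists_smul_eq G P R
  refine ⟨KJ.K.subtype.comp (f.toMonoidHom.comp (MulAut.conj g).toMonoidHom), i0.comp (MulAut.conj g).injective,
    r0 _ (f.surjective.comp (MulAut.conj g).surjective), ?_⟩
  rw [← MonoidHom.comp_assoc, ← comap_comap, ← hR]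
  exact comap_map_eq_self_of_injective (f := (MulAut.conj g).toMonoidHom) (MulAut.conj g).injective _

omit [Finite G] in
theorem nrm {ι : G →* S100} (hr : ι.range = KJ.K) {P N : CSub A} (h : allL P.gens KJ.test = true)
    (hN : N.K = KJ.K ⊓ normalizer (P.K : Set S100)) : normalizer ((P.K.comap ι : Subgroup G) : Set G) = N.K.comap ι := by
  rw [hN, comap_inf, ← hr, MonoidHom.comap_range_self, top_inf_eq,
    comap_normalizer_eq_of_le_range (hr ▸ KJ.le_of_test P h)]

theorem into_syl {p : ℕ} [Fact p.Prime] (P : Sylow p G) {x : G} (hx : orderOf x = p) : ∃ h, h * x * h⁻¹ ∈ P := by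
  obtain ⟨R, hR⟩ := (IsPGroup.of_card (p := p) (n := 1) (G := zpowers x)
    (by rw [Nat.card_zpowers, hx, pow_one])).exists_le_sylow
  obtain ⟨g, rfl⟩ := exists_smul_eq G R P
  exact ⟨g, mem_map_of_mem (MulAut.conj g).toMonoidHom (hR (mem_zpowers x))⟩

theorem fixc {T n : ℕ} (hT : A.okb T = true) (H : orbSum A.h (fun c => Bool.rec 0 1 (Nat.beq (A.h (A.fn T c)) (A.h c)))
    (KJ.gens.map A.fn) 101 0 (fun _ m => Nat.beq m n) = true) : {x : Fin 100 | A.el T • x = x}.ncard = n := by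
  rw [← KJ.orbit_count A.toModel A.compat_self (A.Vb_V 0 rfl) (Q := fun x => A.el T • x = x)
    (fun c hc => (A.compat_self.mem_stabilizer_iff (A.okb_ok _ hT) hc).symm) H]
  simp only [trans, true_and]

theorem syl5 (f : G ≃* KJ.K) (P : Sylow 5 G) : centralizer ((P : Subgroup G) : Set G) = P ∧ Nat.card P = 25 ∧
    Nat.card (normalizer ((P : Subgroup G) : Set G)) = 300 ∧ ∃ X Y : Subgroup G, Nat.card X = 5 ∧ Nat.card Y = 5 ∧
      (∀ g : G, X.map (MulAut.conj g).toMonoidHom ≠ Y) ∧ ∀ W : Subgroup G, Nat.card W = 5 →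
        ∃ g : G, W.map (MulAut.conj g).toMonoidHom = X ∨ W.map (MulAut.conj g).toMonoidHom = Y := by
  have : Fact (Nat.Prime 5) := ⟨Nat.prime_five⟩
  have t5 : allL P5.gens KJ.test = true := by decide +kernel
  obtain ⟨ι, hι, hr, hP⟩ := adj f (k := 2) P5 t5 rfl (by norm_num) P
  have cP : Nat.card P = 25 := hP ▸ cardc hι hr P5 t5
  have hN := nrm hr t5 nm5
  rw [hP] at hN
  have ab := IsPGroup.isMulCommutative_of_card_eq_prime_sq (p := 5) cP
  have up : ∀ T, A.ok T → KJ.test T = true → ∃ x, ι x = A.el T := fun T h1 h2 => hr.ge ((KJ.test_iff T h1).1 h2)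
  have cX := cardc hι hr X5 (by decide +kernel)
  have cY := cardc hι hr Y5 (by decide +kernel)
  refine ⟨le_antisymm (fun c hc => ?_) (le_centralizer _), cP, hN ▸ cardc hι hr N5 (by decide +kernel), _, _, cX, cY,
    fun g e => ?_, fun W hW => ?_⟩
  · obtain ⟨T, h1, h2, h3⟩ := CSub.small_forall (H := N5C) (hN.le (centralizer_le_normalizer _ hc))
    have h : allL N5L (fun T => bor (anyL P5G fun u => bnot (Nat.beq (A.cj u T) T)) (P5.test T)) = true := by
      decide +kernel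
    refine hP.le (show ι c ∈ _ from h3 ▸ (P5.test_iff T h2).1 ((bor_iff.1 (allL_iff.1 h T h1)).resolve_left fun h => ?_))
    obtain ⟨u, hu, h4⟩ := anyL_iff.1 h
    obtain ⟨y, hy⟩ := up u (P5.gens_ok u hu) (allL_iff.1 t5 u hu)
    refine bnot_iff.1 h4 ((A.commute_iff (P5.gens_ok u hu) h2).1 ?_)
    rw [h3, ← hy, ← map_mul, ← map_mul, hc y (hP.le (show ι y ∈ _ from hy ▸ P5.el_mem hu))]
  · have oa : A.ok a5 := A.okb_ok _ (by decide +kernel)
    obtain ⟨x, hx⟩ := up a5 oa (by decide +kernel)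
    have h1 : x ∈ X5.K.comap ι := show ι x ∈ _ from hx ▸ (X5.test_iff _ oa).1 (by decide +kernel)
    have h2 : g⁻¹⁻¹ * x * g⁻¹ ∈ Y5.K.comap ι := by rw [inv_inv]; exact e.le (mem_map_of_mem _ h1)
    obtain ⟨n, hn, h3⟩ := P.conj_eq_normalizer_conj_of_mem x g⁻¹
      (hP.le (comap_mono (P5.le_of_test X5 (by decide +kernel)) h1))
      (hP.le (comap_mono (P5.le_of_test Y5 (by decide +kernel)) h2))
    obtain ⟨T, h4, h5, h6⟩ := CSub.small_forall (H := N5C) (hN.le (inv_mem hn))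
    have h : allL N5L (fun T => bnot (force (A.cj T a5) Y5.test)) = true := by decide +kernel
    refine bnot_iff.1 (allL_iff.1 h T h4) ?_
    rw [force_eq, Y5.test_iff _ (A.ok_cj _ _ h5 oa), A.el_cj _ _ h5 oa, h6, ← hx, ← map_inv, ← map_mul, ← map_mul,
      inv_inv, ← h3]
    exact h2
  · obtain ⟨w, hw⟩ := exists_prime_orderOf_dvd_card' (G := W) 5 hW.symm.dvd
    rw [← orderOf_coe] at hw
    have eW : zpowers (w : G) = W := eq_of_le_of_card_ge (zpowers_le.2 w.2) (by rw [Nat.card_zpowers, hw, hW])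
    obtain ⟨k, hk⟩ := into_syl P hw
    obtain ⟨T, h1, h2, h3⟩ := CSub.small_forall (H := P5C) (hP.ge hk)
    have h : allL P5L (fun T => anyL n5 fun u => band (band (A.okb u) (KJ.test u))
      (force (A.cj u T) fun U => bor (X5.test U) (Y5.test U))) = true := by decide +kernel
    obtain ⟨u, -, h4⟩ := anyL_iff.1 (allL_iff.1 h T h1)
    rw [band_iff, band_iff, force_eq, bor_iff] at h4
    have ou := A.okb_ok _ h4.1.1
    obtain ⟨m, hm⟩ := up u ou h4.1.2
    have k1 : ∀ S : CSub A, Nat.card (S.K.comap ι) = 5 → S.test (A.cj u T) = true →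
        W.map (MulAut.conj (m * k)).toMonoidHom = S.K.comap ι := fun S c h => eq_of_le_of_card_ge (by
      rw [S.test_iff _ (A.ok_cj _ _ ou h2), A.el_cj _ _ ou h2, h3, ← hm, ← map_inv, ← map_mul, ← map_mul] at h
      rw [← eW, MonoidHom.map_zpowers, zpowers_le]
      rwa [show m * (k * w * k⁻¹) * m⁻¹ = m * k * w * (m * k)⁻¹ by group] at h) (by
        rw [card_map_of_injective (MulAut.conj _).injective, c, hW])
    exact ⟨m * k, h4.2.imp (k1 X5 cX) (k1 Y5 cY)⟩

theorem syl3 (f : G ≃* KJ.K) (P : Sylow 3 G) : ¬ IsMulCommutative P ∧ Nat.card P = 27 ∧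
    Nat.card (normalizer ((P : Subgroup G) : Set G)) = 216 ∧ ∃ a b : G, orderOf a = 3 ∧ orderOf b = 3 ∧
      ¬ IsConj a b ∧ ∀ c : G, orderOf c = 3 → IsConj c a ∨ IsConj c b := by
  have : Fact (Nat.Prime 3) := ⟨Nat.prime_three⟩
  have t3 : allL P3.gens KJ.test = true := by decide +kernel
  obtain ⟨ι, hι, hr, hP⟩ := adj f (k := 3) P3 t3 rfl (by norm_num) P
  have hN := nrm hr t3 nm3
  rw [hP] at hN
  have up : ∀ T, A.ok T → KJ.test T = true → ∃ x, ι x = A.el T := fun T h1 h2 => hr.ge ((KJ.test_iff T h1).1 h2)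
  have oc : A.okb c3 = true := by decide +kernel
  have od : A.okb d3 = true := by decide +kernel
  obtain ⟨a, ha⟩ := up c3 (A.okb_ok _ oc) (by decide +kernel)
  obtain ⟨b, hb⟩ := up d3 (A.okb_ok _ od) (by decide +kernel)
  refine ⟨fun h => ?_, hP ▸ cardc hι hr P3 t3, hN ▸ cardc hι hr N3 (by decide +kernel), a, b, ?_, ?_, fun h => ?_,
    fun c hc => ?_⟩
  · have h1 : anyL P3G (fun u => anyL P3G fun T => bnot (Nat.beq (A.cj u T) T)) = true := by decide +kernel
    obtain ⟨u, hu, h2⟩ := anyL_iff.1 h1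
    obtain ⟨T, hT, h3⟩ := anyL_iff.1 h2
    obtain ⟨x, hx⟩ := up u (P3.gens_ok u hu) (allL_iff.1 t3 u hu)
    obtain ⟨y, hy⟩ := up T (P3.gens_ok T hT) (allL_iff.1 t3 T hT)
    refine bnot_iff.1 h3 ((A.commute_iff (P3.gens_ok u hu) (P3.gens_ok T hT)).1 ?_)
    rw [← hx, ← hy, ← map_mul, ← map_mul]
    exact congrArg (fun v : P => ι v) (h.1.1 ⟨x, hP.le (show ι x ∈ _ from hx ▸ P3.el_mem hu)⟩
      ⟨y, hP.le (show ι y ∈ _ from hy ▸ P3.el_mem hT)⟩)
  · rw [← orderOf_injective ι hι, ha]; exact A.orderOf_prime (A.okb_ok _ oc) Nat.prime_three (by decide +kernel)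
  · rw [← orderOf_injective ι hι, hb]; exact A.orderOf_prime (A.okb_ok _ od) Nat.prime_three (by decide +kernel)
  · obtain ⟨g, e⟩ := isConj_iff.1 h
    have := ncard_smul_congr (P := fun x : Fin 100 => A.el c3 • x = x) (Q := fun x => A.el d3 • x = x) (ι g) fun y => by
      rw [← ha, ← hb, ← e, map_mul, map_mul, map_inv, mul_smul, mul_smul, inv_smul_smul, smul_left_cancel_iff]
    rw [fixc (n := 10) oc (by decide +kernel), fixc (n := 4) od (by decide +kernel)] at this
    omega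
  · obtain ⟨k, hk⟩ := into_syl P hc
    obtain ⟨T, h1, h2, h3⟩ := CSub.small_forall (H := P3C) (hP.ge hk)
    have h : allL P3L (fun T => bor (Nat.beq T A.one) (anyL N3L fun u =>
      force (A.cj u T) fun U => bor (Nat.beq U c3) (Nat.beq U d3))) = true := by decide +kernel
    rcases bor_iff.1 (allL_iff.1 h T h1) with h | h
    · rw [← A.el_eq_one_iff h2, h3, map_eq_one_iff _ hι, conj_eq_one_iff] at h
      simp [h] at hc
    · obtain ⟨u, hu, h4⟩ := anyL_iff.1 h
      have ou := (A.small_aux N3C).2.2.2 u hu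
      obtain ⟨m, hm⟩ := hr.ge (KJ.le_of_test N3 (by decide +kernel)
        ((N3.test_iff u ou).1 (anyL_iff.2 ⟨u, hu, nbeq_iff.2 rfl⟩)))
      rw [force_eq, bor_iff, ← A.el_eq_iff (A.ok_cj _ _ ou h2) (A.okb_ok _ oc),
        ← A.el_eq_iff (A.ok_cj _ _ ou h2) (A.okb_ok _ od), A.el_cj _ _ ou h2, h3, ← hm, ← ha, ← hb, ← map_inv, ← map_mul,
        ← map_mul, hι.eq_iff, hι.eq_iff] at h4
      exact h4.imp (fun e => (isConj_iff.2 ⟨k, rfl⟩).trans (isConj_iff.2 ⟨m, e⟩))
        fun e => (isConj_iff.2 ⟨k, rfl⟩).trans (isConj_iff.2 ⟨m, e⟩)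

end Cfsg.Agent.H28.J2P
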