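import Mathlib
import Cfsg.Agent.H28.HJk
import Cfsg.Agent.H28.HJb1
import Cfsg.Agent.H28.HJb2
import Cfsg.Agent.H25.J3O
import Cfsg.Agent.H25.J3C

/-! The presentation of the third Janko group over an involution centraliser. -/

set_option autoImplicit false
set_option maxRecDepth 100000

namespace Cfsg.Agent.H28.HJ
open H15

variable {G : Type*} [Group G]

def BK : List (List ℕ × ℕ) := [([7, 3, 7, 6, 1, 4], 1), ([7, 0, 1, 0, 1, 7, 5], 1), ([7, 0, 7, 4, 5, 3], 1), ([7, 1, 5, 1], 3)]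
def BB1 : List (List ℕ × ℕ) := BH ++ BG ++ BK ++ [([7, 1, 7, 1, 7, 1, 0, 2, 6, 2, 6, 2, 6, 2, 0, 1], 1)]
def BB2 : List (List ℕ × ℕ) := BH ++ BG ++ BK ++ [([7, 1, 7, 1, 7, 0, 2, 6, 2, 6, 2, 6, 2, 0], 1)]
theorem upB2 {E : ℕ → G} (h : Sat E (invT 31204062535744 8) BB2) : CardLe (gp E (sgl 8)) 50232960 :=
  (CardLe.step (CardLe.step (CardLe.step cardLe_nil (HJa.idx h.hi h.hB [[2], [3], [4], [5]] (hs := []) (ks := [[2], [3], [4], [5]]) (by decide +kernel)) (by decide +kernel)) (HJh.idx h.hi h.hB [[0], [1], [2], [3], [4], [5]] (hs := [[2], [3], [4], [5]]) (ks := sgl 6) (by decide +kernel)) (by decide +kernel)) (HJb2.idx h.hi h.hB [[0], [1], [2], [3], [4], [5], [6], [7]] (hs := sgl 6) (ks := sgl 8) (by decide +kernel)) (by decide +kernel))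
theorem colB1 {E : ℕ → G} (h : Sat E (invT 31204062535744 8) BB1) : gp E (sgl 8) ≤ gp E (sgl 6) :=
  have := HJb1.idx h.hi h.hB [[0], [1], [2], [3], [4], [5], [6], [7]] (hs := sgl 6) (ks := sgl 8) (by decide +kernel)
  Subgroup.relIndex_eq_one.1 (by omega)

section model
open H25 H25.J3
open scoped commutatorElement

def WJ : List (List ℕ) := [[2], [4, 0, 2, 0, 3, 1, 0, 3, 0, 5, 0, 5, 0, 3, 0, 2, 5, 0, 5], [5, 0, 3, 5, 0, 1, 5, 0, 3, 4, 5, 0, 3, 0, 5, 0, 2], [0, 5, 2, 1, 0, 2, 0, 5, 0, 1, 3, 0, 1, 5, 0, 5, 0], [0, 5, 0, 5, 0, 1, 0, 3, 0, 5, 0, 2, 0, 1, 2, 5, 0], [0, 2, 3, 0, 3, 0, 3, 0, 2, 3, 0, 1], [5, 2, 0, 3, 2, 0, 3, 0, 5, 0, 5, 0, 3, 0, 5, 0, 1, 2, 0, 3], [4, 3, 5, 0, 1, 3, 0, 2, 3, 0, 5]]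
noncomputable def EJ : ℕ → G0 := locv WJ g

theorem cJ {u v : List ℕ} (h : T.chk2 [5, 2, 1, 0] u v = true) : ev g u = ev g v := hAM.chk2 htb.2 u v h

theorem wJ {u v : List ℕ} (h : T.chk2 [5, 2, 1, 0] (expand WJ u) v = true) : lprod EJ u = ev g v :=
  (ev_expand WJ g u).symm.trans (cJ h)

theorem satJ : Sat EJ (invT 31204062535744 8) BB2 := by
  refine ⟨fun l => ?_, fun p hp => ?_⟩
  · by_cases hl : l < 8
    · have : ∀ l < 8, T.chk2 [5, 2, 1, 0] (expand WJ [invT 31204062535744 8 l, l]) [] = true := by decide +kernel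
      exact eq_inv_of_mul_eq_one_left (by simpa using wJ (this l hl))
    · rw [invT_of_le (not_lt.1 hl), EJ, locv_ge (df := WJ) l (not_lt.1 hl), inv_one]
  · have : ∀ p ∈ BB2, T.chk2 [5, 2, 1, 0] (expand WJ (pw p.1 p.2)) [] = true := by decide +kernel
    exact (ev_pw (g := EJ) p.1 p.2).symm.trans (wJ (this p hp))

theorem gpJ : gp EJ (sgl 8) = ⊤ := by
  rw [eq_top_iff, ← htop, Lc_le]
  intro a ha
  have h6 : a < 6 := by simpa using (Nat.testBit_two_pow_sub_one 6 a).symm.trans ha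
  have : ∀ a < 6, T.chk2 [5, 2, 1, 0] (expand WJ (gd [] [[1, 6, 5, 1, 7, 0, 1, 2, 7, 6, 5, 3], [6, 0, 6], [0], [7, 0, 5, 7], [1, 0, 3, 5, 1, 4], [1, 5, 1]] a)) [a] = true := by decide +kernel
  have e := wJ (this a h6)
  rw [ev_cons, ev_nil, mul_one] at e
  exact e ▸ lprod_mem_sgl (fun l hl => locv_ge l hl) _

theorem isoJ {E : ℕ → G} (h : Sat E (invT 31204062535744 8) BB2) (h1 : E 0 ≠ 1) : Nonempty (gp E (sgl 8) ≃* G0) := by
  obtain ⟨φ, h2, h3⟩ := pair_hom EJ E (upB2 (satJ.pair h)) (by rw [gpJ, Subgroup.card_top, hcard])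
  have := J3O.simple
  have e : gp EJ (sgl 8) ≃* G0 := (MulEquiv.subgroupCongr gpJ).trans Subgroup.topEquiv
  have : IsSimpleGroup (gp EJ (sgl 8)) := e.isSimpleGroup
  have hφ : Function.Injective φ := (MonoidHom.ker_eq_bot_iff φ).1 ((IsSimpleGroup.eq_bot_or_eq_top_of_normal φ.ker
    inferInstance).resolve_right fun e => h1 ((h2 0 (by decide)).symm.trans (e.ge (Subgroup.mem_top _))))
  exact ⟨(MulEquiv.subgroupCongr h3.symm).trans ((φ.ofInjective hφ).symm.trans e)⟩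

theorem gg (a : ℕ) (ha : a < 6) : g a * g a = 1 := by
  have : ∀ a < 6, T.chk2 [5, 2, 1, 0] [a, a] [] = true := by decide +kernel
  simpa using cJ (this a ha)

theorem ex17 : ∃ a ∈ Lc 15 g, ∃ b ∈ Lc 15 g, a * a = 1 ∧ b * b = 1 ∧ orderOf (a * b) = 17 := by
  have : Fact (Nat.Prime 17) := ⟨by norm_num⟩
  refine ⟨_, ev_mem_Lc (w := [0]) (by decide) g, _, ev_mem_Lc (w := [3, 0, 1, 0, 3]) (by decide) g, ?_, ?_, ?_⟩ <;> rw [← ev_append]
  · exact cJ (v := []) (by decide +kernel)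
  · exact cJ (v := []) (by decide +kernel)
  · exact orderOf_eq_prime ((ev_pw _ _).symm.trans (cJ (v := []) (by decide +kernel)))
      (hAM.neqv hinj htb.2.1 (v := []) (T.small_sound (by decide +kernel)) Sm.nil (by decide +kernel))

theorem ex19 : ∃ x : G0, orderOf x = 19 ∧ ∀ c, c * x = x * c → c ∈ Subgroup.zpowers x := by
  have : Fact (Nat.Prime 19) := ⟨by norm_num⟩
  have sx : Sm J3O.T [0] := J3O.T.small_sound (by decide +kernel)
  refine ⟨ev J3O.g [0], orderOf_eq_prime ((ev_pw _ _).symm.trans (J3O.hAM.chk J3O.hB _ (by decide +kernel)))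
    (J3O.hAM.neqv J3O.hinj J3O.hB.1 sx Sm.nil (by decide +kernel)), fun c hc => ?_⟩
  obtain ⟨w, w1, rfl, w3⟩ := J3O.tlcc c fun q hq => by
    obtain rfl : q = ([0], [0]) := List.mem_singleton.1 hq
    show c⁻¹ * ev J3O.g [0] * c = ev J3O.g [0]
    rw [mul_assoc, ← hc, inv_mul_cancel_left]
  obtain ⟨k, -, hk⟩ := anyL_sound w3
  rw [J3O.hAM.eqv J3O.hB w1 (sx.pw k) hk, ev_pw]
  exact Subgroup.pow_mem _ (Subgroup.mem_zpowers _) k

theorem perf15 : ⁅Lc 15 g, Lc 15 g⁆ = Lc 15 g := by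
  refine le_antisymm (Subgroup.commutator_le_self _) (Lc_le.2 fun a ha => ?_)
  have h4 : a < 4 := by simpa using (Nat.testBit_two_pow_sub_one 4 a).symm.trans ha
  obtain ⟨p, h1, h2, h3⟩ : ∃ p ∈ [([1, 2, 0, 2], [1, 0, 2, 0, 1]), ([2], [0, 2, 0, 1, 2, 0]), ([1], [0, 1, 2, 0, 2, 0]), ([1], [0, 1, 3, 0, 1, 2, 0, 2, 3, 0])], (inM 15 p.1 = true ∧ inM 15 p.2 = true) ∧
      T.chk2 [5, 2, 1, 0] (p.1 ++ p.2) (a :: (p.2 ++ p.1)) = true := by
    clear ha; revert a; decide +kernel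
  have e := cJ h3
  rw [ev_cons, ev_append, ev_append] at e
  have : g a = ⁅ev g p.1, ev g p.2⁆ := by rw [commutatorElement_def, e]; group
  exact this ▸ Subgroup.commutator_mem_commutator (ev_mem_Lc h2.1 g) (ev_mem_Lc h2.2 g)

end model

end Cfsg.Agent.H28.HJ
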