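import Mathlib
import Cfsg.Agent.H3.Cyclic
import Cfsg.Agent.H3.Regular

/-! Odd metacyclic `p`-groups: class sizes, abelian subgroups, centralizers. -/

set_option autoImplicit false
set_option linter.style.haveILetI false
set_option linter.unusedSectionVars false

namespace Cfsg.Agent.H28.Mc

open Subgroup Cfsg.Agent.H3
open scoped commutatorElement

universe u

variable {G : Type u} [Group G] [Finite G] {p : ℕ} [hp : Fact p.Prime]

/-- an odd `p`-group with cyclic derived subgroup -/
structure CD (p : ℕ) (G : Type u) [Group G] : Prop where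
  odd : p ≠ 2
  pg : IsPGroup p G
  cyc : IsCyclic (commutator G)

theorem CD.reg (h : CD p G) : Reg p G := reg_of_isCyclic_commutator h.pg h.odd h.cyc

theorem comm_mem (x y : G) : ⁅x, y⁆ ∈ commutator G :=
  commutator_mem_commutator (mem_top x) (mem_top y)

theorem CD.comm_pow (h : CD p G) (k i : ℕ) (x y : G) :
    ⁅x ^ p ^ k, y⁆ ^ p ^ i = 1 ↔ ⁅x, y⁆ ^ p ^ (k + i) = 1 := by
  have e1 : ⁅x ^ p ^ k, y⁆ = x ^ p ^ k * ((y * x * y⁻¹) ^ p ^ k)⁻¹ := by
    rw [conj_pow, commutatorElement_def]; group
  have e2 : ⁅x, y⁆ = x * (y * x * y⁻¹)⁻¹ := by rw [commutatorElement_def]; group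
  rw [e1, e2, ← h.reg.pow_eq_pow_iff h.pg, ← h.reg.pow_eq_pow_iff h.pg, ← pow_mul, ← pow_mul, ← pow_add]

theorem CD.card_inf_omega (h : CD p G) (m : ℕ) :
    Nat.card (commutator G ⊓ h.reg.omega h.pg m : Subgroup G) ≤ p ^ m :=
  Nat.le_of_dvd (pow_pos hp.out.pos _)
    (card_dvd_of_isCyclic (isCyclic_of_le' h.cyc inf_le_left) fun _ hx => hx.2)

theorem CD.relIndex_le (h : CD p G) {m : ℕ} {H : Subgroup G} {x : G}
    (hx : ∀ z ∈ H, Commute z (x ^ p ^ m)) : (centralizer ({x} : Set G)).relIndex H ≤ p ^ m :=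
  (relIndex_centralizer_le_card H _ fun g hg =>
    (⟨comm_mem g x, (h.reg.commute_pow_iff' h.pg m g x).1 (hx g hg)⟩ :
      ⁅g, x⁆ ∈ commutator G ⊓ h.reg.omega h.pg m)).trans (h.card_inf_omega m)

theorem relIndex_ne_zero' (K H : Subgroup G) : K.relIndex H ≠ 0 := index_ne_zero_of_finite

theorem pow_relIndex_zpowers_mem (K : Subgroup G) (y : G) : y ^ K.relIndex (zpowers y) ∈ K := by
  haveI : (K.subgroupOf (zpowers y)).Normal := inferInstance
  have := pow_index_mem (K.subgroupOf (zpowers y)) ⟨y, mem_zpowers y⟩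
  exact this

theorem exists_relIndex_eq (hG : IsPGroup p G) (K H : Subgroup G) : ∃ j, K.relIndex H = p ^ j := by
  obtain ⟨n, hn⟩ := exists_card_eq_pow hG H
  have : K.relIndex H ∣ p ^ n := hn ▸ relIndex_dvd_card K H
  obtain ⟨j, -, hj⟩ := (Nat.dvd_prime_pow hp.out).1 this
  exact ⟨j, hj⟩

theorem lt_relIndex_zpowers (hG : IsPGroup p G) {K : Subgroup G} {y : G} {m : ℕ} (h : y ^ p ^ m ∉ K) :
    p ^ m < K.relIndex (zpowers y) := by
  obtain ⟨j, hj⟩ := exists_relIndex_eq hG K (zpowers y)
  rw [hj]
  refine Nat.pow_lt_pow_right hp.out.one_lt (lt_of_not_ge fun hjm => h ?_)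
  obtain ⟨d, rfl⟩ := Nat.exists_eq_add_of_le hjm
  rw [pow_add, pow_mul, ← hj]
  exact K.pow_mem (pow_relIndex_zpowers_mem K y) _

/-- the class size of `g` is the order of `g` modulo the centre -/
theorem CD.index_le_iff (h : CD p G) (m : ℕ) (g : G) :
    (centralizer ({g} : Set G)).index ≤ p ^ m ↔ g ^ p ^ m ∈ center G := by
  constructor
  · intro hi
    rw [mem_center_iff]
    intro y
    by_contra hy
    have h1 : y ^ p ^ m ∉ centralizer ({g} : Set G) := fun hc => by
      have h2 : Commute g (y ^ p ^ m) := (mem_centralizer_singleton_iff.1 hc).symm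
      exact hy ((h.reg.commute_pow_iff h.pg m g y).2 ((h.reg.commute_pow_iff' h.pg m g y).1 h2)).symm
    have h3 := lt_relIndex_zpowers h.pg h1
    have h4 : (centralizer ({g} : Set G)).relIndex (zpowers y) ≤ (centralizer ({g} : Set G)).relIndex ⊤ :=
      relIndex_le_of_le_right le_top (by rw [relIndex_top_right]; exact index_ne_zero_of_finite)
    rw [relIndex_top_right] at h4
    omega
  · intro hc
    rw [← relIndex_top_right]
    exact h.relIndex_le fun z _ => mem_center_iff.1 hc z

/-- `|R| |C(R)|` grows with `R`. -/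
theorem CD.mono (h : CD p G) {R S : Subgroup G} (hle : R ≤ S) :
    Nat.card R * Nat.card (centralizer (R : Set G)) ≤ Nat.card S * Nat.card (centralizer (S : Set G)) := by
  induction R using WellFoundedGT.induction with
  | ind R ih =>
  rcases hle.eq_or_lt with rfl | hlt
  · exact le_rfl
  obtain ⟨x, hxS, hxR, hxp, hxn⟩ := exists_mem_normalizer_pow_mem h.pg hlt
  have h1 : R < R ⊔ zpowers x := left_lt_sup.2 fun hh => hxR (hh (mem_zpowers x))
  refine le_trans ?_ (ih _ h1 (sup_le hle (zpowers_le_of_mem hxS)))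
  have h2 := card_sup_zpowers hp.out hxn hxR hxp
  have h3 : (centralizer ({x} : Set G)).relIndex (centralizer (R : Set G)) ≤ p ^ 1 :=
    h.relIndex_le fun z hz => by rw [pow_one]; exact (hz _ hxp).symm
  have h4 := H3.card_inf_mul_relIndex (centralizer ({x} : Set G)) (centralizer (R : Set G))
  have h5 : centralizer ({x} : Set G) ⊓ centralizer (R : Set G) ≤
      centralizer ((R ⊔ zpowers x : Subgroup G) : Set G) := by
    rw [le_centralizer_iff]
    refine sup_le (le_centralizer_iff.1 inf_le_right) (zpowers_le_of_mem fun z hz => ?_)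
    exact mem_centralizer_singleton_iff.1 hz.1
  have h6 := card_le_of_le h5
  rw [h2, ← h4, pow_one] at *
  calc Nat.card R * (Nat.card (centralizer ({x} : Set G) ⊓ centralizer (R : Set G) : Subgroup G) *
        (centralizer ({x} : Set G)).relIndex (centralizer (R : Set G)))
      ≤ Nat.card R * (Nat.card (centralizer ((R ⊔ zpowers x : Subgroup G) : Set G)) * p) := by gcongr
    _ = _ := by ring

theorem centralizer_top' : centralizer ((⊤ : Subgroup G) : Set G) = center G := by
  rw [coe_top, centralizer_univ]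

theorem CD.le_top' (h : CD p G) (R : Subgroup G) :
    Nat.card R * Nat.card (centralizer (R : Set G)) ≤ Nat.card G * Nat.card (center G) := by
  have := h.mono (le_top : R ≤ ⊤)
  rwa [centralizer_top', card_top] at this

theorem CD.eq_of_center_le (h : CD p G) {R : Subgroup G} (hR : center G ≤ R) :
    Nat.card R * Nat.card (centralizer (R : Set G)) = Nat.card G * Nat.card (center G) := by
  refine le_antisymm (h.le_top' R) (le_trans ?_ (h.mono hR))
  have : centralizer (center G : Set G) = ⊤ := by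
    rw [eq_top_iff, le_centralizer_iff, centralizer_top']
  rw [this, card_top, mul_comm]

theorem CD.center_le_of_eq (h : CD p G) {R : Subgroup G}
    (hR : Nat.card R * Nat.card (centralizer (R : Set G)) = Nat.card G * Nat.card (center G)) :
    center G ≤ R := by
  by_contra hc
  have h1 : R < R ⊔ center G := left_lt_sup.2 hc
  have h2 := h.le_top' (R ⊔ center G)
  have h3 : centralizer (R : Set G) ≤ centralizer ((R ⊔ center G : Subgroup G) : Set G) := by
    rw [le_centralizer_iff]
    exact sup_le (le_centralizer_iff.1 le_rfl) (center_le_centralizer _)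
  have h4 := card_le_of_le h3
  have h5 := card_lt_of_lt h1
  have h6 : 0 < Nat.card (centralizer (R : Set G)) := Nat.card_pos
  have : Nat.card R * Nat.card (centralizer (R : Set G)) <
      Nat.card (R ⊔ center G : Subgroup G) * Nat.card (centralizer ((R ⊔ center G : Subgroup G) : Set G)) :=
    Nat.mul_lt_mul_of_lt_of_le h5 h4 (by omega)
  omega

theorem CD.cc_eq (h : CD p G) {R : Subgroup G} (hR : center G ≤ R) :
    centralizer (centralizer (R : Set G) : Set G) = R := by
  have h1 := h.eq_of_center_le hR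
  have h2 := h.le_top' (centralizer (R : Set G))
  have h3 : R ≤ centralizer (centralizer (R : Set G) : Set G) := le_centralizer_iff.1 le_rfl
  refine (eq_of_le_of_card_ge h3 ?_).symm
  have h6 : 0 < Nat.card (centralizer (R : Set G)) := Nat.card_pos
  rw [← h1, mul_comm] at h2
  exact Nat.le_of_mul_le_mul_right h2 h6

/-! ### two generators -/

theorem commutator_eq_of_gen (hc : IsCyclic (commutator G)) {x y : G} (h : zpowers x ⊔ zpowers y = ⊤) :
    commutator G = zpowers ⁅x, y⁆ := by
  have hle : zpowers ⁅x, y⁆ ≤ commutator G := zpowers_le_of_mem (comm_mem x y)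
  haveI hn : (zpowers ⁅x, y⁆).Normal := normal_of_le_isCyclic hc hle
  refine le_antisymm ?_ hle
  have hc : Commute (QuotientGroup.mk' (zpowers ⁅x, y⁆) x) (QuotientGroup.mk' (zpowers ⁅x, y⁆) y) := by
    rw [← commutatorElement_eq_one_iff_commute, ← map_commutatorElement]
    exact (QuotientGroup.eq_one_iff _).2 (mem_zpowers _)
  have h1 : IsMulCommutative (zpowers (QuotientGroup.mk' (zpowers ⁅x, y⁆) x) ⊔
      zpowers (QuotientGroup.mk' (zpowers ⁅x, y⁆) y) : Subgroup _) := by
    refine isMulCommutative_sup_zpowers (isMulCommutative_of_isCyclic (isCyclic_zpowers' _)) ?_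
    rintro _ ⟨k, rfl⟩
    exact (hc.zpow_left k).eq
  rw [← MonoidHom.map_zpowers, ← MonoidHom.map_zpowers, ← Subgroup.map_sup, h,
    isMulCommutative_iff_commutator, ← map_commutator, Subgroup.map_eq_bot_iff, QuotientGroup.ker_mk'] at h1
  exact h1

theorem index_le_mul_of_gen {N : Subgroup G} [N.Normal] {a b : G} (ha : (zpowers a).Normal)
    (h : zpowers a ⊔ zpowers b = ⊤) {r s : ℕ} (hr : r ≠ 0) (hs : s ≠ 0) (h1 : a ^ r ∈ N) (h2 : b ^ s ∈ N) :
    N.index ≤ r * s := by
  have e1 : (zpowers (QuotientGroup.mk' N a)).Normal := by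
    rw [← MonoidHom.map_zpowers]; exact ha.map _ (QuotientGroup.mk'_surjective N)
  have e2 : zpowers (QuotientGroup.mk' N a) ⊔ zpowers (QuotientGroup.mk' N b) = ⊤ := by
    rw [← MonoidHom.map_zpowers, ← MonoidHom.map_zpowers, ← Subgroup.map_sup, h,
      map_top_of_surjective _ (QuotientGroup.mk'_surjective N)]
  have e3 := H3.card_sup_mul_card_inf (N := zpowers (QuotientGroup.mk' N a))
    (K := zpowers (QuotientGroup.mk' N b)) le_normalizer_of_normal
  have e4 : orderOf (QuotientGroup.mk' N a) ≤ r := orderOf_le_of_pow_eq_one (Nat.pos_of_ne_zero hr)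
    (by rw [← map_pow]; exact (QuotientGroup.eq_one_iff _).2 h1)
  have e5 : orderOf (QuotientGroup.mk' N b) ≤ s := orderOf_le_of_pow_eq_one (Nat.pos_of_ne_zero hs)
    (by rw [← map_pow]; exact (QuotientGroup.eq_one_iff _).2 h2)
  rw [e2, card_top, Nat.card_zpowers, Nat.card_zpowers] at e3
  have e6 : 0 < Nat.card (zpowers (QuotientGroup.mk' N a) ⊓ zpowers (QuotientGroup.mk' N b) : Subgroup _) :=
    Nat.card_pos
  rw [index_eq_card]
  calc Nat.card (G ⧸ N) ≤ Nat.card (G ⧸ N) * _ := Nat.le_mul_of_pos_right _ e6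
    _ = _ := e3
    _ ≤ r * s := Nat.mul_le_mul e4 e5

/-- an odd metacyclic `p`-group -/
structure MH (p : ℕ) (G : Type u) [Group G] : Prop where
  odd : p ≠ 2
  pg : IsPGroup p G
  mc : IsMetacyclic G

theorem MH.cd (h : MH p G) : CD p G := ⟨h.odd, h.pg, isCyclic_commutator_of_isMetacyclic h.mc⟩

theorem MH.reg (h : MH p G) : Reg p G := h.cd.reg

theorem MH.sub (h : MH p G) (H : Subgroup G) : MH p H :=
  ⟨h.odd, h.pg.to_subgroup H, isMetacyclic_subgroup h.mc H⟩

theorem MH.index_le (h : MH p G) {N : Subgroup G} [N.Normal] {r : ℕ} (hr : r ≠ 0) (h1 : ∀ x, x ^ r ∈ N) :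
    N.index ≤ r ^ 2 := by
  obtain ⟨a, b, ha, hab⟩ := isMetacyclic_iff.1 h.mc
  rw [sq]
  exact index_le_mul_of_gen ha hab hr hr (h1 a) (h1 b)

theorem MH.frattini_eq (h : MH p G) : frattini G = powerClosure p 1 ⊤ := by
  rw [frattini_eq_sup_powerClosure h.pg]
  refine sup_eq_right.2 ?_
  obtain ⟨a, b, ha, hab⟩ := isMetacyclic_iff.1 h.mc
  by_cases h1 : zpowers a = ⊥
  · rw [h1, bot_sup_eq] at hab
    haveI := isCyclic_of_zpowers_eq_top hab
    have : IsMulCommutative G := inferInstance
    rw [← isMulCommutative_top_iff, isMulCommutative_iff_commutator] at this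
    rw [_root_.commutator_def, this]; exact bot_le
  · haveI := h.pg.isNilpotent
    have h2 := commutator_top_lt (zpowers a) h1
    have h3 : commutator G ≤ ⁅zpowers a, ⊤⁆ := by
      rw [commutator_eq_of_gen h.cd.cyc hab]
      exact zpowers_le_of_mem (commutator_mem_commutator (mem_zpowers a) (mem_top b))
    exact h3.trans ((le_powerClosure_of_lt_cyclic h.pg (isCyclic_zpowers' a) h2).trans
      (powerClosure_mono p 1 le_top))

theorem MH.mem_frattini_iff (h : MH p G) {g : G} : g ∈ frattini G ↔ ∃ x, g = x ^ p := by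
  rw [h.frattini_eq, h.reg.mem_powerClosure_one_iff h.pg]
  simp

theorem MH.exists_gen (h : MH p G) {x : G} (hx : x ∉ frattini G) : ∃ y, zpowers x ⊔ zpowers y = ⊤ := by
  by_cases h1 : frattini G ⊔ zpowers x = ⊤
  · refine ⟨1, ?_⟩
    rw [zpowers_one_eq_bot, sup_bot_eq]
    exact frattini_nongenerating (by rwa [sup_comm])
  · obtain ⟨y, hy⟩ : ∃ y, y ∉ frattini G ⊔ zpowers x := by
      by_contra hc; push Not at hc; exact h1 (eq_top_iff.2 fun y _ => hc y)
    refine ⟨y, ?_⟩
    have := closure_pair_eq_top h.pg (index_frattini_le_sq_of_isMetacyclic h.pg h.mc) hx hy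
    rwa [Set.insert_eq, Subgroup.closure_union, ← zpowers_eq_closure, ← zpowers_eq_closure] at this

theorem pow_mem_center_of_card {n : ℕ} (h : CD p G) (hn : Nat.card (commutator G) = p ^ n) (g : G) :
    g ^ p ^ n ∈ center G := by
  rw [mem_center_iff]
  intro y
  have : ⁅g, y⁆ ^ p ^ n = 1 := hn ▸ pow_card_eq_one_of_mem (comm_mem g y)
  exact ((h.reg.commute_pow_iff h.pg n g y).2 this).symm

theorem MH.le_of_pow_mem_center (h : MH p G) {n : ℕ} (hn : Nat.card (commutator G) = p ^ n) {x : G}
    (hx : x ∉ frattini G) {m : ℕ} (hm : x ^ p ^ m ∈ center G) : n ≤ m := by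
  obtain ⟨y, hy⟩ := h.exists_gen hx
  rw [commutator_eq_of_gen h.cd.cyc hy, Nat.card_zpowers] at hn
  have h1 : ⁅x, y⁆ ^ p ^ m = 1 := (h.reg.commute_pow_iff h.pg m x y).1 (mem_center_iff.1 hm y).symm
  have h2 := orderOf_dvd_of_pow_eq_one h1
  rw [hn] at h2
  exact (Nat.pow_dvd_pow_iff_le_right hp.out.one_lt).1 h2

theorem MH.exists_root (h : MH p G) (s : ℕ) (g : G) :
    (∃ y, g = y ^ p ^ s) ∨ ∃ k < s, ∃ x, x ∉ frattini G ∧ g = x ^ p ^ k := by
  induction s with
  | zero => exact Or.inl ⟨g, by simp⟩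
  | succ s ih =>
    rcases ih with ⟨y, rfl⟩ | ⟨k, hk, x, hx, e⟩
    · by_cases hy : y ∈ frattini G
      · obtain ⟨x, rfl⟩ := h.mem_frattini_iff.1 hy
        exact Or.inl ⟨x, by rw [← pow_mul, pow_succ']⟩
      · exact Or.inr ⟨s, s.lt_succ_self, y, hy, rfl⟩
    · exact Or.inr ⟨k, by omega, x, hx, e⟩

theorem MH.mem_power_iff (h : MH p G) {n : ℕ} (hn : Nat.card (commutator G) = p ^ n) {s : ℕ} (hs : s ≤ n)
    (g : G) : g ∈ powerClosure p s ⊤ ↔ g ^ p ^ (n - s) ∈ center G := by
  rw [h.reg.mem_powerClosure_iff h.pg]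
  constructor
  · rintro ⟨y, -, rfl⟩
    rw [← pow_mul, ← pow_add, Nat.add_sub_cancel' hs]
    exact pow_mem_center_of_card h.cd hn y
  · intro hg
    rcases h.exists_root s g with ⟨y, e⟩ | ⟨k, hk, x, hx, rfl⟩
    · exact ⟨y, mem_top y, e⟩
    · rw [← pow_mul, ← pow_add] at hg
      have := h.le_of_pow_mem_center hn hx hg
      omega

/-- the elements whose `p ^ i`-th power is central -/
theorem MH.relIndex_center_power_le (h : MH p G) {n : ℕ} (hn : Nat.card (commutator G) = p ^ n) {s : ℕ}
    (hs : s ≤ n) : (center G).relIndex (powerClosure p s ⊤) ≤ (p ^ (n - s)) ^ 2 :=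
  (h.sub (powerClosure p s ⊤)).index_le (N := (center G).subgroupOf _) (pow_pos hp.out.pos _).ne'
    fun x => by
      rw [mem_subgroupOf, SubmonoidClass.coe_pow]
      exact (h.mem_power_iff hn hs x).1 x.2

theorem MH.center_le_power (h : MH p G) {n : ℕ} (hn : Nat.card (commutator G) = p ^ n) {s : ℕ}
    (hs : s ≤ n) : center G ≤ powerClosure p s ⊤ := fun z hz =>
  (h.mem_power_iff hn hs z).2 (pow_mem hz _)

theorem MH.index_center (h : MH p G) {n : ℕ} (hn : Nat.card (commutator G) = p ^ n) :
    (center G).index = (p ^ n) ^ 2 := by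
  refine le_antisymm (h.index_le (pow_pos hp.out.pos _).ne' (pow_mem_center_of_card h.cd hn)) ?_
  rcases Nat.eq_zero_or_pos n with rfl | hn0
  · rw [pow_zero, one_pow]; exact Nat.pos_of_ne_zero index_ne_zero_of_finite
  obtain ⟨m, rfl⟩ : ∃ m, n = m + 1 := ⟨n - 1, by omega⟩
  have hnt : Nontrivial G := by
    by_contra hc
    rw [not_nontrivial_iff_subsingleton] at hc
    have : Nat.card (commutator G) = 1 := Nat.card_unique
    rw [this] at hn
    exact absurd hn.symm (Nat.one_lt_pow (by omega) hp.out.one_lt).ne'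
  obtain ⟨x, -, hx⟩ := SetLike.exists_of_lt (frattini_lt_top (G := G))
  have h1 : x ^ p ^ m ∉ center G := fun hc => by have := h.le_of_pow_mem_center hn hx hc; omega
  have h2 : p ^ m < (centralizer ({x} : Set G)).index := lt_of_not_ge fun hc => h1 ((h.cd.index_le_iff m x).1 hc)
  have h3 := lt_relIndex_zpowers h.pg h1
  have h4 : (center G).relIndex (zpowers x) ≤ (center G).relIndex (centralizer ({x} : Set G)) :=
    relIndex_le_of_le_right (zpowers_le_of_mem (mem_centralizer_singleton_iff.2 rfl)) (relIndex_ne_zero' _ _)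
  obtain ⟨i, hi⟩ := exists_relIndex_eq h.pg (centralizer ({x} : Set G)) ⊤
  obtain ⟨j, hj⟩ := exists_relIndex_eq h.pg (center G) (centralizer ({x} : Set G))
  rw [relIndex_top_right] at hi
  rw [← relIndex_mul_index (center_le_centralizer ({x} : Set G)), hi, hj, sq]
  rw [hi] at h2
  rw [hj] at h4
  have h5 := (Nat.pow_lt_pow_iff_right hp.out.one_lt).1 h2
  have h6 := (Nat.pow_lt_pow_iff_right hp.out.one_lt).1 (h3.trans_le h4)
  exact Nat.mul_le_mul (Nat.pow_le_pow_right hp.out.pos h6) (Nat.pow_le_pow_right hp.out.pos h5)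

theorem MH.index_center' (h : MH p G) : (center G).index = Nat.card (commutator G) ^ 2 := by
  obtain ⟨n, hn⟩ := exists_card_eq_pow h.pg (commutator G)
  rw [h.index_center hn, hn]

theorem MH.card_mul_center (h : MH p G) : Nat.card G * Nat.card (center G) = (commutator G).index ^ 2 := by
  have h1 := h.index_center'
  have h2 := (center G).card_mul_index
  have h3 := (commutator G).card_mul_index
  have h4 : 0 < Nat.card (commutator G) ^ 2 := pow_pos Nat.card_pos _
  refine Nat.eq_of_mul_eq_mul_right h4 ?_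
  rw [← mul_pow, mul_comm (commutator G).index, h3, ← h1, mul_assoc, h2, sq]

theorem MH.card_power (h : MH p G) {n : ℕ} (hn : Nat.card (commutator G) = p ^ n) {s : ℕ}
    (hs : s ≤ n) : Nat.card (powerClosure p s (⊤ : Subgroup G)) = Nat.card (center G) * p ^ (2 * (n - s)) := by
  have h1 := h.relIndex_center_power_le hn hs
  haveI := powerClosure_normal p s (⊤ : Subgroup G)
  have h2 := h.index_le (N := powerClosure p s ⊤) (pow_pos hp.out.pos s).ne'
    fun x => pow_mem_powerClosure p s (mem_top x)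
  have h3 := relIndex_mul_index (h.center_le_power hn hs)
  rw [h.index_center hn] at h3
  have h4 : (center G).relIndex (powerClosure p s ⊤) = (p ^ (n - s)) ^ 2 := by
    refine le_antisymm h1 (le_of_not_gt fun hlt => ?_)
    have : (center G).relIndex (powerClosure p s ⊤) * (powerClosure p s (⊤ : Subgroup G)).index <
        (p ^ (n - s)) ^ 2 * (p ^ s) ^ 2 := Nat.mul_lt_mul_of_lt_of_le hlt h2 (by have := hp.out.pos; positivity)
    rw [h3, ← mul_pow, ← pow_add, Nat.sub_add_cancel hs] at this
    exact lt_irrefl _ this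
  rw [← H3.card_mul_relIndex (h.center_le_power hn hs), h4, ← pow_mul, mul_comm (n - s)]

/-- a proper subgroup of a nonabelian odd metacyclic `p`-group has a smaller derived subgroup -/
theorem MH.der_lt (h : MH p G) (hna : ¬ IsMulCommutative G) {M : Subgroup G} (hM : M ≠ ⊤) :
    ⁅M, M⁆ < commutator G := by
  obtain ⟨n, hn⟩ := exists_card_eq_pow h.pg (commutator G)
  have hb : commutator G ≠ ⊥ := fun hc => hna (by
    rw [← isMulCommutative_top_iff, isMulCommutative_iff_commutator]; exact hc)
  obtain ⟨m, rfl⟩ : ∃ m, n = m + 1 := by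
    rcases n with _ | m
    · exact absurd (card_eq_one.1 (by simpa using hn)) hb
    · exact ⟨m, rfl⟩
  have hΩ := h.reg.omega_characteristic h.pg m
  set Ω := h.reg.omega h.pg m with hΩd
  have key : ∀ w ∈ frattini G, ∀ v, ⁅w, v⁆ ∈ Ω := by
    intro w hw v
    obtain ⟨u, rfl⟩ := h.mem_frattini_iff.1 hw
    have := (h.cd.comm_pow 1 m u v).2 (by rw [add_comm, ← hn]; exact pow_card_eq_one_of_mem (comm_mem u v))
    rwa [pow_one] at this
  have h1 : ⁅M, M⁆ ≤ Ω := by
    rw [commutator_le]
    intro u hu v hv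
    by_cases hu' : u ∈ frattini G
    · exact key u hu' v
    by_cases hv' : v ∈ frattini G ⊔ zpowers u
    · obtain ⟨w, hw, k, rfl⟩ := (mem_sup_zpowers_iff (mem_normalizer_of_normal _ u)).1 hv'
      have e : ⁅u, w * u ^ k⁆ = ⁅w, u⁆⁻¹ := by
        simp only [commutatorElement_def, mul_inv_rev, inv_inv]
        have : u ^ k * u⁻¹ * (u ^ k)⁻¹ = u⁻¹ := by group
        calc u * (w * u ^ k) * u⁻¹ * ((u ^ k)⁻¹ * w⁻¹) = u * w * (u ^ k * u⁻¹ * (u ^ k)⁻¹) * w⁻¹ := by group
          _ = _ := by rw [this]; group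
      rw [e]; exact inv_mem (key w hw u)
    · exfalso
      have := closure_pair_eq_top h.pg (index_frattini_le_sq_of_isMetacyclic h.pg h.mc) hu' hv'
      refine hM (eq_top_iff.2 (this ▸ (closure_le _).2 ?_))
      rintro _ (rfl | rfl)
      · exact hu
      · exact hv
  refine lt_of_le_of_ne (commutator_mono le_top le_top) fun e => ?_
  have h2 := h.cd.card_inf_omega m
  rw [inf_eq_left.2 (e ▸ h1), hn] at h2
  exact absurd h2 (not_le.2 (Nat.pow_lt_pow_right hp.out.one_lt m.lt_succ_self))

theorem card_commutator_sub (R : Subgroup G) : Nat.card (commutator R) = Nat.card (⁅R, R⁆ : Subgroup G) := by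
  rw [← map_subtype_commutator, card_map_of_injective R.subtype_injective]

theorem MH.index_le_of_nonab (h : MH p G) {R : Subgroup G} (hR : ¬ IsMulCommutative R) :
    Nat.card G * Nat.card (⁅R, R⁆ : Subgroup G) ≤ Nat.card R * Nat.card (commutator G) := by
  induction R using WellFoundedGT.induction with
  | ind R ih =>
  by_cases hR' : R = ⊤
  · subst hR'; rw [card_top]; exact le_rfl
  obtain ⟨L, hL, -, hc, -⟩ := exists_le_card_eq_mul h.pg (lt_top_iff_ne_top.2 hR')
  have hna : ¬ IsMulCommutative L := fun hh => hR (isMulCommutative_of_le hh hL.le)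
  have h1 := ih L hL hna
  have h2 := (h.sub L).der_lt hna (M := R.subgroupOf L) (fun e => hL.not_ge (subgroupOf_eq_top.1 e))
  have h3 := mul_card_le_of_lt (h.sub L).pg h2
  rw [card_commutator_sub, ← card_map_of_injective L.subtype_injective, map_commutator,
    subgroupOf_map_subtype, inf_eq_left.2 hL.le] at h3
  rw [hc] at h1
  refine Nat.le_of_mul_le_mul_left ?_ hp.out.pos
  calc p * (Nat.card G * Nat.card (⁅R, R⁆ : Subgroup G)) = Nat.card G * (p * Nat.card (⁅R, R⁆ : Subgroup G)) := by
        ring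
    _ ≤ Nat.card G * Nat.card (⁅L, L⁆ : Subgroup G) := by gcongr
    _ ≤ _ := h1
    _ = _ := by ring

theorem card_center_le (R : Subgroup G) : Nat.card (center R) ≤ Nat.card (centralizer (R : Set G)) := by
  rw [← card_map_of_injective R.subtype_injective]
  refine card_le_of_le ?_
  rintro _ ⟨z, hz, rfl⟩ g hg
  exact congrArg Subtype.val (mem_center_iff.1 hz ⟨g, hg⟩)

theorem MH.central_le (h : MH p G) (R : Subgroup G) :
    Nat.card R * Nat.card (center R) ≤ (commutator G).index ^ 2 := by
  rw [← h.card_mul_center]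
  exact le_trans (Nat.mul_le_mul_left _ (card_center_le R)) (h.cd.le_top' R)

theorem MH.index_le_index_of_nonab (h : MH p G) {R : Subgroup G} (hR : ¬ IsMulCommutative R) :
    (commutator G).index ≤ (commutator R).index := by
  have h1 := h.index_le_of_nonab hR
  rw [← card_commutator_sub, ← (commutator G).card_mul_index, ← (commutator R).card_mul_index] at h1
  have h4 : 0 < Nat.card (commutator G) * Nat.card (commutator R) := Nat.mul_pos Nat.card_pos Nat.card_pos
  refine Nat.le_of_mul_le_mul_left ?_ h4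
  calc _ = Nat.card (commutator G) * (commutator G).index * Nat.card (commutator R) := by ring
    _ ≤ _ := h1
    _ = _ := by ring

theorem MH.central_eq_of_nonab (h : MH p G) {R : Subgroup G} (hR : ¬ IsMulCommutative R) :
    Nat.card R * Nat.card (center R) = (commutator G).index ^ 2 := by
  refine le_antisymm (h.central_le R) ?_
  rw [(h.sub R).card_mul_center]
  exact Nat.pow_le_pow_left (h.index_le_index_of_nonab hR) 2

theorem card_center_of_comm {R : Subgroup G} (hR : IsMulCommutative R) : Nat.card (center R) = Nat.card R := by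
  rw [center_eq_top, card_top]

theorem MH.comm_iff (h : MH p G) (L : Subgroup G) :
    IsMulCommutative L ↔ Nat.card L ≤ (commutator G).index := by
  constructor
  · intro hL
    have := h.central_le L
    rw [card_center_of_comm hL, ← sq] at this
    exact (Nat.pow_le_pow_iff_left two_ne_zero).1 this
  · intro hc
    by_contra hL
    have h1 := h.index_le_index_of_nonab hL
    have h2 := (commutator L).card_mul_index
    have h3 : 1 < Nat.card (commutator L) := by
      rw [one_lt_card_iff_ne_bot]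
      intro e
      exact hL (by rw [← isMulCommutative_top_iff, isMulCommutative_iff_commutator]; exact e)
    have h4 : 0 < (commutator L).index := Nat.pos_of_ne_zero index_ne_zero_of_finite
    nlinarith

theorem MH.maximal_iff (h : MH p G) (L : Subgroup G) :
    Maximal (fun K : Subgroup G => IsMulCommutative K) L ↔ Nat.card L = (commutator G).index := by
  constructor
  · intro hL
    have h1 : centralizer (L : Set G) ≤ L := fun x hx => by
      have := hL.2 (isMulCommutative_sup_zpowers hL.1 hx) le_sup_left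
      exact this (mem_sup_right (mem_zpowers x))
    have h2 : L ≤ centralizer (L : Set G) := fun x hx y hy => comm_of_isMulCommutative hL.1 hy hx
    have h3 := h.cd.eq_of_center_le ((center_le_centralizer _).trans h1)
    rw [le_antisymm h1 h2, h.card_mul_center, ← sq] at h3
    exact (Nat.pow_left_injective two_ne_zero) h3
  · intro hc
    refine ⟨(h.comm_iff L).2 hc.le, fun K hK hle => ?_⟩
    exact (eq_of_le_of_card_ge hle (hc ▸ (h.comm_iff K).1 hK)).ge

/-- an odd metacyclic `p`-group is a product of two cyclic subgroups meeting trivially -/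
theorem MH.exists_split (h : MH p G) : ∃ x y : G, zpowers x ⊓ zpowers y = ⊥ ∧
    orderOf x * orderOf y = Nat.card G := by
  rcases subsingleton_or_nontrivial G with hs | hnt
  · exact ⟨1, 1, by simp, by simp⟩
  have hord : ∀ g : G, ∃ k, orderOf g = p ^ k := fun g => (IsPGroup.iff_orderOf.1 h.pg) g
  obtain ⟨x, hxm⟩ := Finite.exists_max (orderOf : G → ℕ)
  have hx : x ∉ frattini G := fun hx => by
    obtain ⟨w, rfl⟩ := h.mem_frattini_iff.1 hx
    obtain ⟨g, hg⟩ := exists_ne (1 : G)
    have h1 : 1 < orderOf g := by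
      have := orderOf_pos g
      have := mt orderOf_eq_one_iff.1 hg
      omega
    obtain ⟨k, hk⟩ := hord w
    have h2 := hxm w
    have h3 := hxm g
    rcases k with _ | k
    · rw [pow_zero, orderOf_eq_one_iff] at hk
      rw [hk, one_pow, orderOf_one] at h3; omega
    · have h4 : orderOf (w ^ p) ∣ p ^ k := orderOf_dvd_of_pow_eq_one (by
        rw [← pow_mul, ← pow_succ', ← hk, pow_orderOf_eq_one])
      have h5 := Nat.le_of_dvd (pow_pos hp.out.pos _) h4
      have h6 : p ^ k < p ^ (k + 1) := Nat.pow_lt_pow_right hp.out.one_lt k.lt_succ_self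
      omega
  obtain ⟨y, hy, hym⟩ := WellFounded.has_min (measure (orderOf : G → ℕ)).wf
    {y | zpowers x ⊔ zpowers y = ⊤} (h.exists_gen hx)
  obtain ⟨e, he⟩ := hord x
  obtain ⟨k, hk⟩ := hord y
  have hke : k ≤ e := by
    have := hxm y
    rwa [he, hk, Nat.pow_le_pow_iff_right hp.out.one_lt] at this
  have hbot : zpowers x ⊓ zpowers y = ⊥ := by
    by_contra hne
    rcases k with _ | k
    · rw [pow_zero, orderOf_eq_one_iff] at hk
      rw [hk, zpowers_one_eq_bot, inf_bot_eq] at hne; exact hne rfl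
    have h1 : (y ^ p ^ k) ^ p = 1 := by rw [← pow_mul, ← pow_succ, ← hk, pow_orderOf_eq_one]
    have h2 : y ^ p ^ k ≠ 1 := fun hc => by
      have := orderOf_dvd_of_pow_eq_one hc
      rw [hk, Nat.pow_dvd_pow_iff_le_right hp.out.one_lt] at this; omega
    have h3 : zpowers (y ^ p ^ k) ≤ zpowers x ⊓ zpowers y :=
      le_of_card_eq_p_of_isCyclic (h.pg.to_subgroup _) (isCyclic_zpowers' y)
        (zpowers_le_of_mem (pow_mem (mem_zpowers y) _)) inf_le_right (card_zpowers_of_pow_prime h1 h2) hne
    obtain ⟨j, hj⟩ := (Submonoid.mem_powers_iff _ _).1 (mem_powers_iff_mem_zpowers.2 (h3 (mem_zpowers _)).1)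
    have h4 : p ^ e ∣ j * p := by
      rw [← he]; exact orderOf_dvd_of_pow_eq_one (by rw [pow_mul, hj, h1])
    obtain ⟨d, rfl⟩ := Nat.exists_eq_add_of_le hke
    obtain ⟨c, hc⟩ : p ^ k ∣ j := by
      have : p ^ k * p ∣ j * p := (Dvd.intro (p ^ d) (by ring)).trans h4
      exact Nat.dvd_of_mul_dvd_mul_right hp.out.pos this
    have h5 : y ^ p ^ k = (x ^ c) ^ p ^ k := by rw [← hj, hc, ← pow_mul, mul_comm]
    have h6 := (h.reg.pow_eq_pow_iff h.pg k _ _).1 h5
    refine hym (y * (x ^ c)⁻¹) ?_ ?_
    · rw [Set.mem_ofPred_eq, eq_top_iff, ← (hy : _ = ⊤)]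
      refine sup_le le_sup_left (zpowers_le_of_mem ?_)
      have : y = y * (x ^ c)⁻¹ * x ^ c := by group
      rw [this]
      refine mul_mem (mem_sup_right ?_) (mem_sup_left (pow_mem (mem_zpowers x) c))
      rw [← this]; exact mem_zpowers _
    · have h7 := Nat.le_of_dvd (pow_pos hp.out.pos _) (orderOf_dvd_of_pow_eq_one h6)
      have h8 : p ^ k < p ^ (k + 1) := Nat.pow_lt_pow_right hp.out.one_lt k.lt_succ_self
      show orderOf _ < orderOf y
      omega
  refine ⟨x, y, hbot, le_antisymm ?_ ?_⟩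
  · have h1 := H3.card_inf_mul_relIndex (zpowers x) (zpowers y)
    rw [hbot, card_bot, one_mul, Nat.card_zpowers] at h1
    have h4 : (zpowers x).relIndex (zpowers y) ≤ (zpowers x).relIndex ⊤ :=
      relIndex_le_of_le_right le_top (relIndex_ne_zero' _ _)
    rw [relIndex_top_right, h1] at h4
    rw [← (zpowers x).card_mul_index, Nat.card_zpowers]
    exact Nat.mul_le_mul_left _ h4
  · haveI := powerClosure_normal p k (⊤ : Subgroup G)
    have h2 := h.index_le (N := powerClosure p k ⊤) (pow_pos hp.out.pos k).ne'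
      fun x => pow_mem_powerClosure p k (mem_top x)
    haveI := h.reg.omega_characteristic h.pg k
    have h3 : powerClosure p k ⊤ ≤ zpowers (x ^ p ^ k) := by
      rw [powerClosure_le_iff]
      intro g _
      have hg : g ∈ h.reg.omega h.pg k ⊔ zpowers x := by
        have : zpowers x ⊔ zpowers y ≤ h.reg.omega h.pg k ⊔ zpowers x :=
          sup_le le_sup_right (le_sup_of_le_left (zpowers_le_of_mem (by
            rw [Reg.mem_omega, ← hk, pow_orderOf_eq_one])))
        exact this (by rw [(hy : _ = ⊤)]; exact mem_top g)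
      obtain ⟨w, hw, j, rfl⟩ := (mem_sup_zpowers_iff_nat (mem_normalizer_of_normal _ x)).1 hg
      rw [h.reg.mul_pow_pow_of_left h.pg hw, ← pow_mul, mul_comm, pow_mul]
      exact pow_mem (mem_zpowers _) _
    have h4 := card_le_of_le h3
    obtain ⟨d, rfl⟩ := Nat.exists_eq_add_of_le hke
    have h5 : orderOf (x ^ p ^ k) ≤ p ^ d := orderOf_le_of_pow_eq_one (pow_pos hp.out.pos _)
      (by rw [← pow_mul, ← pow_add, ← he, pow_orderOf_eq_one])
    rw [Nat.card_zpowers] at h4
    rw [← (powerClosure p k (⊤ : Subgroup G)).card_mul_index, he, hk]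
    calc _ ≤ p ^ d * (p ^ k) ^ 2 := Nat.mul_le_mul (h4.trans h5) h2
      _ = _ := by ring

theorem closure_eq_power (s : ℕ) : closure {x : G | ∃ y : G, y ^ p ^ s = x} = powerClosure p s ⊤ := by
  refine le_antisymm ((closure_le _).2 ?_) (powerClosure_le_iff.2 fun x _ => subset_closure ⟨x, rfl⟩)
  rintro _ ⟨y, rfl⟩
  exact pow_mem_powerClosure p s (mem_top y)

end Cfsg.Agent.H28.Mc
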