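import Mathlib
import Cfsg.Prelude.Def_LinearParabolics
import Cfsg.Agent.H6.Square

/-! Parabolic subgroups of `GL_n`: Bruhat decomposition, double cosets and contingency tables, the index. -/

set_option autoImplicit false
set_option linter.style.haveILetI false
set_option linter.unusedSectionVars false

namespace Cfsg.Agent.H28.Par

open Cfsg Matrix Finset MulAction

theorem exists_equiv_of_fiber {X Y Z : Type*} [Fintype X] [Fintype Y] [DecidableEq Z] (f : X → Z) (g : Y → Z)
    (h : ∀ z, #{x | f x = z} = #{y | g y = z}) : ∃ e : X ≃ Y, ∀ x, g (e x) = f x :=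
  ⟨Equiv.ofFiberEquiv fun z => Fintype.equivOfCardEq (by simpa [Fintype.card_subtype] using h z), Equiv.ofFiberEquiv_map _⟩

theorem card_orbits_eq {G X : Type*} [Group G] (H K : Subgroup G) (φ : G → X) (h : ∀ g k, φ g = φ k ↔ ∃ p ∈ H, ∃ q ∈ K, k = p * g * q) :
    Nat.card (orbitRel.Quotient G ((G ⧸ H) × (G ⧸ K))) = Nat.card (Set.range φ) := by
  let f : (G ⧸ H) × (G ⧸ K) → Set.range φ := fun x => ⟨φ (x.1.out⁻¹ * x.2.out), _, rfl⟩
  have hf : ∀ x y : G, f (x, y) = ⟨φ (x⁻¹ * y), _, rfl⟩ := fun x y => by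
    obtain ⟨p, hp⟩ := QuotientGroup.mk_out_eq_mul H x
    obtain ⟨q, hq⟩ := QuotientGroup.mk_out_eq_mul K y
    exact Subtype.ext ((h _ _).2 ⟨_, p.2, _, inv_mem q.2, by simp [hp, hq, mul_assoc]⟩)
  refine Nat.card_congr (Equiv.ofBijective (Quotient.lift f ?_) ⟨?_, ?_⟩)
  · rintro _ ⟨⟨x⟩, ⟨y⟩⟩ ⟨g, rfl⟩
    exact (hf (g * x) (g * y)).trans (Eq.trans (by simp [mul_assoc]) (hf x y).symm)
  · rintro ⟨⟨x⟩, ⟨y⟩⟩ ⟨⟨x'⟩, ⟨y'⟩⟩ e
    obtain ⟨p, hp, q, hq, e⟩ := (h _ _).1 (congrArg Subtype.val ((hf x y).symm.trans (e.trans (hf x' y'))))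
    refine Quotient.sound ⟨x * p⁻¹ * x'⁻¹, Prod.ext (QuotientGroup.eq.2 (by simpa using hp)) (QuotientGroup.eq.2 ?_)⟩
    simpa [mul_assoc, e] using hq
  · rintro ⟨_, g, rfl⟩
    exact ⟨Quotient.mk _ ((1 : G), g), (hf 1 g).trans (by simp)⟩

variable {n : ℕ} {F : Type*} [Field F] {α β : Fin n → ℕ}

theorem compLabel_le_iff (μ : Fin n → ℕ) (i j : Fin n) : compLabel μ i ≤ j ↔ i.val < ∑ k with k ≤ j, μ k := by
  have mono : ∀ j j' : Fin n, j ≤ j' → ∑ k with k ≤ j, μ k ≤ ∑ k with k ≤ j', μ k := fun j j' h =>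
    sum_le_sum_of_subset fun k hk => by simp at hk ⊢; exact hk.trans h
  refine ⟨fun h => lt_of_not_ge fun h' => absurd ((card_le_card (s := Iic j) fun k hk => mem_filter.2 ⟨mem_univ _,
    (mono _ _ (mem_Iic.1 hk)).trans h'⟩).trans h) (by simp), fun h => (card_le_card (t := Iio j) fun k hk => mem_Iio.2
      (lt_of_not_ge fun h' => absurd ((mono _ _ h').trans (mem_filter.1 hk).2) (by omega))).trans (by simp)⟩

theorem compLabel_mono (μ : Fin n → ℕ) : Monotone (compLabel μ) := fun _ _ h =>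
  card_le_card fun _ hk => mem_filter.2 ⟨mem_univ _, (mem_filter.1 hk).2.trans h⟩

theorem compLabel_lt (hα : ∑ i, α i = n) (i : Fin n) : compLabel α i < n := by
  have := (compLabel_le_iff α i ⟨n - 1, by have := i.2; omega⟩).2 (by
    rw [filter_true_of_mem fun k _ => by have := k.2; rw [Fin.le_def]; simp; omega, hα]; exact i.2)
  have h2 : compLabel α i ≤ n - 1 := this
  have := i.2
  omega

theorem psum_le (hα : ∑ i, α i = n) (j : Fin n) : ∑ k with k ≤ j, α k ≤ n := (sum_le_sum_of_subset (filter_subset _ _)).trans hα.le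

theorem psum_eq (α : Fin n → ℕ) (j : Fin n) : ∑ k with k ≤ j, α k = ∑ k with k < j, α k + α j := by
  rw [show univ.filter (fun k => k ≤ j) = insert j (univ.filter fun k => k < j) by ext; simp [le_iff_eq_or_lt], sum_insert (by simp), add_comm]

theorem compLabel_eq_iff (α : Fin n → ℕ) (i j : Fin n) :
    compLabel α i = j ↔ ∑ k with k < j, α k ≤ i ∧ i.val < ∑ k with k < j, α k + α j := by
  rw [← psum_eq, ← compLabel_le_iff]
  rcases j with ⟨_ | j, hj⟩
  · simp [Fin.lt_def]
  · have := compLabel_le_iff α i ⟨j, by omega⟩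
    rw [show univ.filter (fun k => k < (⟨j + 1, hj⟩ : Fin n)) = univ.filter (fun k => k ≤ ⟨j, by omega⟩) by
      ext; simp [Fin.lt_def, Fin.le_def]]
    simp only at this ⊢; omega

theorem prod_fiber {M : Type*} [CommMonoid M] (hα : ∑ i, α i = n) (j : Fin n) (f : ℕ → M) :
    ∏ i : Fin n with compLabel α i = j, f (∑ k with k ≤ j, α k - i) = ∏ r ∈ range (α j), f (r + 1) := by
  have h := psum_le hα j
  rw [psum_eq] at h ⊢
  simp only [compLabel_eq_iff]
  clear hα
  generalize ∑ k with k < j, α k = S at *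
  generalize α j = a at *
  refine prod_bij' (fun i _ => S + a - i - 1) (fun r hr => ⟨S + a - r - 1, by simp at hr; omega⟩)
    (fun i hi => ?_) (fun r hr => ?_) (fun i hi => ?_) (fun r hr => ?_) fun i hi => ?_
  · have := (mem_filter.1 hi).2; rw [mem_range]; omega
  · have := mem_range.1 hr; exact mem_filter.2 ⟨mem_univ _, by dsimp only; omega⟩
  · have := (mem_filter.1 hi).2; exact Fin.ext (by dsimp only; omega)
  · have := mem_range.1 hr; dsimp only; omega
  · have := (mem_filter.1 hi).2; congr 1; omega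

theorem card_fiber (hα : ∑ i, α i = n) (j : Fin n) : #{i | compLabel α i = j} = α j := by
  simpa using prod_fiber (M := Multiplicative ℕ) hα j fun _ => Multiplicative.ofAdd 1

/-- the permutation matrix -/
noncomputable def pm (F : Type*) [Field F] : Equiv.Perm (Fin n) →* GL (Fin n) F := (permMatrixHom (R := F)).toHomUnits

theorem pm_apply (σ : Equiv.Perm (Fin n)) (i j : Fin n) : (pm F σ : Matrix (Fin n) (Fin n) F) i j = if i = σ j then 1 else 0 := by
  show σ⁻¹.permMatrix F i j = _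
  simp [PEquiv.toMatrix_apply, Equiv.Perm.inv_def, Equiv.symm_apply_eq]

theorem pm_mem {σ : Equiv.Perm (Fin n)} (h : σ ∈ youngSubgroup α) : pm F σ ∈ parabolicGL n F α := fun i j hij => by
  rw [pm_apply, if_neg]; rintro rfl; exact hij.ne' (h j)

theorem bruhat (α β : Fin n → ℕ) (g : GL (Fin n) F) :
    ∃ σ : Equiv.Perm (Fin n), ∃ p ∈ parabolicGL n F α, ∃ q ∈ parabolicGL n F β, g = p * pm F σ * q := by
  suffices H : ∀ (N : ℕ) (g : GL (Fin n) F) (p : Fin n → ℕ), ∑ j, p j = N → (∀ j, p j ≤ n) → (∀ i j, p j ≤ i.val → g i j = 0) →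
      ∃ σ : Equiv.Perm (Fin n), ∃ p ∈ parabolicGL n F α, ∃ q ∈ parabolicGL n F β, g = p * pm F σ * q from
    H _ g (fun _ => n) rfl (fun _ => le_rfl) fun i _ h => absurd i.2 (by omega)
  intro N
  induction N using Nat.strong_induction_on with | _ N ih =>
  intro g p hN hp hg
  have h0 : ∀ j, 0 < p j := fun j => Nat.pos_of_ne_zero fun e =>
    g.det_ne_zero (det_eq_zero_of_column_eq_zero j fun i => hg i j (by omega))
  let r : Fin n → Fin n := fun j => ⟨p j - 1, by have := h0 j; have := hp j; omega⟩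
  have step : ∀ (g' : GL (Fin n) F) j, (∀ i k, p k ≤ i.val → g' i k = 0) → g' (r j) j = 0 →
      ∃ σ : Equiv.Perm (Fin n), ∃ p ∈ parabolicGL n F α, ∃ q ∈ parabolicGL n F β, g' = p * pm F σ * q := fun g' j h1 h2 =>
    ih _ (by
      rw [← hN]; exact sum_lt_sum (fun k _ => by by_cases e : k = j <;> simp [e]) ⟨j, mem_univ _, by simpa using h0 j⟩) g'
      (Function.update p j (p j - 1)) rfl (fun k => by have := hp k; by_cases e : k = j <;> simp [e] at * <;> omega) fun i k h => by
        by_cases e : k = j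
        · subst e
          rcases eq_or_lt_of_le (show p k - 1 ≤ i by simpa using h) with e | e
          · rwa [show i = r k from Fin.ext e.symm]
          · exact h1 i k (by omega)
        · exact h1 i k (by simpa [e] using h)
  by_cases h1 : ∃ j, g (r j) j = 0
  · exact h1.elim fun j => step g j hg
  by_cases h2 : ∃ j k, j < k ∧ r j = r k
  · obtain ⟨j, k, hjk, e⟩ := h2
    let t : GL (Fin n) F := ⟨transvection j k (-(g (r k) k / g (r j) j)), transvection j k (g (r k) k / g (r j) j),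
      by simp [transvection_mul_transvection_same _ _ hjk.ne], by simp [transvection_mul_transvection_same _ _ hjk.ne]⟩
    have ht : t ∈ parabolicGL n F β := fun a b h => by
      have : b < a := lt_of_not_ge fun e => h.not_ge (compLabel_mono β e)
      have h3 : ¬ (j = a ∧ k = b) := by rintro ⟨rfl, rfl⟩; omega
      simp [t, transvection, this.ne', h3]
    obtain ⟨σ, a, ha, b, hb, e'⟩ := step (g * t) k (fun i l h => by
      by_cases e' : l = k
      · subst e'
        have : p j = p l := by have := h0 j; have := h0 l; simp [r] at e; omega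
        simp [t, hg i l h, hg i j (this ▸ h)]
      · simp [t, mul_transvection_apply_of_ne _ _ _ _ e', hg i l h]) (by
        have : g (r j) j ≠ 0 := fun e => h1 ⟨j, e⟩
        simp only [t, Units.val_mul, mul_transvection_apply_same, ← e]; field_simp; ring)
    exact ⟨σ, a, ha, b * t⁻¹, mul_mem hb (inv_mem ht), by rw [← mul_assoc, ← e', mul_inv_cancel_right]⟩
  have h3 : Function.Injective r := fun j k e => by
    rcases lt_trichotomy j k with h | h | h
    exacts [(h2 ⟨j, k, h, e⟩).elim, h, (h2 ⟨k, j, h, e.symm⟩).elim]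
  let σ := Equiv.ofBijective r (Finite.injective_iff_bijective.1 h3)
  refine ⟨σ, g * pm F σ⁻¹, fun a b h => ?_, 1, one_mem _, by simp⟩
  obtain ⟨b, rfl⟩ := σ.surjective b
  have : σ b < a := lt_of_not_ge fun e => h.not_ge (compLabel_mono α e)
  simp only [Units.val_mul, mul_apply, pm_apply, Equiv.Perm.coe_inv, Equiv.symm_apply_apply, mul_ite, mul_one, mul_zero, sum_ite_eq',
    mem_univ, if_true]
  have h4 : p b - 1 < a.val := this
  exact hg a b (by have := h0 b; omega)

/-- rank of a corner submatrix -/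
noncomputable def rk (α β : Fin n → ℕ) (g : GL (Fin n) F) (s t : ℕ) : ℕ :=
  (diagonal (fun i => if s ≤ compLabel α i then (1 : F) else 0) * g * diagonal fun j => if compLabel β j < t then (1 : F) else 0).rank

theorem rk_le {g p q : GL (Fin n) F} (hp : p ∈ parabolicGL n F α) (hq : q ∈ parabolicGL n F β) (s t : ℕ) :
    rk α β (p * g * q) s t ≤ rk α β g s t := by
  unfold rk
  set D := diagonal fun i => if s ≤ compLabel α i then (1 : F) else 0
  set E := diagonal fun j => if compLabel β j < t then (1 : F) else 0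
  have h1 : D * p = D * p * D := Matrix.ext fun i j => by
    simp only [D, mul_diagonal, diagonal_mul]; split_ifs with h h' <;> simp; exact hp (by omega)
  have h2 : q * E = E * (q * E) := Matrix.ext fun i j => by
    simp only [E, mul_diagonal, diagonal_mul]; split_ifs with h h' <;> simp; exact hq (by omega)
  rw [show D * (p * g * q : GL (Fin n) F) * E = D * p * (D * g * E) * (q * E) by
    simp only [Units.val_mul, ← mul_assoc]; rw [← h1, mul_assoc _ E, mul_assoc _ (E * q), mul_assoc E, ← h2, mul_assoc]]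
  exact (rank_mul_le_left _ _).trans (rank_mul_le_right _ _)

theorem rk_eq {g p q : GL (Fin n) F} (hp : p ∈ parabolicGL n F α) (hq : q ∈ parabolicGL n F β) : rk α β (p * g * q) = rk α β g :=
  funext₂ fun s t => (rk_le hp hq s t).antisymm (by simpa [mul_assoc] using rk_le (g := p * g * q) (inv_mem hp) (inv_mem hq) s t)

theorem rk_pm (σ : Equiv.Perm (Fin n)) (s t : ℕ) :
    rk α β (pm F σ) s t = ∑ j, if s ≤ compLabel α (σ j) ∧ compLabel β j < t then 1 else 0 := by
  classical
  rw [rk, show _ * _ * _ = (pm F σ : Matrix (Fin n) (Fin n) F) *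
      diagonal fun j => if s ≤ compLabel α (σ j) ∧ compLabel β j < t then (1 : F) else 0 from Matrix.ext fun i j => by
    simp only [mul_diagonal, diagonal_mul, pm_apply]; by_cases h : i = σ j <;> simp only [h, ite_and] <;> split_ifs <;> simp_all,
    rank_mul_eq_right_of_isUnit_det _ _ (pm F σ).det_ne_zero.isUnit, rank_diagonal, Fintype.card_subtype, card_filter]
  simp

/-- the contingency table of a permutation -/
def cnt (α β : Fin n → ℕ) (σ : Equiv.Perm (Fin n)) (s t : Fin n) : ℕ := #{j | compLabel α (σ j) = s ∧ compLabel β j = t}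

theorem cnt_eq_iff (hα : ∑ i, α i = n) (hβ : ∑ i, β i = n) (σ τ : Equiv.Perm (Fin n)) :
    cnt α β σ = cnt α β τ ↔ ∃ p ∈ youngSubgroup α, ∃ q ∈ youngSubgroup β, τ = p * σ * q := by
  constructor
  · intro h
    obtain ⟨e, he⟩ := exists_equiv_of_fiber (fun j => ((⟨_, compLabel_lt hα (τ j)⟩, ⟨_, compLabel_lt hβ j⟩) : Fin n × Fin n))
      (fun j => (⟨_, compLabel_lt hα (σ j)⟩, ⟨_, compLabel_lt hβ j⟩)) fun z => by
        simpa [cnt, Prod.ext_iff, Fin.ext_iff] using (congrFun₂ h z.1 z.2).symm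
    simp only [Prod.mk.injEq, Fin.mk.injEq] at he
    exact ⟨τ * (σ * e)⁻¹, fun i => by simpa using (he ((σ * e)⁻¹ i)).1.symm, e, fun j => (he j).2, by simp [mul_assoc]⟩
  · rintro ⟨p, hp, q, hq, rfl⟩
    refine funext₂ fun s t => (card_equiv q fun j => mem_filter.trans (Iff.trans ?_ mem_filter.symm)).symm
    simp only [mem_univ, true_and, Equiv.Perm.mul_apply, hp (σ (q j)), hq j]

theorem card_range_cnt (hα : ∑ i, α i = n) (hβ : ∑ i, β i = n) :
    Set.range (cnt α β) = {M | (∀ s, ∑ t, M s t = α s) ∧ ∀ t, ∑ s, M s t = β t} := by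
  ext M
  constructor
  · rintro ⟨σ, rfl⟩
    refine ⟨fun s => ?_, fun t => ?_⟩
    · rw [← card_fiber hα s, ← card_equiv σ (s := {j | compLabel α (σ j) = s}) (by simp),
        card_eq_sum_card_fiberwise (f := fun j => (⟨_, compLabel_lt hβ j⟩ : Fin n)) (t := univ) (by simp)]
      simp [cnt, filter_filter, Fin.ext_iff]
    · rw [← card_fiber hβ t, card_eq_sum_card_fiberwise (f := fun j => (⟨_, compLabel_lt hα (σ j)⟩ : Fin n)) (t := univ) (by simp)]
      simp [cnt, filter_filter, Fin.ext_iff, and_comm]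
  · rintro ⟨h1, h2⟩
    have c : ∀ P : Fin n × Fin n → Prop, ∀ [DecidablePred P], #{x : Σ z : Fin n × Fin n, Fin (M z.1 z.2) | P x.1} =
        ∑ s, ∑ t, if P (s, t) then M s t else 0 := fun P _ => by
      rw [card_filter, Fintype.sum_sigma, Fintype.sum_prod_type]; simp [apply_ite card]
    obtain ⟨e1, he1⟩ := exists_equiv_of_fiber (fun x : Σ z : Fin n × Fin n, Fin (M z.1 z.2) => x.1.1)
      (fun j => (⟨_, compLabel_lt hα j⟩ : Fin n)) fun s => by
        rw [c fun z => z.1 = s, sum_comm]; simp only [sum_ite_eq', mem_univ, if_true, h1]; simp only [Fin.ext_iff, card_fiber hα s]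
    obtain ⟨e2, he2⟩ := exists_equiv_of_fiber (fun x : Σ z : Fin n × Fin n, Fin (M z.1 z.2) => x.1.2)
      (fun j => (⟨_, compLabel_lt hβ j⟩ : Fin n)) fun s => by
        rw [c fun z => z.2 = s]; simp only [sum_ite_eq', mem_univ, if_true, h2]; simp only [Fin.ext_iff, card_fiber hβ s]
    refine ⟨e2.symm.trans e1, funext₂ fun s t => ?_⟩
    rw [cnt, ← card_equiv e2 (s := {x | x.1 = (s, t)}) fun x => mem_filter.trans <| Iff.trans (by
      simp only [mem_univ, true_and, Equiv.trans_apply, Equiv.symm_apply_apply, ← Fin.ext_iff, Prod.ext_iff,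
        show compLabel α (e1 x) = x.1.1 from congrArg Fin.val (he1 x),
        show compLabel β (e2 x) = x.1.2 from congrArg Fin.val (he2 x)]) mem_filter.symm, c fun z => z = (s, t)]
    simp [Prod.ext_iff, ite_and]

/-- the number of contingency tables -/
noncomputable def tab (α β : Fin n → ℕ) : ℕ := Nat.card {M : Fin n → Fin n → ℕ | (∀ s, ∑ t, M s t = α s) ∧ ∀ t, ∑ s, M s t = β t}

theorem inner_young (hα : ∑ i, α i = n) (hβ : ∑ i, β i = n) :
    classInner (fixedPointCharacter (youngSubgroup α)) (fixedPointCharacter (youngSubgroup β)) = tab α β := by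
  rw [tab, ← card_range_cnt hα hβ, ← card_orbits_eq _ _ _ (cnt_eq_iff hα hβ)]
  exact H6.classInner_perm_perm _ _

theorem inner_parabolic [Fintype (GL (Fin n) F)] (hα : ∑ i, α i = n) (hβ : ∑ i, β i = n) :
    classInner (fixedPointCharacter (parabolicGL n F α)) (fixedPointCharacter (parabolicGL n F β)) = tab α β := by
  let φ : GL (Fin n) F → Fin n → Fin n → ℕ := fun g s t =>
    rk α β g s (t + 1) + rk α β g (s + 1) t - (rk α β g (s + 1) (t + 1) + rk α β g s t)
  have h1 : ∀ σ, φ (pm F σ) = cnt α β σ := fun σ => funext₂ fun s t => Nat.sub_eq_of_eq_add (by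
    simp only [rk_pm, cnt, card_filter, ← sum_add_distrib]
    exact sum_congr rfl fun j _ => by split_ifs <;> omega)
  have h2 : ∀ g, ∀ p ∈ parabolicGL n F α, ∀ q ∈ parabolicGL n F β, φ (p * g * q) = φ g := fun g p hp q hq => by simp only [φ, rk_eq hp hq]
  have h3 : Set.range φ = Set.range (cnt α β) := Set.ext fun M => ⟨by
    rintro ⟨g, rfl⟩
    obtain ⟨σ, p, hp, q, hq, rfl⟩ := bruhat α β g
    exact ⟨σ, by rw [h2 _ _ hp _ hq, h1]⟩, by rintro ⟨σ, rfl⟩; exact ⟨_, h1 σ⟩⟩
  rw [tab, ← card_range_cnt hα hβ, ← h3, ← card_orbits_eq (parabolicGL n F α) (parabolicGL n F β) φ fun g k => ⟨fun e => ?_, ?_⟩]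
  · exact H6.classInner_perm_perm _ _
  · obtain ⟨σ, p, hp, q, hq, rfl⟩ := bruhat α β g
    obtain ⟨τ, p', hp', q', hq', rfl⟩ := bruhat α β k
    rw [h2 _ _ hp _ hq, h2 _ _ hp' _ hq', h1, h1, cnt_eq_iff hα hβ] at e
    obtain ⟨u, hu, v, hv, rfl⟩ := e
    exact ⟨p' * pm F u * p⁻¹, mul_mem (mul_mem hp' (pm_mem hu)) (inv_mem hp), q⁻¹ * pm F v * q',
      mul_mem (mul_mem (inv_mem hq) (pm_mem hv)) hq', by simp [mul_assoc]⟩
  · rintro ⟨p, hp, q, hq, rfl⟩; exact (h2 _ _ hp _ hq).symm

end Cfsg.Agent.H28.Par
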