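import Mathlib
import Cfsg.Agent.H28.Util2
import Cfsg.Prelude.Def_HallClasses

/-! Pronormal subgroups. -/

set_option autoImplicit false
set_option linter.style.haveILetI false
set_option linter.unusedSectionVars false

namespace Cfsg.Agent.H28
open Subgroup Cfsg.Agent.FT
open scoped Pointwise commutatorElement

variable {G : Type*} [Group G]

/-- `K` and `K^g` are conjugate in the subgroup they generate -/
def PrR (K : Subgroup G) (g : G) : Prop := ∃ x ∈ K ⊔ cj g K, cj g K = cj x K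

theorem pron_iff {K : Subgroup G} : IsPronormal K ↔ ∀ g, PrR K g := Iff.rfl

theorem PrR.red {K : Subgroup G} {g y : G} (hy : y ∈ K ⊔ cj g K) (h : PrR K (y⁻¹ * g)) :
    PrR K g := by
  obtain ⟨x, hx, e⟩ := h
  have h1 : K ⊔ cj (y⁻¹ * g) K ≤ K ⊔ cj g K := by
    refine sup_le le_sup_left ?_
    rw [← cj_cj]
    exact cj_le_of_mem (inv_mem hy) le_sup_right
  refine ⟨y * x, mul_mem hy (h1 hx), ?_⟩
  rw [← cj_cj, ← e, cj_cj, mul_inv_cancel_left]

theorem PrR.mul_nrm {K : Subgroup G} {g n : G} (hn : n ∈ N(K)) (h : PrR K g) :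
    PrR K (g * n) := by
  unfold PrR
  rw [← cj_cj, cj_of_mem_nrm hn]
  exact h

theorem IsPronormal.cj' {K : Subgroup G} (h : IsPronormal K) (c : G) : IsPronormal (cj c K) := by
  intro g
  obtain ⟨x, hx, e⟩ := pron_iff.1 h (c⁻¹ * g * c)
  have e1 : cj g (cj c K) = cj c (cj (c⁻¹ * g * c) K) := by
    rw [cj_cj, cj_cj]; congr 1; group
  show ∃ x ∈ cj c K ⊔ cj g (cj c K), cj g (cj c K) = cj x (cj c K)
  refine ⟨c * x * c⁻¹, ?_, ?_⟩
  · rw [e1, ← cj_sup]; exact conj_mem_cj.2 hx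
  · rw [e1, e, cj_cj, cj_cj]; congr 1; group

theorem PrR.map {G' : Type*} [Group G'] (f : G →* G') {K : Subgroup G} {g : G} (h : PrR K g) :
    PrR (K.map f) (f g) := by
  obtain ⟨x, hx, e⟩ := h
  refine ⟨f x, ?_, ?_⟩
  · rw [← map_cj, ← Subgroup.map_sup]; exact mem_map_of_mem f hx
  · rw [← map_cj, ← map_cj, e]

theorem PrR.of_map {G' : Type*} [Group G'] (f : G →* G') {K : Subgroup G} {g : G}
    (hk : f.ker ≤ K) (h : PrR (K.map f) (f g)) : PrR K g := by
  obtain ⟨u, hu, e⟩ := h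
  rw [← map_cj, ← Subgroup.map_sup] at hu
  obtain ⟨x, hx, rfl⟩ := hu
  refine ⟨x, hx, ?_⟩
  rw [← map_cj, ← map_cj] at e
  have hk' : ∀ y : G, f.ker ≤ cj y K := fun y z hz => mem_cj.2 (hk (by
    rw [MonoidHom.mem_ker] at hz ⊢
    simp [hz]))
  rw [← comap_map_eq_self (hk' g), e, comap_map_eq_self (hk' x)]

theorem pron_so {K M : Subgroup G} (h : K ≤ M) :
    IsPronormal (K.subgroupOf M) ↔ ∀ g ∈ M, PrR K g := by
  constructor
  · intro H g hg
    have := (pron_iff.1 H ⟨g, hg⟩).map M.subtype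
    rwa [map_so h] at this
  · intro H g
    refine PrR.of_map M.subtype (by simp) ?_
    rw [map_so h]
    exact H g g.2

variable [Finite G] {p : ℕ} [hp : Fact p.Prime]

theorem ov_iff {K : Subgroup G} :
    (∃ P : Sylow p G, (P : Subgroup G) ≤ K) ↔ ¬ p ∣ K.index := by
  rw [← p'nat_iff hp.out, ← relIndex_top_right, p'nat_relIndex_iff le_top]
  constructor
  · rintro ⟨P, h⟩; exact ⟨P, syl_top hp.out P, h⟩
  · rintro ⟨P, h1, h2⟩
    obtain ⟨T, rfl⟩ := (syl_top_iff hp.out).1 h1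
    exact ⟨T, h2⟩

/-- all overgroups of Sylow `p`-subgroups are pronormal -/
def PP (p : ℕ) (G : Type*) [Group G] : Prop :=
  ∀ K : Subgroup G, (∃ P : Sylow p G, (P : Subgroup G) ≤ K) → IsPronormal K

theorem pp_quot (A : Subgroup G) [A.Normal] :
    PP p (G ⧸ A) ↔ ∀ K : Subgroup G, A ≤ K → ¬ p ∣ K.index → IsPronormal K := by
  constructor
  · intro h K hA hK g
    refine PrR.of_map (QuotientGroup.mk' A) (by rwa [QuotientGroup.ker_mk']) ?_
    exact h _ (ov_iff.2 (by rwa [index_map_mk A hA])) _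
  · intro h U hU g
    obtain ⟨g, rfl⟩ := QuotientGroup.mk'_surjective A g
    have := (pron_iff.1 (h _ (le_comap_mk' A U) (by
      rw [index_comap_mk']; exact ov_iff.1 hU)) g).map (QuotientGroup.mk' A)
    rwa [map_comap_mk'] at this

theorem pp_sub (M : Subgroup G) :
    PP p M ↔ ∀ K P, K ≤ M → Syl p P M → P ≤ K → ∀ g ∈ M, PrR K g := by
  constructor
  · intro h K P hK hP hPK
    refine (pron_so hK).1 (h _ (ov_iff.2 ?_))
    exact (p'nat_iff hp.out).1 ((p'nat_relIndex_iff hK).2 ⟨P, hP, hPK⟩)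
  · rintro h K ⟨P, hP⟩
    rw [← so_map K, pron_so (map_subtype_le K)]
    exact h _ _ (map_subtype_le K) (syl_map_subtype hp.out P) (map_mono hP)

theorem pp_quot_sub {T M : Subgroup G} (hT : PGrp p T) (hle : T ≤ M) [(T.subgroupOf M).Normal] :
    PP p (M ⧸ T.subgroupOf M) ↔ PP p M := by
  rw [pp_quot]
  constructor
  · rintro h K ⟨P, hP⟩
    refine h K (le_trans ?_ hP) (ov_iff.1 ⟨P, hP⟩)
    exact (syl_top hp.out P).ge_of_nml ((piGrp_so hle).2 hT) (nml_top_iff.2 ‹_›)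
  · intro h K _ hK
    exact h K (ov_iff.2 hK)

theorem pp_main (A : Subgroup G) [hAn : A.Normal] (hA : PP p A) (hQ : PP p (G ⧸ A))
    {T : Subgroup G} (hT : Syl p T A) :
    PP p G ↔ PP p N(T) ∧ ∀ K : Subgroup G, (∃ P : Sylow p G, (P : Subgroup G) ≤ K) →
      N(K).map (QuotientGroup.mk' A) = N(K.map (QuotientGroup.mk' A)) := by
  have hA' : A ⊴ ⊤ := nml_top_iff.2 hAn
  have hnA : ∀ X : Subgroup G, X ≤ N(A) := fun X => le_top.trans hA'.nrm
  obtain ⟨P0, hP0, hTP⟩ := hT.pi.exists_syl (le_top (a := T))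
  have key : ∀ P, Syl p P ⊤ → T ≤ P → P ≤ N(T) := by
    intro P hP hTP
    have : P ⊓ A = T := hT.max (hP.pi.inf_left _) (le_inf hTP hT.le) inf_le_right
    rw [← this]; exact normsI (le_nrm _) (hnA _)
  have ovs : ∀ {K P : Subgroup G}, Syl p P ⊤ → P ≤ K → ∃ P : Sylow p G, (P : Subgroup G) ≤ K := by
    intro K P hP hK
    obtain ⟨T, rfl⟩ := (syl_top_iff hp.out).1 hP
    exact ⟨T, hK⟩
  constructor
  · intro h
    refine ⟨(pp_sub _).2 fun K P hK hP hPK g _ => h K (ovs ?_ hPK) g, fun K hK => ?_⟩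
    · exact hP0.of_card_eq le_top (hP.card_eq (hP0.subl (key _ hP0 hTP) le_top))
    · refine le_antisymm (map_norms _ le_rfl) fun u hu => ?_
      obtain ⟨g, rfl⟩ := QuotientGroup.mk'_surjective A u
      have h1 : g ∈ N(K ⊔ A) := by
        rw [← comap_map_mk', ← comap_nrm_mk']; exact hu
      obtain ⟨x, hx, e⟩ := pron_iff.1 (h K hK) g
      have h2 : x ∈ A ⊔ K := by
        rw [sup_comm]
        exact sup_le le_sup_left (cj_le_of_nrm h1 le_sup_left) hx
      obtain ⟨a, ha, k, hk, rfl⟩ := (mem_sup_norm (hnA K)).1 h2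
      refine ⟨k * ((a * k)⁻¹ * g), mul_mem (le_nrm K hk) (cj_eq_cj_iff.1 e), ?_⟩
      have : (a : G ⧸ A) = 1 := (QuotientGroup.eq_one_iff a).2 ha
      simp [this]
  · rintro ⟨h1, h2⟩
    rw [pp_sub] at h1 hA
    suffices H : ∀ K P, Syl p P ⊤ → T ≤ P → P ≤ K → IsPronormal K by
      rintro K ⟨P, hP⟩
      obtain ⟨c, -, hc⟩ := (syl_top hp.out P).syl_subJ hT.pi le_top
      have := IsPronormal.cj' (H (cj c K) (cj c P) ((syl_top hp.out P).cj_mem trivial) hc
        (cj_mono c hP)) c⁻¹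
      rwa [cj_inv_cj] at this
    intro K P hP hTP hPK
    have hTK : T ≤ K ⊓ A := le_inf (hTP.trans hPK) hT.le
    have hT' : Syl p T (K ⊓ A) := hT.subl hTK inf_le_right
    have hKn : K ≤ N(K ⊓ A) := normsI (le_nrm _) (hnA _)
    have s3 : ∀ b ∈ N(T), b ∈ N(K ⊓ A) → PrR K b := by
      intro b hb hb'
      obtain ⟨z, hz, e⟩ := h1 (K ⊓ N(T)) P inf_le_right (hP.subl (key P hP hTP) le_top)
        (le_inf hPK (key P hP hTP)) b hb
      have hz' : z ∈ N(K ⊓ A) :=
        sup_le (inf_le_left.trans hKn) (cj_le_of_mem hb' (inf_le_left.trans hKn)) hz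
      have eK := (hT'.frattini ⟨inf_le_left, hKn⟩).sup
      refine ⟨z, sup_le_sup inf_le_left (cj_mono b inf_le_left) hz, ?_⟩
      rw [← eK, cj_sup, cj_sup, e, cj_of_mem_nrm hb', cj_of_mem_nrm hz']
    have s2 : ∀ a ∈ A, PrR K a := by
      intro a ha
      obtain ⟨y, hy, e⟩ := hA (K ⊓ A) T inf_le_right hT hTK a ha
      refine PrR.red (sup_le_sup inf_le_left (cj_mono a inf_le_left) hy) ?_
      obtain ⟨k, hk, b, hb, e2⟩ := (hT'.frattini_nrm).mul _ (cj_eq_cj_iff.1 e)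
      refine PrR.red (y := k) (mem_sup_left hk.1) ?_
      rw [e2, inv_mul_cancel_left]
      exact s3 b hb.2 hb.1
    intro g
    obtain ⟨u, hu, e⟩ := pron_iff.1 (hQ (K.map (QuotientGroup.mk' A)) (ov_iff.2 fun hd =>
      ov_iff.1 (ovs hP hPK) (hd.trans (index_map_dvd _ (QuotientGroup.mk'_surjective A)))))
      (QuotientGroup.mk' A g)
    rw [← map_cj, ← Subgroup.map_sup] at hu
    obtain ⟨y, hy, rfl⟩ := hu
    refine PrR.red hy ?_
    have h3 := cj_eq_cj_iff.1 e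
    rw [← h2 K (ovs hP hPK), ← map_inv, ← map_mul] at h3
    obtain ⟨n, hn, e3⟩ := h3
    have h4 : y⁻¹ * g * n⁻¹ ∈ A := by
      rw [← QuotientGroup.eq_one_iff]
      have : ((y⁻¹ * g : G) : G ⧸ A) = n := e3.symm
      rw [QuotientGroup.mk_mul, this]; simp
    have := (s2 _ h4).mul_nrm hn
    rwa [inv_mul_cancel_right] at this

theorem mem_of_selfnorm (h : ∀ P : Sylow p G, N((P : Subgroup G)) = P) {K : Subgroup G}
    (hK : ∃ P : Sylow p G, (P : Subgroup G) ≤ K) (g : G) : g ∈ K ⊔ cj g K := by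
  obtain ⟨P, hP⟩ := hK
  have h1 := (syl_top hp.out P).subl (hP.trans (le_sup_left (b := cj g K))) le_top
  have h2 := ((syl_top hp.out P).cj_mem (g := g) trivial).subl
    ((cj_mono g hP).trans (le_sup_right (a := K))) le_top
  obtain ⟨x, hx, e⟩ := h1.syl_trans h2
  have := cj_eq_cj_iff.1 e
  rw [h] at this
  have h3 := mul_mem hx (mem_sup_left (T := cj g K) (hP this))
  rwa [mul_inv_cancel_left] at h3

end Cfsg.Agent.H28
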