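import Cfsg.Agent.L1.Se0

/-! S3330, piece `pA`: the normalizer of `⟨z⟩` and the swapping involution. -/

set_option autoImplicit false
set_option linter.unusedVariables false
set_option linter.unusedSectionVars false
set_option synthInstance.maxSize 4096
set_option synthInstance.maxHeartbeats 400000

namespace Cfsg.Agent.L1Se

open Subgroup Equiv

universe u

theorem pA_d1 : ∀ b : Perm (Fin 5), b ^ 3 = 1 →
    (v1.2 * b * v1.2⁻¹ = 1 ∨ v1.2 * b * v1.2⁻¹ = b ∨ v1.2 * b * v1.2⁻¹ = b⁻¹) →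
    (v2.2 * b * v2.2⁻¹ = 1 ∨ v2.2 * b * v2.2⁻¹ = b ∨ v2.2 * b * v2.2⁻¹ = b⁻¹) → b = 1 := by
  decide +kernel

theorem pA_d2 : ∀ a : Perm (Fin 3), a ^ 3 = 1 → a ≠ 1 → ∃ t : Perm (Fin 3), t * zE.1 * t⁻¹ = a := by
  decide +kernel

theorem pA_d3 : ∀ b : Perm (Fin 5), b ^ 3 = 1 → b ≠ 1 → ∃ t : Perm (Fin 5), t * zF.2 * t⁻¹ = b := by
  decide +kernel

theorem pA_d4 : ∀ a a' : Perm (Fin 3), a ^ 3 = 1 → a ≠ 1 → a' ^ 3 = 1 → ∃ k : Fin 3, a' * a ^ k.val = 1 := by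
  decide +kernel

theorem pA_d5a : ∀ a : Perm (Fin 3), a ^ 3 = 1 → ∃ i : Fin 3, a = zE.1 ^ i.val := by
  decide +kernel

theorem pA_d5b : ∀ b : Perm (Fin 5), b ^ 3 = 1 → b * zF.2 = zF.2 * b → ∃ i : Fin 3, b = zF.2 ^ i.val := by
  decide +kernel

theorem pA_pw (i j : ℕ) : zE ^ i * zF ^ j = (zE.1 ^ i, zF.2 ^ j) := by
  refine Prod.ext ?_ ?_
  · change zE.1 ^ i * (1 : Perm (Fin 3)) ^ j = _
    rw [one_pow, mul_one]
  · change (1 : Perm (Fin 5)) ^ i * zF.2 ^ j = _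
    rw [one_pow, one_mul]

theorem pA_d5 (x : W) (h3 : x ^ 3 = 1) (hc : x * zF = zF * x) : ∃ i j : Fin 3, x = zE ^ i.val * zF ^ j.val := by
  obtain ⟨i, hi⟩ := pA_d5a x.1 (congrArg Prod.fst h3)
  obtain ⟨j, hj⟩ := pA_d5b x.2 (congrArg Prod.snd h3) (congrArg Prod.snd hc)
  exact ⟨i, j, by rw [pA_pw]; exact Prod.ext hi hj⟩

theorem pA_d6a : ∀ a : Perm (Fin 3), ∃ i : Fin 3, a * a = zE.1 ^ i.val := by
  decide +kernel

theorem pA_d6b : ∀ b : Perm (Fin 5), ∀ k : Fin 3, b * zF.2 * b⁻¹ = zF.2 ^ k.val →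
    ∃ i : Fin 3, b * b = zF.2 ^ i.val := by
  decide +kernel

theorem pA_d6 (x : W) (i j : Fin 3) (hc : x * zF * x⁻¹ = zE ^ i.val * zF ^ j.val) :
    ∃ i j : Fin 3, x * x = zE ^ i.val * zF ^ j.val := by
  obtain ⟨i', hi⟩ := pA_d6a x.1
  obtain ⟨j', hj⟩ := pA_d6b x.2 j (by rw [pA_pw] at hc; exact congrArg Prod.snd hc)
  exact ⟨i', j', by rw [pA_pw]; exact Prod.ext hi hj⟩

theorem pA_d7 : ∀ a b s : DihedralGroup 4, a * a = 1 → b * b = 1 → a ≠ 1 → b ≠ 1 → a * b ≠ 1 → a * b = b * a →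
    (s⁻¹ * a * s = a ∨ s⁻¹ * a * s = b ∨ s⁻¹ * a * s = a * b) ∧
      (DihedralGroup.r 1 * DihedralGroup.r 1 = a ∨ DihedralGroup.r 1 * DihedralGroup.r 1 = b ∨
        DihedralGroup.r 1 * DihedralGroup.r 1 = a * b) := by
  decide +kernel

theorem pA_d7' : ∀ g k : DihedralGroup 4 × Multiplicative (ZMod 2), g * g ≠ 1 → k * k = 1 ∨ k * k = g * g := by
  decide +kernel

theorem pA_d8 : ∀ i j : Fin 3, (eE * (zE ^ i.val * zF ^ j.val) * eE⁻¹ = 1 ∨
    eE * (zE ^ i.val * zF ^ j.val) * eE⁻¹ = zE ^ i.val * zF ^ j.val ∨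
    eE * (zE ^ i.val * zF ^ j.val) * eE⁻¹ = (zE ^ i.val * zF ^ j.val)⁻¹) →
    j = 0 ∨ zE ^ i.val * zF ^ j.val = zF ∨ zE ^ i.val * zF ^ j.val = zF⁻¹ := by
  decide +kernel

theorem pA_d9a : ∀ a : Perm (Fin 3), a * zE.1 * a⁻¹ = zE.1⁻¹ →
    ∃ k : Fin 3, zE.1 ^ k.val * a * (zE.1 ^ k.val)⁻¹ = eE.1 := by
  decide +kernel

theorem pA_d9b : ∀ b : Perm (Fin 5), b * b = 1 → b * zF.2 * b⁻¹ = zF.2 → b = 1 ∨ b = tE.2 := by
  decide +kernel

theorem pA_d9 (x : W) (h2 : x * x = 1) (h1 : x * zE * x⁻¹ = zE⁻¹) (hc : x * zF * x⁻¹ = zF) :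
    ∃ k : Fin 3, zE ^ k.val * x * (zE ^ k.val)⁻¹ = eE ∨ zE ^ k.val * x * (zE ^ k.val)⁻¹ = eE * tE := by
  obtain ⟨k, hk⟩ := pA_d9a x.1 (congrArg Prod.fst h1)
  have e : (zE ^ k.val * x * (zE ^ k.val)⁻¹).2 = x.2 := by
    change (1 : Perm (Fin 5)) ^ k.val * x.2 * ((1 : Perm (Fin 5)) ^ k.val)⁻¹ = _
    rw [one_pow, one_mul, inv_one, mul_one]
  refine ⟨k, (pA_d9b x.2 (congrArg Prod.snd h2) (congrArg Prod.snd hc)).imp (fun h => Prod.ext hk (e.trans h))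
    fun h => Prod.ext (hk.trans (mul_one _).symm) (e.trans (h.trans (one_mul _).symm))⟩

theorem pA_d10a : ∀ a : Perm (Fin 3), a * a = 1 → a * zE.1 * a⁻¹ = zE.1 → a = 1 := by
  decide +kernel

theorem pA_d10b : ∀ b : Perm (Fin 5), b * b = 1 → b * zF.2 * b⁻¹ = zF.2⁻¹ →
    ∃ k : Fin 3, zF.2 ^ k.val * b * (zF.2 ^ k.val)⁻¹ = eA.2 ∨ zF.2 ^ k.val * b * (zF.2 ^ k.val)⁻¹ = eB.2 := by
  decide +kernel

theorem pA_d10 (x : W) (h2 : x * x = 1) (h1 : x * zE * x⁻¹ = zE) (hc : x * zF * x⁻¹ = zF⁻¹) :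
    ∃ (k : Fin 3) (w : W), (w = eA ∨ w = eB) ∧ zF ^ k.val * x * (zF ^ k.val)⁻¹ = w := by
  have ha := pA_d10a x.1 (congrArg Prod.fst h2) (congrArg Prod.fst h1)
  have e : ∀ k : ℕ, (zF ^ k * x * (zF ^ k)⁻¹).1 = 1 := fun k => by
    change (1 : Perm (Fin 3)) ^ k * x.1 * ((1 : Perm (Fin 3)) ^ k)⁻¹ = 1
    rw [one_pow, one_mul, inv_one, mul_one, ha]
  obtain ⟨k, hk | hk⟩ := pA_d10b x.2 (congrArg Prod.snd h2) (congrArg Prod.snd hc)
  · exact ⟨k, eA, .inl rfl, Prod.ext (e k) hk⟩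
  · exact ⟨k, eB, .inr rfl, Prod.ext (e k) hk⟩

theorem pA_d11a : ∀ a : Perm (Fin 3), a * zE.1 * a⁻¹ = zE.1 → a * eE.1 * a⁻¹ = eE.1 → a = 1 := by
  decide +kernel

theorem pA_d11b : ∀ b : Perm (Fin 5), b * zF.2 * b⁻¹ = zF.2 → (b * eA.2 * b⁻¹ = eA.2 ∨ b * eB.2 * b⁻¹ = eB.2) →
    b = 1 ∨ b = tE.2 := by
  decide +kernel

theorem pA_d11 (x w : W) (hw : w = eA ∨ w = eB) (h1 : x * zE * x⁻¹ = zE) (h2 : x * zF * x⁻¹ = zF)
    (h3 : x * eE * x⁻¹ = eE) (h4 : x * w * x⁻¹ = w) : x = 1 ∨ x = tE := by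
  have ha := pA_d11a x.1 (congrArg Prod.fst h1) (congrArg Prod.fst h3)
  exact (pA_d11b x.2 (congrArg Prod.snd h2) (hw.imp (fun e => congrArg Prod.snd (e ▸ h4))
    fun e => congrArg Prod.snd (e ▸ h4))).imp (Prod.ext ha) (Prod.ext ha)

theorem pA_d13 (x : W) : x * eE * x⁻¹ ≠ eE * tE := fun e => by
  have : x.2 * 1 * x.2⁻¹ = 1 * tE.2 := congrArg Prod.snd e
  rw [mul_one, mul_inv_cancel] at this
  exact absurd this (by decide +kernel)

theorem pA_d14 (x : W) (h2 : x * x = 1) (h1 : x * zE * x⁻¹ = zE) (hc : x * zF * x⁻¹ = zF) : x = 1 ∨ x = tE := by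
  have ha := pA_d10a x.1 (congrArg Prod.fst h2) (congrArg Prod.fst h1)
  exact (pA_d9b x.2 (congrArg Prod.snd h2) (congrArg Prod.snd hc)).imp (Prod.ext ha) (Prod.ext ha)

theorem pA_d12 : ∀ i j : Fin 3, zE ^ i.val * zF ^ j.val ∈ ({1, zE, zE⁻¹, zF, zF⁻¹} : Finset W) ∨
    ∃ t ∈ ({1, eE, eA, eE * eA} : Finset W), zE * zF = t * (zE ^ i.val * zF ^ j.val) * t⁻¹ := by
  decide +kernel

theorem pA_rel : eE * eE = 1 ∧ eA * eA = 1 ∧
    eE * eA = eA * eE ∧ eA * zE * eA⁻¹ = zE ∧ eA * zF * eA⁻¹ = zF⁻¹ ∧ eE * zE * eE⁻¹ = zE⁻¹ ∧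
    eE * zF * eE⁻¹ = zF ∧ zE * eE ≠ eE * zE ∧ zF * eA ≠ eA * zF ∧ zE * (eE * eA) ≠ eE * eA * zE ∧
    tE * zE * tE⁻¹ = zE ∧ tE * zF * tE⁻¹ = zF ∧ tE * tE = 1 ∧ tE ^ 3 ≠ 1 ∧ tE ≠ 1 ∧ zE ≠ 1 ∧
    eE * tE * zF * (eE * tE)⁻¹ = zF := by
  decide +kernel

theorem pA_rel2 {w : W} (hw : w = eA ∨ w = eB) : w * w = 1 ∧ w * zE * w⁻¹ = zE ∧ w * zF * w⁻¹ = zF⁻¹ := by
  rcases hw with rfl | rfl <;> decide +kernel

variable {G : Type u} [Group G] [Finite G]

theorem pA_zp3 {H : Type*} [Group H] {x u : H} (h3 : x ^ 3 = 1) (hu : u ∈ zpowers x) : u = 1 ∨ u = x ∨ u = x⁻¹ := by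
  obtain ⟨k, rfl⟩ := hu
  have e : x ^ k = x ^ (k % 3) := by
    conv_lhs => rw [← Int.emod_add_mul_ediv k 3, zpow_add, zpow_mul]
    rw [show x ^ (3 : ℤ) = 1 by exact_mod_cast h3, one_zpow, mul_one]
  have h2 : x ^ (2 : ℤ) = x⁻¹ := by
    rw [eq_inv_iff_mul_eq_one, ← zpow_add_one]; exact_mod_cast h3
  simp only [e]
  have : k % 3 = 0 ∨ k % 3 = 1 ∨ k % 3 = 2 := by omega
  rcases this with h | h | h <;> rw [h]
  · exact Or.inl (zpow_zero x)
  · exact Or.inr (Or.inl (zpow_one x))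
  · exact Or.inr (Or.inr h2)

theorem pA_nrm {g z : G} (h : g * z * g⁻¹ ∈ zpowers z) : g ∈ normalizer (zpowers z : Set G) :=
  mem_normalizer_fintype fun n ⟨k, hk⟩ => by
    rw [← hk]
    simp only [← conj_zpow]
    exact zpow_mem h k

theorem pA_ccj (g x : G) : Nat.card (centralizer ({g * x * g⁻¹} : Set G)) =
    Nat.card (centralizer ({x} : Set G)) := by
  refine Nat.card_congr ⟨fun w => ⟨g⁻¹ * w * g, ?_⟩, fun w => ⟨g * w * g⁻¹, ?_⟩,
    fun w => by ext; simp [mul_assoc], fun w => by ext; simp [mul_assoc]⟩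
  · have h := mem_centralizer_singleton_iff.1 w.2
    rw [mem_centralizer_singleton_iff]
    calc g⁻¹ * w * g * x = g⁻¹ * (w * (g * x * g⁻¹)) * g := by group
      _ = _ := by rw [h]; group
  · have h := mem_centralizer_singleton_iff.1 w.2
    rw [mem_centralizer_singleton_iff]
    calc g * w * g⁻¹ * (g * x * g⁻¹) = g * (w * x) * g⁻¹ := by group
      _ = _ := by rw [h]; group

/-- the twisted embedding -/
theorem pA_eps (D : Subgroup G) (y z : G) (hgen : closure {y, z} = D)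
    (hcomm : IsMulCommutative D) (hcard : Nat.card D = 9) (hexp : ∀ a ∈ D, a ^ 3 = 1)
    (eL : normalizer (zpowers z : Set G) ≃* W) : ∃ ε : W →* G, Function.Injective ε ∧
      ε.range = normalizer (zpowers z : Set G) ∧ ε zE = z ∧ ε zF ∈ D := by
  have yD : y ∈ D := hgen ▸ subset_closure (by simp)
  have zD : z ∈ D := hgen ▸ subset_closure (by simp)
  have cm : ∀ a ∈ D, ∀ b ∈ D, a * b = b * a := fun a ha b hb =>
    congrArg Subtype.val (hcomm.is_comm.comm (⟨a, ha⟩ : D) ⟨b, hb⟩)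
  have small : ∀ x ∈ D, y ∈ zpowers x → z ∈ zpowers x → False := fun x hx h1 h2 => by
    have : D ≤ zpowers x := by
      rw [← hgen, closure_le]
      rintro _ (rfl | rfl) <;> assumption
    have h3 := card_le_of_le this
    rw [Nat.card_zpowers, hcard] at h3
    have := Nat.le_of_dvd (by norm_num) (orderOf_dvd_of_pow_eq_one (hexp x hx))
    omega
  let ε0 : W →* G := (normalizer (zpowers z : Set G)).subtype.comp eL.symm.toMonoidHom
  have inj0 : Function.Injective ε0 := Subtype.val_injective.comp eL.symm.injective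
  have rng0 : ε0.range = normalizer (zpowers z : Set G) := by
    ext g
    exact ⟨fun ⟨x, hx⟩ => hx ▸ (eL.symm x).2, fun hg => ⟨eL ⟨g, hg⟩, by simp [ε0]⟩⟩
  have DL : ∀ d ∈ D, d ∈ ε0.range := fun d hd => rng0 ▸ pA_nrm (by
    rw [cm d hd z zD, mul_inv_cancel_right]; exact mem_zpowers z)
  obtain ⟨z0, hz0⟩ := DL z zD
  obtain ⟨y0, hy0⟩ := DL y yD
  have z3 : z0 ^ 3 = 1 := inj0 (by rw [map_pow, hz0, hexp z zD, map_one])
  have y3 : y0 ^ 3 = 1 := inj0 (by rw [map_pow, hy0, hexp y yD, map_one])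
  have nz : ∀ x : W, x.2 * z0.2 * x.2⁻¹ = 1 ∨ x.2 * z0.2 * x.2⁻¹ = z0.2 ∨
      x.2 * z0.2 * x.2⁻¹ = z0.2⁻¹ := fun x => by
    have h1 : ε0 x ∈ normalizer (zpowers z : Set G) := rng0 ▸ ⟨x, rfl⟩
    have h2 := pA_zp3 (hexp z zD) ((mem_normalizer_iff.1 h1 z).1 (mem_zpowers z))
    rw [← hz0, ← map_inv, ← map_mul, ← map_mul, ← map_inv, ← map_one ε0, inj0.eq_iff, inj0.eq_iff, inj0.eq_iff] at h2
    exact h2.imp (congrArg Prod.snd) (Or.imp (congrArg Prod.snd) (congrArg Prod.snd))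
  have zb : z0.2 = 1 := pA_d1 _ (congrArg Prod.snd z3) (nz v1) (nz v2)
  have za : z0.1 ≠ 1 := fun e => by
    have : z0 = 1 := Prod.ext e zb
    rw [this, map_one] at hz0
    exact small y yD (mem_zpowers y) (hz0 ▸ one_mem _)
  obtain ⟨k, hk⟩ := pA_d4 _ y0.1 (congrArg Prod.fst z3) za (congrArg Prod.fst y3)
  have yb : y0.2 ≠ 1 := fun e => by
    have : y0 * z0 ^ k.val = 1 := Prod.ext hk (by
      change y0.2 * z0.2 ^ k.val = 1
      rw [e, zb, one_pow, one_mul])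
    have h2 := congrArg ε0 this
    rw [map_mul, map_pow, hy0, hz0, map_one, mul_eq_one_iff_eq_inv] at h2
    exact small z zD (h2 ▸ inv_mem (pow_mem (mem_zpowers z) _)) (mem_zpowers z)
  obtain ⟨t1, h1⟩ := pA_d2 _ (congrArg Prod.fst z3) za
  obtain ⟨t2, h2⟩ := pA_d3 _ (congrArg Prod.snd y3) yb
  let τ : MulAut W := MulAut.conj (t1, t2)
  refine ⟨ε0.comp τ.toMonoidHom, inj0.comp τ.injective, ?_, ?_, ?_⟩
  · rw [← rng0]
    ext g
    exact ⟨fun ⟨x, hx⟩ => ⟨_, hx⟩, fun ⟨x, hx⟩ => ⟨τ.symm x, by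
      change ε0 (τ (τ.symm x)) = g
      rw [τ.apply_symm_apply, hx]⟩⟩
  · rw [← hz0]
    refine congrArg ε0 (Prod.ext h1 ?_)
    change t2 * 1 * t2⁻¹ = _
    rw [zb, mul_one, mul_inv_cancel]
  · have : τ zF = y0 * z0 ^ k.val := Prod.ext (by
      change t1 * 1 * t1⁻¹ = y0.1 * z0.1 ^ k.val
      rw [hk, mul_one, mul_inv_cancel]) (by
      change t2 * zF.2 * t2⁻¹ = y0.2 * z0.2 ^ k.val
      rw [h2, zb, one_pow, mul_one])
    change ε0 (τ zF) ∈ D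
    rw [this, map_mul, map_pow, hy0, hz0]
    exact mul_mem yD (pow_mem zD _)

theorem pA_cinv (x : G) : centralizer ({x⁻¹} : Set G) = centralizer {x} := by
  ext g
  rw [mem_centralizer_singleton_iff, mem_centralizer_singleton_iff]
  exact Commute.inv_right_iff

theorem pA (P : Sylow 3 G) (D : Subgroup G) (hDP : D = P) (y z : G) (hgen : closure {y, z} = D)
    (hcomm : IsMulCommutative D) (hcard : Nat.card D = 9) (hexp : ∀ a ∈ D, a ^ 3 = 1)
    (hC : Nat.card (centralizer (D : Set G)) = 18)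
    (eN : normalizer (D : Set G) ⧸ D.subgroupOf (normalizer (D : Set G)) ≃* DihedralGroup 4 × Multiplicative (ZMod 2))
    [hcn : ((centralizer (D : Set G)).subgroupOf (normalizer (D : Set G))).Normal]
    (eNC : normalizer (D : Set G) ⧸ (centralizer (D : Set G)).subgroupOf (normalizer (D : Set G)) ≃* DihedralGroup 4)
    (hycard : Nat.card (centralizer ({y} : Set G)) = 36)
    (eC : centralizer ({z} : Set G) ≃* Multiplicative (ZMod 3) × Perm (Fin 5))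
    (eL : normalizer (zpowers z : Set G) ≃* Perm (Fin 3) × Perm (Fin 5)) :
    ∃ (ε : W →* G) (σ : G), SA ε σ eA ∨ SA ε σ eB := by
  obtain ⟨ε, inj, rng, rfl, z'D⟩ := pA_eps D y z hgen hcomm hcard hexp eL
  have yD : y ∈ D := hgen ▸ subset_closure (by simp)
  have zD : ε zE ∈ D := hgen ▸ subset_closure (by simp)
  have cm : ∀ a ∈ D, ∀ b ∈ D, a * b = b * a := fun a ha b hb =>
    congrArg Subtype.val (hcomm.is_comm.comm (⟨a, ha⟩ : D) ⟨b, hb⟩)
  obtain ⟨r5, r4, r6, r7, r8, r9, r10, r11, r12, r13, r14, r15, r16, r17, r18, r19, r20⟩ := pA_rel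
  have cz : Nat.card (centralizer ({ε zE} : Set G)) = 360 := by
    rw [Nat.card_congr eC.toEquiv, Nat.card_prod, Nat.card_congr Multiplicative.toAdd, Nat.card_zmod,
      Nat.card_perm, Nat.card_fin]
    rfl
  have mL : ∀ {g : G}, g * ε zE * g⁻¹ ∈ zpowers (ε zE) → g ∈ ε.range := fun h => rng ▸ pA_nrm h
  have Lm : ∀ {g : G}, g ∈ ε.range → g * ε zE * g⁻¹ ∈ zpowers (ε zE) := fun h =>
    (mem_normalizer_iff.1 (rng ▸ h) _).1 (mem_zpowers _)
  have CL : ∀ d ∈ centralizer (D : Set G), d ∈ ε.range := fun d hd => mL (by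
    rw [← hd _ zD, mul_inv_cancel_right]; exact mem_zpowers _)
  have DC : ∀ d ∈ D, d ∈ centralizer (D : Set G) := fun d hd a ha => cm a ha d hd
  have mD : ∀ d ∈ D, ∃ i j : Fin 3, d = ε (zE ^ i.val * zF ^ j.val) := fun d hd => by
    obtain ⟨x, rfl⟩ := CL d (DC d hd)
    obtain ⟨i, j, e⟩ := pA_d5 x (inj (by rw [map_pow, hexp _ hd, map_one]))
      (inj (by rw [map_mul, map_mul, cm _ hd _ z'D]))
    exact ⟨i, j, by rw [← e]⟩
  have Dm : ∀ i j : ℕ, ε (zE ^ i * zF ^ j) ∈ D := fun i j => by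
    rw [map_mul, map_pow, map_pow]
    exact mul_mem (pow_mem zD _) (pow_mem z'D _)
  have cj : ∀ {a b c : W}, a * b * a⁻¹ = c → ε a * ε b * (ε a)⁻¹ = ε c := fun h => by
    rw [← h, map_mul, map_mul, map_inv]
  have nD : ∀ {g : G}, g * ε zE * g⁻¹ ∈ D → g * ε zF * g⁻¹ ∈ D → g ∈ normalizer (D : Set G) := fun {g} h1 h2 =>
    mem_normalizer_fintype fun d hd => by
      obtain ⟨i, j, rfl⟩ := mD d hd
      have := mul_mem (pow_mem h1 i.val) (pow_mem h2 j.val)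
      rw [conj_pow, conj_pow, conj_mul] at this
      rwa [map_mul, map_pow, map_pow]
  have eN1 : ε eE ∈ normalizer (D : Set G) :=
    nD (by rw [cj r9, map_inv]; exact inv_mem zD) (by rw [cj r10]; exact z'D)
  have eN2 : ε eA ∈ normalizer (D : Set G) :=
    nD (by rw [cj r7]; exact zD) (by rw [cj r8, map_inv]; exact inv_mem z'D)
  let φ : normalizer (D : Set G) →* DihedralGroup 4 := eNC.toMonoidHom.comp (QuotientGroup.mk' _)
  have φ1 : ∀ n, φ n = 1 ↔ (n : G) ∈ centralizer (D : Set G) := fun n => by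
    change eNC (QuotientGroup.mk n) = 1 ↔ _
    rw [map_eq_one_iff _ eNC.injective, QuotientGroup.eq_one_iff, mem_subgroupOf]
  let ψ : normalizer (D : Set G) →* DihedralGroup 4 × Multiplicative (ZMod 2) :=
    eN.toMonoidHom.comp (QuotientGroup.mk' _)
  have ψ1 : ∀ n, ψ n = 1 ↔ (n : G) ∈ D := fun n => by
    change eN (QuotientGroup.mk n) = 1 ↔ _
    rw [map_eq_one_iff _ eN.injective, QuotientGroup.eq_one_iff, mem_subgroupOf]
  have φL : ∀ n m, φ n = φ m → (m : G) ∈ ε.range → (n : G) ∈ ε.range := fun n m h hm => by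
    have := CL _ ((φ1 (n * m⁻¹)).1 (by rw [map_mul, map_inv, h, mul_inv_cancel]))
    exact (mul_mem_cancel_right (inv_mem hm)).1 this
  obtain ⟨s, hs⟩ : ∃ s, φ s = DihedralGroup.r 1 := (eNC.surjective.comp (QuotientGroup.mk'_surjective _)) _
  set a : normalizer (D : Set G) := ⟨_, eN1⟩ with ha
  set b : normalizer (D : Set G) := ⟨_, eN2⟩ with hb
  have nd : ∀ x c : W, c * x ≠ x * c → ε c ∈ D → ε x ∉ centralizer (D : Set G) := fun x c hx hc h =>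
    hx (inj (by rw [map_mul, map_mul, h _ hc]))
  obtain ⟨k1, k2⟩ := pA_d7 (φ a) (φ b) (φ s)
    (by rw [← map_mul, φ1]; change ε eE * ε eE ∈ _; rw [← map_mul, r5, map_one]; exact one_mem _)
    (by rw [← map_mul, φ1]; change ε eA * ε eA ∈ _; rw [← map_mul, r4, map_one]; exact one_mem _)
    (fun e => nd _ _ r11 zD ((φ1 _).1 e)) (fun e => nd _ _ r12 z'D ((φ1 _).1 e))
    (fun e => nd _ _ r13 zD (by rw [← map_mul, φ1] at e; rw [map_mul]; exact e))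
    (by rw [← map_mul, ← map_mul]; congr 1; ext1; change ε eE * ε eA = ε eA * ε eE; rw [← map_mul, r6, map_mul])
  have VL : ∀ n, (φ n = φ a ∨ φ n = φ b ∨ φ n = φ a * φ b) → (n : G) ∈ ε.range := by
    rintro n (e | e | e)
    · exact φL _ _ e ⟨eE, rfl⟩
    · exact φL _ _ e ⟨eA, rfl⟩
    · exact φL _ (a * b) (by rw [e, map_mul]) ⟨eE * eA, map_mul _ _ _⟩
  have m1 : (s : G)⁻¹ * ε eE * s ∈ ε.range := VL (s⁻¹ * a * s) (by rwa [map_mul, map_mul, map_inv])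
  have m2 : (s : G) * s ∈ ε.range := VL (s * s) (by rwa [map_mul, hs])
  have sD : ∀ d ∈ D, (s : G) * d * (s : G)⁻¹ ∈ D := fun d hd => (mem_normalizer_iff.1 s.2 d).1 hd
  have sC : (s : G) * s ∉ centralizer (D : Set G) := fun h => by
    have : φ (s * s) = 1 := (φ1 _).2 h
    rw [map_mul, hs] at this
    exact absurd this (by decide)
  have sL : (s : G) ∉ ε.range := fun ⟨x, hx⟩ => by
    obtain ⟨i, j, e⟩ := mD _ (sD _ z'D)
    obtain ⟨i', j', e'⟩ := pA_d6 x i j (inj (by rw [← e, map_mul, map_mul, map_inv, hx]))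
    refine sC (DC _ ?_)
    rw [← hx, ← map_mul, e']; exact Dm _ _
  have z3 : ε zE ^ 3 = 1 := hexp _ zD
  have sz : (s : G) * ε zE * (s : G)⁻¹ = ε zF ∨ (s : G) * ε zE * (s : G)⁻¹ = (ε zF)⁻¹ := by
    obtain ⟨i, j, e⟩ := mD _ (sD _ zD)
    have h1 := pA_zp3 z3 (Lm m1)
    have h2 : ∀ t, (s : G)⁻¹ * ε eE * s * ε zE * ((s : G)⁻¹ * ε eE * s)⁻¹ = t →
        ε (eE * (zE ^ i.val * zF ^ j.val) * eE⁻¹) = s * t * (s : G)⁻¹ := fun t ht => by
      rw [map_mul, map_mul, map_inv, ← e, ← ht]; group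
    have h3 := pA_d8 i j (h1.imp (fun h => inj (by rw [h2 _ h, map_one]; group)) (Or.imp
      (fun h => inj (by rw [h2 _ h, e])) fun h => inj (by rw [h2 _ h, map_inv, ← e]; group)))
    rcases h3 with rfl | h3 | h3
    · refine absurd (mL ?_) sL
      rw [e]
      simp only [Fin.val_zero, pow_zero, mul_one, map_pow]
      exact pow_mem (mem_zpowers _) _
    · left; rw [e, h3]
    · right; rw [e, h3, map_inv]
  have z1 : ε zE ≠ 1 := fun e => r19 (inj (e.trans (map_one ε).symm))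
  have sz' : (s : G) * ε zF * (s : G)⁻¹ = ε zE ∨ (s : G) * ε zF * (s : G)⁻¹ = (ε zE)⁻¹ := by
    have h1 := pA_zp3 z3 (Lm m2)
    have h2 : (s : G) * s * ε zE * ((s : G) * s)⁻¹ = s * ((s : G) * ε zE * (s : G)⁻¹) * (s : G)⁻¹ := by group
    rw [h2] at h1
    rcases h1 with h1 | h1
    · exact absurd (by simpa using h1) z1
    rcases sz with e | e <;> rw [e] at h1
    · exact h1
    · rw [← conj_inv, inv_eq_iff_eq_inv, inv_inj] at h1
      exact h1.symm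
  have q7 := cj r7
  have q8 := cj r8
  have q9 := cj r9
  have q10 := cj r10
  rw [map_inv] at q8 q9
  have cc : ∀ g h x : G, g * h * x * (g * h)⁻¹ = g * (h * x * h⁻¹) * g⁻¹ := fun g h x => by group
  obtain ⟨σ1, s1, s2⟩ : ∃ σ1 : G, σ1 * ε zE * σ1⁻¹ = ε zF ∧ σ1 * ε zF * σ1⁻¹ = ε zE := by
    rcases sz with e | e <;> rcases sz' with e' | e'
    · exact ⟨s, e, e'⟩
    · exact ⟨s * ε eA, by rw [cc, q7, e], by rw [cc, q8, ← conj_inv, e', inv_inv]⟩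
    · exact ⟨s * ε eE, by rw [cc, q9, ← conj_inv, e, inv_inv], by rw [cc, q10, e']⟩
    · exact ⟨s * ε eA * ε eE, by rw [cc, cc, q9, ← conj_inv, q7, ← conj_inv, e, inv_inv],
        by rw [cc, cc, q10, q8, ← conj_inv, e', inv_inv]⟩
  have tr : ∀ σ1 g x t : G, g * x * g⁻¹ = t →
      (σ1 * g * σ1⁻¹) * (σ1 * x * σ1⁻¹) * (σ1 * g * σ1⁻¹)⁻¹ = σ1 * t * σ1⁻¹ := fun σ1 g x t h => by
    rw [← h]; group
  have sq : ∀ (σ1 : G) (x e : W), e * e = 1 → ε x = σ1 * ε e * σ1⁻¹ → x * x = 1 := fun σ1 x e h1 h2 => inj (by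
    rw [map_mul, h2, conj_mul, ← map_mul, h1, map_one]; group)
  have t3 := tr σ1 _ _ _ q9
  have t4 := tr σ1 _ _ _ q10
  rw [← conj_inv] at t3
  rw [s1] at t3
  rw [s2] at t4
  obtain ⟨x2, hx2⟩ := mL (g := σ1 * ε eE * σ1⁻¹) (by rw [t4]; exact mem_zpowers _)
  obtain ⟨l, w, hw, hl⟩ := pA_d10 x2 (sq _ _ _ r5 hx2) (inj (by simp only [map_mul, map_inv, hx2, t4]))
    (inj (by simp only [map_mul, map_inv, hx2, t3]))
  obtain ⟨w1, w2, w3⟩ := pA_rel2 hw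
  have p7 := cj w2
  have p8 := cj w3
  rw [map_inv] at p8
  have t1 := tr σ1 _ _ _ p7
  have t2 := tr σ1 _ _ _ p8
  rw [← conj_inv] at t2
  rw [s1] at t1
  rw [s2] at t2
  obtain ⟨x1, hx1⟩ := mL (g := σ1 * ε w * σ1⁻¹) (by rw [t2]; exact inv_mem (mem_zpowers _))
  obtain ⟨k, hk⟩ := pA_d9 x1 (sq _ _ _ w1 hx1) (inj (by simp only [map_mul, map_inv, hx1, t2]))
    (inj (by simp only [map_mul, map_inv, hx1, t1]))
  have fx : ∀ {g x : G} (n : ℕ), x * g * x⁻¹ = g → g ^ n * x * (g ^ n)⁻¹ = x := fun {g x} n h => by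
    have : Commute g x := (mul_inv_eq_iff_eq_mul.1 h).symm
    rw [(this.pow_left n).eq, mul_inv_cancel_right]
  have hl' := cj hl
  rw [map_pow, hx2] at hl'
  have zz : ε zE * ε zF * (ε zE)⁻¹ = ε zF := by rw [cm _ zD _ z'D, mul_inv_cancel_right]
  have zz' : ε zF * ε zE * (ε zF)⁻¹ = ε zE := by rw [cm _ z'D _ zD, mul_inv_cancel_right]
  have cpw : ε zF ^ l.val * ε zE ^ k.val = ε zE ^ k.val * ε zF ^ l.val := cm _ (pow_mem z'D _) _ (pow_mem zD _)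
  set σ := ε zF ^ l.val * ε zE ^ k.val * σ1 with hσ
  have u1 : σ * ε zE * σ⁻¹ = ε zF := by rw [cc, cc, s1, fx _ zz', fx _ (mul_inv_cancel_right _ _)]
  have u2 : σ * ε zF * σ⁻¹ = ε zE := by rw [cc, cc, s2, fx _ (mul_inv_cancel_right _ _), fx _ zz]
  have u4 : σ * ε eE * σ⁻¹ = ε w := by rw [hσ, cpw, cc, cc, hl', fx _ p7]
  have v1 : σ * σ * ε zE * (σ * σ)⁻¹ = ε zE := by rw [cc, u1, u2]
  obtain ⟨x, hx⟩ := mL (g := σ * σ) (by rw [v1]; exact mem_zpowers _)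
  have u3 : σ * ε w * σ⁻¹ = ε eE := by
    rcases hk with hk | hk <;> have hk' := cj hk <;> rw [map_pow, hx1] at hk'
    · rw [cc, cc, hk', fx _ q10]
    · refine absurd (inj ?_) (pA_d13 x)
      rw [map_mul, map_mul, map_inv, hx, cc, u4, cc, cc, hk', fx _ (cj r20)]
  have tC : ε tE ∈ centralizer (D : Set G) := fun d hd => by
    obtain ⟨i, j, rfl⟩ := mD d hd
    have c1 : Commute (ε zE) (ε tE) := (mul_inv_eq_iff_eq_mul.1 (cj r14)).symm
    have c2 : Commute (ε zF) (ε tE) := (mul_inv_eq_iff_eq_mul.1 (cj r15)).symm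
    rw [map_mul, map_pow, map_pow]
    exact (c1.pow_left _).mul_left (c2.pow_left _)
  have ss : σ * σ = 1 := by
    rcases pA_d11 x w hw (inj (by rw [map_mul, map_mul, map_inv, hx, v1]))
      (inj (by rw [map_mul, map_mul, map_inv, hx, cc, u2, u1]))
      (inj (by rw [map_mul, map_mul, map_inv, hx, cc, u4, u3]))
      (inj (by rw [map_mul, map_mul, map_inv, hx, cc, u3, u4])) with e | e
    · rw [← hx, e, map_one]
    exfalso
    rw [e] at hx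
    have σN : σ ∈ normalizer (D : Set G) := nD (by rw [u1]; exact z'D) (by rw [u2]; exact zD)
    have n1 : ψ ⟨σ, σN⟩ * ψ ⟨σ, σN⟩ ≠ 1 := fun e => by
      rw [← map_mul, ψ1] at e
      change σ * σ ∈ D at e
      rw [← hx] at e
      exact r17 (inj (by rw [map_pow, hexp _ e, map_one]))
    rcases pA_d7' _ (ψ s) n1 with e | e
    · rw [← map_mul, ψ1] at e
      exact sC (DC _ e)
    · have : ψ (s * s * (⟨σ, σN⟩ * ⟨σ, σN⟩)⁻¹) = 1 := by
        rw [map_mul, map_inv, map_mul, map_mul, e, mul_inv_cancel]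
      have h1 := DC _ ((ψ1 _).1 this)
      change (s : G) * s * (σ * σ)⁻¹ ∈ _ at h1
      rw [← hx] at h1
      exact sC ((mul_mem_cancel_right (inv_mem tC)).1 h1)
  have st : σ * ε tE * σ⁻¹ = ε tE := by
    have t5 := tr σ _ _ _ (cj r14)
    have t6 := tr σ _ _ _ (cj r15)
    rw [u1] at t5
    rw [u2] at t6
    obtain ⟨x3, hx3⟩ := mL (g := σ * ε tE * σ⁻¹) (by rw [t6]; exact mem_zpowers _)
    rcases pA_d14 x3 (sq _ _ _ r16 hx3) (inj (by simp only [map_mul, map_inv, hx3, t6]))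
      (inj (by simp only [map_mul, map_inv, hx3, t5])) with e | e
    · rw [e, map_one] at hx3
      exact absurd (inj ((by simpa using hx3.symm : ε tE = 1).trans (map_one ε).symm)) r18
    · rw [← hx3, e]
  have cy : Nat.card (centralizer ({ε zE * ε zF} : Set G)) = 36 := by
    obtain ⟨i, j, e⟩ := mD y yD
    have cz' : Nat.card (centralizer ({ε zF} : Set G)) = 360 := by rw [← u1, pA_ccj, cz]
    rcases pA_d12 i j with h | ⟨t, -, h⟩
    · exfalso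
      simp only [Finset.mem_insert, Finset.mem_singleton] at h
      rcases h with h | h | h | h | h <;> rw [e, h] at hycard
      · have := card_le_of_le (show centralizer ({ε zE} : Set G) ≤ centralizer {ε 1} from fun g _ => by
          rw [mem_centralizer_singleton_iff, map_one, mul_one, one_mul])
        omega
      · omega
      · rw [map_inv, pA_cinv] at hycard; omega
      · omega
      · rw [map_inv, pA_cinv] at hycard; omega
    · rw [← map_mul, h, map_mul, map_mul, map_inv, pA_ccj, ← e, hycard]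
  have fin : SA ε σ w := ⟨inj, fun g => by rw [rng], ss, u1, st, u4, cy, cz, P, hDP ▸ hcard⟩
  rcases hw with rfl | rfl
  exacts [⟨ε, σ, .inl fin⟩, ⟨ε, σ, .inr fin⟩]

end Cfsg.Agent.L1Se
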