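import Mathlib
import Cfsg.Agent.H28.HallNum

/-! Subnormalizers of `p`-subgroups (Casolo). -/

set_option autoImplicit false
set_option linter.style.haveILetI false
set_option linter.unusedSectionVars false

namespace Cfsg.Agent.H28

open Subgroup Cfsg.Agent.FT
open scoped Pointwise commutatorElement

section Mob

variable {α : Type*} [PartialOrder α] [Finite α]

open Classical in
/-- Möbius inverse of the constant function on a finite poset -/
noncomputable def mob (X : Finset α) : α → ℤ :=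
  (wellFounded_gt (α := α)).fix fun K f =>
    1 - ∑ R ∈ (X.filter (K < ·)).attach, f R (Finset.mem_filter.1 R.2).2

open Classical in
theorem mob_eq (X : Finset α) (K : α) : mob X K = 1 - ∑ R ∈ X.filter (K < ·), mob X R := by
  rw [mob, WellFounded.fix_eq, ← Finset.sum_attach (X.filter (K < ·))]

open Classical in
theorem filter_le_eq {X : Finset α} {K : α} (hK : K ∈ X) :
    X.filter (K ≤ ·) = insert K (X.filter (K < ·)) := by
  ext R
  simp only [Finset.mem_filter, Finset.mem_insert]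
  constructor
  · rintro ⟨h1, h2⟩
    exact h2.eq_or_lt.imp Eq.symm fun h => ⟨h1, h⟩
  · rintro (rfl | ⟨h1, h2⟩)
    · exact ⟨hK, le_rfl⟩
    · exact ⟨h1, h2.le⟩

open Classical in
theorem sum_mob {X : Finset α} {K : α} (hK : K ∈ X) : ∑ R ∈ X.filter (K ≤ ·), mob X R = 1 := by
  rw [filter_le_eq hK, Finset.sum_insert (by simp), mob_eq X K, sub_add_cancel]

open Classical in
theorem eq_mob {X : Finset α} {v : α → ℤ} (h : ∀ K ∈ X, ∑ R ∈ X.filter (K ≤ ·), v R = 1) (K : α) :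
    K ∈ X → v K = mob X K := by
  induction K using (wellFounded_gt (α := α)).induction with
  | _ K ih =>
  intro hK
  have := h K hK
  rw [filter_le_eq hK, Finset.sum_insert (by simp)] at this
  rw [mob_eq, ← this, ← Finset.sum_congr rfl fun R hR =>
    ih R (Finset.mem_filter.1 hR).2 (Finset.mem_filter.1 hR).1, add_sub_cancel_right]

end Mob

variable {G : Type*} [Group G] [Finite G] {p : ℕ}

theorem subn_iff_exists {H : Subgroup G} (hH : PGrp p H) {g : G} :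
    (H.subgroupOf (H ⊔ ⟪g⟫)).IsSubnormal ↔ ∃ R, PGrp p R ∧ H ≤ R ∧ R ≤ H ⊔ ⟪g⟫ ∧ g ∈ N(R) := by
  constructor
  · intro h
    exact ⟨_, pcore_pi _ _, pcore_max_subn hH ⟨le_sup_left, h⟩, pcore_le _ _,
      pcore_nrm _ _ (mem_sup_right (mem_zpowers g))⟩
  · rintro ⟨R, h1, h2, h3, h4⟩
    exact ((h1.nil.subn h2).trans (Nml.subn ⟨h3, sup_le (norms_of_le h2) (zpowers_le.2 h4)⟩)).subn

theorem subn_iff_exists' {H L : Subgroup G} (hH : PGrp p H) {g : G} (hL : H ≤ L) (hg : g ∈ L) :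
    (H.subgroupOf (H ⊔ ⟪g⟫)).IsSubnormal ↔ ∃ R, PGrp p R ∧ H ≤ R ∧ R ≤ L ∧ g ∈ N(R) := by
  rw [subn_iff_exists hH]
  constructor
  · rintro ⟨R, h1, h2, h3, h4⟩
    exact ⟨R, h1, h2, h3.trans (sup_le hL (zpowers_le.2 hg)), h4⟩
  · rintro ⟨R, h1, h2, -, h4⟩
    exact ⟨R ⊓ (H ⊔ ⟪g⟫), h1.inf_left _, le_inf h2 le_sup_left, inf_le_right,
      normsI (zpowers_le.2 h4) (norms_of_le le_sup_right) (mem_zpowers g)⟩

theorem subn_iff_radical {H : Subgroup G} (hH : PGrp p H) {g : G} :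
    (H.subgroupOf (H ⊔ ⟪g⟫)).IsSubnormal ↔ ∃ R, H ≤ R ∧ O[{p}](N(R)) = R ∧ g ∈ N(R) := by
  rw [subn_iff_exists' hH le_top (mem_top g)]
  constructor
  · rintro ⟨R, h1, h2, -, h4⟩
    obtain ⟨S, h5, ⟨h6, h7⟩, h8⟩ := exists_max (fun S => PGrp p S ∧ g ∈ N(S)) (A := R) ⟨h1, h4⟩
    exact ⟨S, h2.trans h5, h8 _ ⟨pcore_pi _ _, pcore_nrm _ _ h7⟩ (pcore_max h6 (nml_nrm S)), h7⟩
  · rintro ⟨R, h1, h2, h3⟩
    exact ⟨R, h2 ▸ pcore_pi _ _, h1, le_top, h3⟩

open Classical in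
/-- the `p`-subgroups of `L` normalized by `g` -/
noncomputable def psubs (p : ℕ) (L : Subgroup G) (g : G) : Finset (Subgroup G) :=
  (Set.toFinite {R : Subgroup G | PGrp p R ∧ R ≤ L ∧ g ∈ N(R)}).toFinset

theorem mem_psubs {L R : Subgroup G} {g : G} : R ∈ psubs p L g ↔ PGrp p R ∧ R ≤ L ∧ g ∈ N(R) := by
  simp [psubs]

theorem mob_psubs {L K : Subgroup G} {g : G} (hK : K ∈ psubs p L g) (hg : g ∈ L) :
    mob (psubs p L g) K = mob (psubs p (L ⊓ N(K)) g) K := by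
  classical
  obtain ⟨h1, h2, h3⟩ := mem_psubs.1 hK
  have hgn : g ∈ N(L ⊓ N(K)) := le_nrm _ ⟨hg, h3⟩
  have hmem : ∀ R ∈ psubs p L g, R ⊓ (L ⊓ N(K)) ∈ psubs p (L ⊓ N(K)) g := fun R hR => by
    obtain ⟨h4, -, h6⟩ := mem_psubs.1 hR
    exact mem_psubs.2 ⟨h4.inf_left _, inf_le_right,
      normsI (zpowers_le.2 h6) (zpowers_le.2 hgn) (mem_zpowers g)⟩
  rw [← eq_mob (v := fun T => ∑ R ∈ (psubs p L g).filter (fun R => R ⊓ (L ⊓ N(K)) = T),
    mob (psubs p L g) R) (fun T hT => ?_) K (mem_psubs.2 ⟨h1, le_inf h2 (le_nrm K), h3⟩)]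
  · symm
    refine Finset.sum_eq_single_of_mem K
      (Finset.mem_filter.2 ⟨hK, inf_eq_left.2 (le_inf h2 (le_nrm K))⟩) fun R hR hne => ?_
    exfalso
    obtain ⟨h4, h5⟩ := Finset.mem_filter.1 hR
    obtain ⟨h6, h7, -⟩ := mem_psubs.1 h4
    have := h6.lt_subnorm (lt_of_le_of_ne (h5 ▸ inf_le_left : K ≤ R) hne.symm)
    rw [← inf_assoc, inf_eq_left.2 h7] at h5
    exact this.ne' h5
  · obtain ⟨h4, h5, h6⟩ := mem_psubs.1 hT
    rw [← sum_mob (mem_psubs.2 ⟨h4, h5.trans inf_le_left, h6⟩ : T ∈ psubs p L g)]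
    refine Eq.trans ?_ ((Finset.sum_fiberwise_eq_sum_filter (psubs p L g)
      ((psubs p (L ⊓ N(K)) g).filter (T ≤ ·)) (fun R => R ⊓ (L ⊓ N(K)))
      (mob (psubs p L g))).trans ?_)
    · congr
    refine Finset.sum_congr (Finset.filter_congr fun R hR => ?_) fun _ _ => rfl
    rw [Finset.mem_filter]
    exact ⟨fun h => h.2.trans inf_le_left, fun h => ⟨hmem R hR, le_inf h h5⟩⟩

theorem sum_mob_psubs {L H : Subgroup G} {g : G} [DecidablePred fun R : Subgroup G => H ≤ R]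
    [Decidable (∃ R ∈ psubs p L g, H ≤ R)] :
    ∑ R ∈ (psubs p L g).filter (H ≤ ·), mob (psubs p L g) R =
      if ∃ R ∈ psubs p L g, H ≤ R then 1 else 0 := by
  classical
  split_ifs with h
  · obtain ⟨R, h1, h2⟩ := h
    obtain ⟨M, -, ⟨h3, h4⟩, h5⟩ := exists_min (fun R => R ∈ psubs p L g ∧ H ≤ R) (A := R) ⟨h1, h2⟩
    rw [← sum_mob h3]
    refine Finset.sum_congr ?_ fun _ _ => rfl
    ext S
    simp only [Finset.mem_filter, and_congr_right_iff]
    refine fun hS => ⟨fun h => ?_, h4.trans⟩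
    obtain ⟨h6, h7, h8⟩ := mem_psubs.1 h3
    exact inf_eq_left.1 (h5 _ ⟨mem_psubs.2 ⟨h6.inf_left _, inf_le_left.trans h7, normsI
      (zpowers_le.2 h8) (zpowers_le.2 (mem_psubs.1 hS).2.2) (mem_zpowers g)⟩, le_inf h4 h⟩ inf_le_left)
  · refine Finset.sum_eq_zero fun R hR => absurd ⟨R, Finset.mem_filter.1 hR⟩ h

open Classical in
/-- the weight of a `p`-subgroup -/
noncomputable def pwt (p : ℕ) (L K : Subgroup G) : ℤ :=
  ∑ g ∈ (Set.toFinite ((L ⊓ N(K) : Subgroup G) : Set G)).toFinset, mob (psubs p L g) K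

open Classical in
theorem sum_pwt (L H : Subgroup G) :
    ∑ R ∈ (Set.toFinite {R : Subgroup G | PGrp p R ∧ R ≤ L ∧ H ≤ R}).toFinset, pwt p L R =
      {g | g ∈ L ∧ ∃ R ∈ psubs p L g, H ≤ R}.ncard := by
  simp only [pwt]
  rw [Finset.sum_comm' (t' := (Set.toFinite (L : Set G)).toFinset)
    (s' := fun g => (psubs p L g).filter (H ≤ ·))]
  · simp only [sum_mob_psubs]
    rw [Finset.sum_boole, Set.ncard_eq_toFinset_card _ (Set.toFinite _)]
    congr 2
    ext g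
    simp
  · intro R g
    simp only [Set.Finite.mem_toFinset, Set.mem_ofPred_eq, SetLike.mem_coe, mem_inf,
      Finset.mem_filter, mem_psubs]
    tauto

theorem sum_card_nrm_syl (hp : p.Prime) (L : Subgroup G) :
    ∑ R ∈ (Set.toFinite {R : Subgroup G | Syl p R L}).toFinset, #(L ⊓ N(R) : Subgroup G) = #L := by
  obtain ⟨P, hP⟩ := exists_syl p L
  rw [← ncard_coe L, ncard_eq_sum_of_fibers (Set.toFinite {R : Subgroup G | Syl p R L}).toFinset
    (fun g => cj g P) fun g hg => by simpa using hP.cj_mem hg]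
  refine Finset.sum_congr rfl fun R hR => ?_
  obtain ⟨g, hg, rfl⟩ := hP.syl_trans (by simpa using hR)
  rw [← cj_nrm]
  conv_lhs => rw [← cj_of_mem hg, ← cj_inf, card_cj, ← ncard_leftCoset _ g]
  congr 1
  ext x
  simp only [Set.mem_ofPred_eq, mem_inf, SetLike.mem_coe, cj_eq_cj_iff, and_congr_left_iff]
  exact fun _ => ⟨fun h => by simpa using L.mul_mem hg h, L.mul_mem (L.inv_mem hg)⟩

open Classical in
theorem pwt_eq (hp : p.Prime) (K : Subgroup G) : ∀ L : Subgroup G, PGrp p K → K ≤ L →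
    pwt p L K = if Syl p K L then (#(L ⊓ N(K) : Subgroup G) : ℤ) else 0 := by
  induction K using (wellFounded_gt (α := Subgroup G)).induction with
  | _ K ih =>
  intro L hK hL
  have e1 : pwt p L K = pwt p (L ⊓ N(K)) K := by
    rw [pwt, pwt]
    refine Finset.sum_congr (by ext g; simp) fun g hg => ?_
    simp only [Set.Finite.mem_toFinset, SetLike.mem_coe, mem_inf] at hg
    exact mob_psubs (mem_psubs.2 ⟨hK, hL, hg.2⟩) hg.1.1
  have hKM : K ⊴ L ⊓ N(K) := nml_subnorm hL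
  rw [e1, ← syl_subnorm_iff hL]
  generalize L ⊓ N(K) = M at hKM
  have h1 := sum_pwt (p := p) M K
  have h2 : {g | g ∈ M ∧ ∃ R ∈ psubs p M g, K ≤ R} = M :=
    Set.ext fun g => ⟨fun h => h.1, fun h => ⟨h, K, mem_psubs.2 ⟨hK, hKM.le, hKM.nrm h⟩, le_rfl⟩⟩
  rw [h2, ncard_coe, ← Finset.add_sum_erase _ _ (a := K) (by simp [hK, hKM.le]),
    Finset.sum_congr rfl (g := fun R => if Syl p R M then (#(M ⊓ N(R) : Subgroup G) : ℤ) else 0)
      fun R hR => by
        simp only [Finset.mem_erase, Set.Finite.mem_toFinset, Set.mem_ofPred_eq] at hR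
        exact ih R (lt_of_le_of_ne hR.2.2.2 hR.1.symm) M hR.2.1 hR.2.2.1,
    ← Finset.sum_filter] at h1
  split_ifs with h
  · rw [← h1, left_eq_add]
    refine Finset.sum_eq_zero fun R hR => ?_
    simp only [Finset.mem_filter, Finset.mem_erase] at hR
    exact absurd (h.uniq_of_nml hKM.nrm hR.2) hR.1.1
  · rw [← sum_card_nrm_syl hp M, Nat.cast_sum] at h1
    refine add_eq_right.1 (h1.trans (Finset.sum_congr ?_ fun _ _ => rfl))
    ext R
    simp only [Set.Finite.mem_toFinset, Set.mem_ofPred_eq, Finset.mem_filter, Finset.mem_erase]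
    exact ⟨fun hR => ⟨⟨fun e => h (e ▸ hR), hR.pi, hR.le, hR.ge_of_nml hK hKM⟩, hR⟩, fun hR => hR.2⟩

/-- Casolo's formula for the size of the subnormalizer -/
theorem ncard_subnormalizer (hp : p.Prime) {H P : Subgroup G} (hH : PGrp p H) (hP : Syl p P ⊤) :
    {g | (H.subgroupOf (H ⊔ ⟪g⟫)).IsSubnormal}.ncard = {Q | Syl p Q ⊤ ∧ H ≤ Q}.ncard * #N(P) := by
  classical
  have h1 := sum_pwt (p := p) ⊤ H
  have h2 : {g | g ∈ (⊤ : Subgroup G) ∧ ∃ R ∈ psubs p ⊤ g, H ≤ R} =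
      {g | (H.subgroupOf (H ⊔ ⟪g⟫)).IsSubnormal} := by
    ext g
    simp only [Set.mem_ofPred_eq, subn_iff_exists' hH le_top (mem_top g), mem_psubs, mem_top,
      true_and]
    exact exists_congr fun R => by tauto
  rw [h2, Finset.sum_congr rfl (g := fun R => if Syl p R ⊤ then (#N(P) : ℤ) else 0) fun R hR => by
    simp only [Set.Finite.mem_toFinset, Set.mem_ofPred_eq] at hR
    rw [pwt_eq hp R ⊤ hR.1 le_top]
    split_ifs with h
    · obtain ⟨g, -, rfl⟩ := hP.syl_trans h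
      rw [top_inf_eq, ← cj_nrm, card_cj]
    · rfl, ← Finset.sum_filter, Finset.sum_const, nsmul_eq_mul] at h1
  rw [Set.ncard_eq_toFinset_card {Q | Syl p Q ⊤ ∧ H ≤ Q} (Set.toFinite _)]
  refine Nat.cast_injective (R := ℤ) (h1.symm.trans ?_)
  push_cast
  congr 3
  ext R
  simp only [Finset.mem_filter, Set.Finite.mem_toFinset, Set.mem_ofPred_eq]
  exact ⟨fun h => ⟨h.2, h.1.2.2⟩, fun h => ⟨⟨h.1.pi, le_top, h.2⟩, h.1⟩⟩

theorem ncard_le_cj (H P : Subgroup G) :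
    {g | H ≤ cj g P}.ncard = {Q | (∃ g, Q = cj g P) ∧ H ≤ Q}.ncard * #N(P) := by
  rw [mul_comm]
  refine ncard_eq_mul_of_fibers (fun g => cj g P) ?_ ?_
  · exact fun g hg => ⟨⟨g, rfl⟩, hg⟩
  rintro _ ⟨⟨g, rfl⟩, hg⟩
  rw [← ncard_leftCoset _ g]
  congr 1
  ext x
  simp only [Set.mem_ofPred_eq, ← cj_eq_cj_iff]
  exact ⟨fun h => h.2, fun h => ⟨h ▸ hg, h⟩⟩

theorem ncard_cj_le (H P : Subgroup G) :
    {g | cj g H ≤ P}.ncard = {K | K ≤ P ∧ ∃ g, K = cj g H}.ncard * #N(H) := by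
  rw [mul_comm]
  refine ncard_eq_mul_of_fibers (fun g => cj g H) ?_ ?_
  · exact fun g hg => ⟨hg, g, rfl⟩
  rintro _ ⟨hg, g, rfl⟩
  rw [← ncard_leftCoset _ g]
  congr 1
  ext x
  simp only [Set.mem_ofPred_eq, ← cj_eq_cj_iff]
  exact ⟨fun h => h.2, fun h => ⟨h ▸ hg, h⟩⟩

theorem ncard_le_cj_eq (H P : Subgroup G) : {g | H ≤ cj g P}.ncard = {g | cj g H ≤ P}.ncard := by
  rw [← Set.ncard_inv]
  congr 1
  ext g
  simp [le_cj_iff]

theorem card_sylow_le_eq [hp : Fact p.Prime] (H : Subgroup G) :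
    Nat.card {Q : Sylow p G // H ≤ (Q : Subgroup G)} = {Q | Syl p Q ⊤ ∧ H ≤ Q}.ncard := by
  rw [← Nat.card_coe_set_eq]
  refine Nat.card_congr (Equiv.ofBijective (fun Q => ⟨Q.1, syl_top hp.out Q.1, Q.2⟩) ⟨?_, ?_⟩)
  · intro Q R e
    exact Subtype.ext (Sylow.ext (congrArg Subtype.val e))
  · rintro ⟨Q, h1, h2⟩
    obtain ⟨T, rfl⟩ := (syl_top_iff hp.out).1 h1
    exact ⟨⟨T, h2⟩, rfl⟩

end Cfsg.Agent.H28
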