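import Cfsg.Agent.H8.Tr0

/-! S3105, piece `exW`: a transvection on a natural module. -/

set_option autoImplicit false
set_option linter.unusedSectionVars false
set_option linter.unusedVariables false

namespace Cfsg.Agent.H8.Tr

open Cfsg Subgroup Cfsg.Agent.FT

universe u

variable {X : Type u} [Group X] [Finite X] {Q N D : Subgroup X} {σ ρ c z w : X}

theorem exW_comm (hN : Nm Q N) {a b : X} (ha : a ∈ N) (hb : b ∈ N) : a * b = b * a := by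
  have h1 := hN.sq _ (mul_mem ha hb)
  have h2 := hN.sq _ ha
  have h3 := hN.sq _ hb
  calc a * b = (b * b) * a * b * (a * a) := by rw [h2, h3]; group
    _ = b * (b * a * b * a) * a := by group
    _ = b * (b * (a * b * (a * b)) * b⁻¹ * a⁻¹ * a) * a := by
      rw [h1, mul_one]
      have : b * a * b * a = 1 := by
        calc b * a * b * a = a⁻¹ * (a * b * (a * b)) * b⁻¹ * a * (a⁻¹ * b * a) := by group
          _ = 1 := by
            rw [h1, inv_eq_of_mul_eq_one_right h2, inv_eq_of_mul_eq_one_right h3]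
            calc a * 1 * b * a * (a * b * a) = a * (b * (a * a) * b) * a := by group
              _ = 1 := by rw [h2, mul_one, h3, mul_one, h2]
      rw [this]; group
    _ = b * a := by rw [h1]; group

theorem exW_fix (h : B Q σ ρ) (hN : Nm Q N) : #(N ⊓ C[ρ]) = 2 := by
  haveI := hN.nN
  letI : MulAction ⟪ρ⟫ N := MulAction.compHom N ((MulAut.conjNormal : X →* MulAut N).comp ⟪ρ⟫.subtype)
  have sm : ∀ (k : ⟪ρ⟫) (x : N), ((k • x : N) : X) = k * x * (k : X)⁻¹ := fun k x => rfl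
  haveI : Fact (Nat.Prime 3) := ⟨Nat.prime_three⟩
  have h1 := IsPGroup.card_modEq_card_fixedPoints (G := ⟪ρ⟫) (p := 3)
      (IsPGroup.of_card (n := 1) (by rw [Nat.card_zpowers, h.o3, pow_one])) N
  have e : Nat.card (MulAction.fixedPoints ⟪ρ⟫ N) = #(N ⊓ C[ρ]) := by
    refine Nat.card_congr ⟨fun a => ⟨a.1.1, a.1.2, ?_⟩, fun a => ⟨⟨a.1, a.2.1⟩, fun k => ?_⟩, fun a => rfl, fun a => rfl⟩
    · have := congrArg Subtype.val (a.2 ⟨ρ, mem_zpowers ρ⟩)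
      rw [sm] at this
      exact mem_centralizer_singleton_iff.2 (mul_inv_eq_iff_eq_mul.1 this).symm
    · refine Subtype.ext ?_
      rw [sm]
      have : (k : X) ∈ C[(a : X)] := (zpowers_le.2 (mem_centralizer_singleton_iff.2
        (mem_centralizer_singleton_iff.1 a.2.2).symm)) k.2
      exact mul_inv_eq_iff_eq_mul.2 (mem_centralizer_singleton_iff.1 this)
  rw [e, hN.c8] at h1
  have hd : #(N ⊓ C[ρ]) ∣ 8 := hN.c8 ▸ card_dvd_of_le inf_le_left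
  have h8 : #(N ⊓ C[ρ]) ≠ 8 := fun e8 => by
    have := eq_of_le_of_card_ge (inf_le_left : N ⊓ C[ρ] ≤ N) (by rw [e8, hN.c8])
    refine h.ρQ (hN.cen ▸ fun n hn => ?_)
    rw [← this] at hn
    exact mem_centralizer_singleton_iff.1 hn.2
  have hle := Nat.le_of_dvd (by norm_num) hd
  unfold Nat.ModEq at h1
  generalize #(N ⊓ C[ρ]) = m at *
  interval_cases m <;> omega

theorem exW_gen (hN : Nm Q N) (hz : z ∈ N) (z1 : z ≠ 1) {a b : X} (ha : a ∈ N) (az : a ∉ ⟪z⟫) (hb : b ∈ N)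
    (bz : b ∉ ⟪z⟫) (ba : b * a ∉ ⟪z⟫) :
    ⟪z⟫ ⊔ ⟪a⟫ ⊔ ⟪b⟫ = N ∧ ∀ n ∈ N, n ∈ ⟪z⟫ ∨ n * a ∈ ⟪z⟫ ∨ n * b ∈ ⟪z⟫ ∨ n * b * a ∈ ⟪z⟫ := by
  have nn : ∀ K ≤ N, ∀ x ∈ N, x ∈ N(K) := fun K hK x hx =>
    centralizer_le_normalizer _ fun k hk => exW_comm hN (hK hk) hx
  have zN : ⟪z⟫ ≤ N := zpowers_le.2 hz
  have zaN : ⟪z⟫ ⊔ ⟪a⟫ ≤ N := sup_le zN (zpowers_le.2 ha)
  have c2 : #⟪z⟫ = 2 := by
    rw [Nat.card_zpowers]
    exact orderOf_eq_prime (by rw [pow_two, hN.sq z hz]) z1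
  have s1 := fun y => sup2 (y := y) (nn _ zN a ha) (by rw [hN.sq a ha]; exact one_mem _)
  have s2 := fun y => sup2 (y := y) (nn _ zaN b hb) (by rw [hN.sq b hb]; exact one_mem _)
  have c4 := H3.card_sup_zpowers Nat.prime_two (nn _ zN a ha) az (by rw [pow_two, hN.sq a ha]; exact one_mem _)
  have c8 := H3.card_sup_zpowers Nat.prime_two (nn _ zaN b hb) (fun e => ((s1 b).1 e).elim bz ba)
    (by rw [pow_two, hN.sq b hb]; exact one_mem _)
  have e : ⟪z⟫ ⊔ ⟪a⟫ ⊔ ⟪b⟫ = N :=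
    eq_of_le_of_card_ge (sup_le zaN (zpowers_le.2 hb)) (by rw [c8, c4, c2, hN.c8])
  refine ⟨e, fun n hn => ?_⟩
  rw [← e, s2, s1, s1] at hn
  tauto

theorem exW_ex (h : B Q σ ρ) (hN : Nm Q N) (hz : z ∈ N) (z1 : z ≠ 1) {a b : X} (ha : a ∈ N) (hb : b ∈ N) :
    ∃ w, w ∉ Q ∧ w * z * w⁻¹ = z ∧ a⁻¹ * (w * a * w⁻¹) ∈ ⟪z⟫ ∧ b⁻¹ * (w * b * w⁻¹) ∈ ⟪z⟫ := by
  haveI := hN.nN
  have hp : ∀ y : X, ∃ π : X → Fin 4, y ∈ N → y ≠ 1 → ∀ n ∈ N, ∀ m ∈ N, π n = π m → n⁻¹ * m ∈ ⟪y⟫ := fun y => by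
    by_cases hy : y ∈ N ∧ y ≠ 1
    · have c2 : #⟪y⟫ = 2 := by
        rw [Nat.card_zpowers]
        exact orderOf_eq_prime (by rw [pow_two, hN.sq y hy.1]) hy.2
      have c4 : Nat.card (N ⧸ (⟪y⟫).subgroupOf N) = 4 := by
        have := ((⟪y⟫).subgroupOf N).card_mul_index
        rw [Nat.card_congr (subgroupOfEquivOfLe (zpowers_le.2 hy.1)).toEquiv, c2, hN.c8] at this
        change ((⟪y⟫).subgroupOf N).index = 4
        omega
      let e := Finite.equivFinOfCardEq c4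
      classical
      refine ⟨fun n => if hn : n ∈ N then e (QuotientGroup.mk ⟨n, hn⟩) else 0, fun _ _ n hn m hm hh => ?_⟩
      simp only [dif_pos hn, dif_pos hm] at hh
      exact mem_subgroupOf.1 (QuotientGroup.eq.1 (e.injective hh))
    · exact ⟨fun _ => 0, fun h1 h2 => absurd ⟨h1, h2⟩ hy⟩
  choose π hπ using hp
  by_contra hc
  push Not at hc
  let f : X ⧸ Q → N × Fin 4 × Fin 4 := fun q =>
    (⟨q.out * z * q.out⁻¹, hN.nN.conj_mem _ hz _⟩, π (q.out * z * q.out⁻¹) (q.out * a * q.out⁻¹),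
      π (q.out * z * q.out⁻¹) (q.out * b * q.out⁻¹))
  have hf : Function.Injective f := fun p q e => by
    simp only [f, Prod.mk.injEq, Subtype.mk.injEq] at e
    obtain ⟨e1, e2, e3⟩ := e
    rw [← p.out_eq', ← q.out_eq', QuotientGroup.eq]
    generalize p.out = g at *
    generalize q.out = k at *
    rw [← e1] at e2 e3
    have zz : g * z * g⁻¹ ≠ 1 := fun e => z1 (by simpa using e)
    have t : ∀ n ∈ N, π (g * z * g⁻¹) (g * n * g⁻¹) = π (g * z * g⁻¹) (k * n * k⁻¹) →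
        n⁻¹ * (g⁻¹ * k * n * (g⁻¹ * k)⁻¹) ∈ ⟪z⟫ := fun n hn e => by
      obtain ⟨j, hj⟩ := hπ _ (hN.nN.conj_mem _ hz g) zz _ (hN.nN.conj_mem _ hn g) _ (hN.nN.conj_mem _ hn k) e
      refine ⟨j, ?_⟩
      simp only [conj_zpow] at hj ⊢
      calc z ^ j = g⁻¹ * (g * z ^ j * g⁻¹) * g := by group
        _ = _ := by rw [hj]; group
    by_contra hq
    exact hc _ hq (by
      calc g⁻¹ * k * z * (g⁻¹ * k)⁻¹ = g⁻¹ * (k * z * k⁻¹) * g := by group
        _ = z := by rw [← e1]; group) (t a ha e2) (t b hb e3)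
  have := Nat.card_le_card_of_injective f hf
  rw [Nat.card_prod, Nat.card_prod, hN.c8, Nat.card_fin, ← index_eq_card, h.idx] at this
  omega

/-- the commutator map -/
def exWf (g n : X) : X := n⁻¹ * (g * n * g⁻¹)

theorem exWf_one {g n : X} : exWf g n = 1 ↔ g * n = n * g := by
  rw [exWf, inv_mul_eq_one, eq_comm, mul_inv_eq_iff_eq_mul]

theorem exWf_mul (hN : Nm Q N) (g : X) {a b : X} (ha : a ∈ N) (hb : b ∈ N) :
    exWf g (a * b) = exWf g a * exWf g b := by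
  have := exW_comm hN (mul_mem (inv_mem ha) (hN.nN.conj_mem _ ha g)) (inv_mem hb)
  calc exWf g (a * b) = b⁻¹ * (a⁻¹ * (g * a * g⁻¹)) * (g * b * g⁻¹) := by rw [exWf]; group
    _ = _ := by rw [← this, exWf, exWf]; group

theorem exW_cz {g t : X} (hg : g * z * g⁻¹ = z) (ht : t ∈ ⟪z⟫) : g * t * g⁻¹ = t := by
  obtain ⟨j, rfl⟩ := ht
  simp only [← conj_zpow, hg]

theorem exWf_comp {g k n : X} (hg : g * z * g⁻¹ = z) (hk : exWf k n ∈ ⟪z⟫) :
    exWf (g * k) n = exWf g n * exWf k n := by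
  rw [← exW_cz hg hk, exWf, exWf, exWf]; group

theorem exWf_conj {g r n : X} (hr : r * z * r⁻¹ = z) (hk : exWf g n ∈ ⟪z⟫) :
    exWf (r * g * r⁻¹) (r * n * r⁻¹) = exWf g n := by
  rw [← exW_cz hr hk, exWf, exWf]; group

theorem exW (h : B Q σ ρ) (hN : Nm Q N) : ∃ z w, Wt Q N ρ z w := by
  have c2 := exW_fix h hN
  obtain ⟨z, hz, z1⟩ : ∃ z ∈ N ⊓ C[ρ], z ≠ 1 := by
    by_contra hc
    push Not at hc
    rw [(eq_bot_iff_forall _).2 hc, card_bot] at c2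
    omega
  have zN := hz.1
  have z2 := hN.sq z zN
  have cz : #⟪z⟫ = 2 := by
    rw [Nat.card_zpowers]
    exact orderOf_eq_prime (by rw [pow_two, z2]) z1
  have ez : ⟪z⟫ = N ⊓ C[ρ] := eq_of_le_of_card_ge (zpowers_le.2 hz) (by rw [c2, cz])
  have zρ : ρ * z = z * ρ := (mem_centralizer_singleton_iff.1 hz.2).symm
  have rz : ρ * z * ρ⁻¹ = z := mul_inv_eq_iff_eq_mul.2 zρ
  have r3 : ρ * ρ * ρ = 1 := by rw [← pow_three', ← h.o3, pow_orderOf_eq_one]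
  have cN : ∀ (g : X) {n : X}, n ∈ N → g * n * g⁻¹ ∈ N := fun g n hn => hN.nN.conj_mem _ hn g
  have inv : ∀ {n : X}, n ∈ N → n⁻¹ = n := fun hn => inv_eq_of_mul_eq_one_right (hN.sq _ hn)
  have sqz : ∀ t ∈ ⟪z⟫, t * t = 1 := fun t ht => hN.sq t (zpowers_le.2 zN ht)
  have fix : ∀ n ∈ N, ρ * n * ρ⁻¹ = n → n ∈ ⟪z⟫ := fun n hn e =>
    ez ▸ ⟨hn, mem_centralizer_singleton_iff.2 (mul_inv_eq_iff_eq_mul.1 e).symm⟩
  have c3 : ∀ n : X, ρ * (ρ * (ρ * n * ρ⁻¹) * ρ⁻¹) * ρ⁻¹ = n := fun n => by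
    calc _ = (ρ * ρ * ρ) * n * (ρ * ρ * ρ)⁻¹ := by group
      _ = n := by rw [r3]; group
  have fpf : ∀ n ∈ N, ρ * n * ρ⁻¹ * n⁻¹ ∈ ⟪z⟫ → n ∈ ⟪z⟫ := fun n hn e => by
    have e1 := exW_cz rz e
    have e2 := sqz _ e
    set t := ρ * n * ρ⁻¹ * n⁻¹ with ht
    have e3 : ρ * n * ρ⁻¹ = t * n := by rw [ht]; group
    have e4 : ρ * (ρ * n * ρ⁻¹) * ρ⁻¹ = n := by
      calc ρ * (ρ * n * ρ⁻¹) * ρ⁻¹ = (ρ * t * ρ⁻¹) * (ρ * n * ρ⁻¹) := by
            conv_lhs => rw [e3]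
            group
        _ = n := by rw [e1, e3, ← mul_assoc, e2, one_mul]
    have := c3 n
    rw [e4] at this
    exact fix n hn this
  have pair : ∀ a ∈ N, a ∉ ⟪z⟫ → ρ * a * ρ⁻¹ ∉ ⟪z⟫ ∧ ρ * a * ρ⁻¹ * a ∉ ⟪z⟫ := fun a ha az => by
    refine ⟨fun e => az ?_, fun e => az (fpf a ha (by rwa [inv ha]))⟩
    have := exW_cz rz e
    have e2 : ρ * a * ρ⁻¹ = a := by simpa using this
    rwa [e2] at e
  obtain ⟨a, ha, az⟩ : ∃ a ∈ N, a ∉ ⟪z⟫ := by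
    by_contra hc
    push Not at hc
    have := card_le_of_le (show N ≤ ⟪z⟫ from hc)
    rw [cz, hN.c8] at this
    omega
  obtain ⟨w, wQ, wz, wa, wb⟩ := exW_ex h hN zN z1 ha (cN ρ ha)
  change exWf w a ∈ _ at wa
  change exWf w _ ∈ _ at wb
  have fz : ∀ g : X, g * z * g⁻¹ = z → ∀ t ∈ ⟪z⟫, exWf g t = 1 := fun g hg t ht => by
    rw [exWf, exW_cz hg ht, inv_mul_cancel]
  have tv : ∀ n ∈ N, exWf w n ∈ ⟪z⟫ := fun n hn => by
    have st : ∀ m ∈ N, ∀ b ∈ N, exWf w b ∈ ⟪z⟫ → exWf w (m * b) ∈ ⟪z⟫ → exWf w m ∈ ⟪z⟫ :=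
      fun m hm b hb h1 h2 => by
        rw [exWf_mul hN w hm hb] at h2
        exact (mul_mem_cancel_right h1).1 h2
    have s0 : ∀ t ∈ ⟪z⟫, exWf w t ∈ ⟪z⟫ := fun t ht => by rw [fz w wz t ht]; exact one_mem _
    rcases (exW_gen hN zN z1 ha az (cN ρ ha) (pair a ha az).1 (pair a ha az).2).2 n hn with e | e | e | e
    · exact s0 _ e
    · exact st n hn a ha wa (s0 _ e)
    · exact st n hn _ (cN ρ ha) wb (s0 _ e)
    · exact st n hn _ (cN ρ ha) wb (st _ (mul_mem hn (cN ρ ha)) a ha wa (s0 _ e))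
  obtain ⟨u, hu, uz, fu⟩ : ∃ u ∈ N, u ∉ ⟪z⟫ ∧ exWf w u = 1 := by
    rcases (zp2 z2).1 wa with e | e
    · exact ⟨a, ha, az, e⟩
    rcases (zp2 z2).1 wb with e' | e'
    · exact ⟨_, cN ρ ha, (pair a ha az).1, e'⟩
    exact ⟨_, mul_mem (cN ρ ha) ha, (pair a ha az).2, by rw [exWf_mul hN w (cN ρ ha) ha, e, e', z2]⟩
  clear wa wb az ha a
  obtain ⟨gen, cas⟩ := exW_gen hN zN z1 hu uz (cN ρ hu) (pair u hu uz).1 (pair u hu uz).2
  set v := ρ * u * ρ⁻¹ with hv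
  have vN : v ∈ N := cN ρ hu
  have mQ : ∀ g : X, g * z * g⁻¹ = z → exWf g u = 1 → exWf g v = 1 → g ∈ Q := fun g h0 h1 h2 => by
    have : N ≤ C[g] := by
      rw [← gen]
      exact sup_le (sup_le (zpowers_le.2 (mem_centralizer_singleton_iff.2 (mul_inv_eq_iff_eq_mul.1 h0).symm))
        (zpowers_le.2 (mem_centralizer_singleton_iff.2 (exWf_one.1 h1).symm)))
        (zpowers_le.2 (mem_centralizer_singleton_iff.2 (exWf_one.1 h2).symm))
    rw [← hN.cen]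
    exact fun n hn => mem_centralizer_singleton_iff.1 (this hn)
  have fv : exWf w v = z := ((zp2 z2).1 (tv v vN)).resolve_left fun e => wQ (mQ w wz fu e)
  set y := ρ * v * ρ⁻¹ with hy
  have yN : y ∈ N := cN ρ vN
  have yu : ρ * y * ρ⁻¹ = u := c3 u
  have pz : y * v * u ∈ ⟪z⟫ := fix _ (mul_mem (mul_mem yN vN) hu) (by
    calc ρ * (y * v * u) * ρ⁻¹ = (ρ * y * ρ⁻¹) * (ρ * v * ρ⁻¹) * (ρ * u * ρ⁻¹) := by group
      _ = u * (y * v) := by rw [yu, ← hy, ← hv, mul_assoc]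
      _ = _ := exW_comm hN hu (mul_mem yN vN))
  have tri : ∀ g : X, g * z * g⁻¹ = z → exWf g y * exWf g v * exWf g u = 1 := fun g hg => by
    rw [← exWf_mul hN g yN vN, ← exWf_mul hN g (mul_mem yN vN) hu, fz g hg _ pz]
  have zi : z⁻¹ = z := inv zN
  have fy : exWf w y = z := by
    have := tri w wz
    rw [fu, fv, mul_one, mul_eq_one_iff_eq_inv, zi] at this
    exact this
  have cjz : ∀ g : X, g * z * g⁻¹ = z → (ρ * g * ρ⁻¹) * z * (ρ * g * ρ⁻¹)⁻¹ = z := fun g hg => by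
    have : ρ⁻¹ * z * ρ = z := by rw [mul_assoc, ← zρ]; group
    calc _ = ρ * (g * (ρ⁻¹ * z * ρ) * g⁻¹) * ρ⁻¹ := by group
      _ = z := by rw [this, hg, rz]
  have cjt : ∀ g : X, (∀ n ∈ N, exWf g n ∈ ⟪z⟫) → ∀ n ∈ N, exWf (ρ * g * ρ⁻¹) n ∈ ⟪z⟫ := fun g hg n hn => by
    have e : n = ρ * (ρ⁻¹ * n * ρ⁻¹⁻¹) * ρ⁻¹ := by group
    rw [e, exWf_conj rz (hg _ (cN _ hn))]
    exact hg _ (cN _ hn)
  set b := ρ * w * ρ⁻¹ with hb
  have bz : b * z * b⁻¹ = z := cjz w wz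
  have bt : ∀ n ∈ N, exWf b n ∈ ⟪z⟫ := cjt w tv
  have bv : exWf b v = 1 := by rw [← fu]; exact exWf_conj rz (tv u hu)
  have by' : exWf b y = z := by rw [← fv]; exact exWf_conj rz (tv v vN)
  have bu : exWf b u = z := by rw [← fy, ← yu]; exact exWf_conj rz (tv y yN)
  set d := ρ * b * ρ⁻¹ with hd
  have dz : d * z * d⁻¹ = z := cjz b bz
  have dt : ∀ n ∈ N, exWf d n ∈ ⟪z⟫ := cjt b bt
  have dv : exWf d v = z := by rw [← bu]; exact exWf_conj rz (bt u hu)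
  have du : exWf d u = z := by rw [← by', ← yu]; exact exWf_conj rz (bt y yN)
  have mz : ∀ {g k : X}, g * z * g⁻¹ = z → k * z * k⁻¹ = z → (g * k) * z * (g * k)⁻¹ = z := fun {g k} hg hk => by
    calc _ = g * (k * z * k⁻¹) * g⁻¹ := by group
      _ = z := by rw [hk, hg]
  have ww : w * w ∈ Q := mQ _ (mz wz wz) (by rw [exWf_comp wz (tv u hu), fu, one_mul])
    (by rw [exWf_comp wz (tv v vN), fv, z2])
  have bb : b * b ∈ Q := mQ _ (mz bz bz) (by rw [exWf_comp bz (bt u hu), bu, z2])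
    (by rw [exWf_comp bz (bt v vN), bv, one_mul])
  refine ⟨z, w, zN, z1, zρ, wQ, ww, ?_, ?_, fun n hn => ?_, fun n hn h1 h2 => ?_, ⟨u, hu, uz, exWf_one.1 fu⟩, fpf⟩
  · exact mQ _ (mz (mz wz bz) dz)
      (by rw [exWf_comp (mz wz bz) (dt u hu), exWf_comp wz (bt u hu), fu, bu, du, one_mul, z2])
      (by rw [exWf_comp (mz wz bz) (dt v vN), exWf_comp wz (bt v vN), fv, bv, dv, mul_one, z2])
  · have : w * b * w * b ∈ Q := mQ _ (mz (mz (mz wz bz) wz) bz)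
      (by rw [exWf_comp (mz (mz wz bz) wz) (bt u hu), exWf_comp (mz wz bz) (tv u hu), exWf_comp wz (bt u hu),
        fu, bu, one_mul, mul_one, z2])
      (by rw [exWf_comp (mz (mz wz bz) wz) (bt v vN), exWf_comp (mz wz bz) (tv v vN), exWf_comp wz (bt v vN),
        fv, bv, mul_one, mul_one, z2])
    have e : w * b * w⁻¹ * b⁻¹ = (w * b * w * b) * (b * b)⁻¹ * (b * (w * w)⁻¹ * b⁻¹) := by group
    change w * b * w⁻¹ * b⁻¹ ∈ Q
    rw [e]
    exact mul_mem (mul_mem this (inv_mem bb)) (h.nQ.conj_mem _ (inv_mem ww) b)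
  · rw [exW_comm hN (cN w hn) (inv_mem hn)]
    exact tv n hn
  · have h1' := exWf_one.2 h1
    have h2' : exWf b n = 1 := exWf_one.2 h2
    rcases cas n hn with e | e | e | e
    · exact e
    · have := fz b bz _ e
      rw [exWf_mul hN b hn hu, h2', bu, one_mul] at this
      exact absurd this z1
    · have := fz w wz _ e
      rw [exWf_mul hN w hn vN, h1', fv, one_mul] at this
      exact absurd this z1
    · have := fz w wz _ e
      rw [exWf_mul hN w (mul_mem hn vN) hu, exWf_mul hN w hn vN, h1', fv, fu, one_mul, mul_one] at this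
      exact absurd this z1

end Cfsg.Agent.H8.Tr
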