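import Mathlib
import Cfsg.Agent.H28.PSb
import Cfsg.Agent.H28.UFm

/-! The structure of an involution centraliser of the type of `PSU₄(3)`. -/

set_option autoImplicit false

namespace Cfsg.Agent.H28.UF
open Subgroup H15 FT HJ MZ PS

variable {G : Type*} [Group G] {z e f p q r s t u k n c x : G} {K : Subgroup G}

def I4 (z e x : G) : Prop := x = 1 ∨ x = z ∨ x = e ∨ x = e * z

theorem I4.cm (h : I4 z e x) (cz : c * z = z * c) (ce : c * e = e * c) : c * x = x * c := by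
  rcases h with rfl | rfl | rfl | rfl
  exacts [by simp, cz, ce, (Commute.mul_right ce cz).eq]

theorem i4_of [Finite G] {D : Subgroup G} (c : #D = 4) (hz : z ∈ D) (he : e ∈ D) (z1 : z ≠ 1) (e1 : e ≠ 1)
    (en : e ≠ z) (ez : e * z ≠ 1) (hx : x ∈ D) : I4 z e x :=
  (Set.eq_of_subset_of_ncard_le (s := {1, z, e, e * z}) (t := D) (by
    rintro _ (rfl | rfl | rfl | rfl)
    exacts [one_mem D, hz, he, mul_mem he hz]) (by
    rw [← Nat.card_coe_set_eq, show Nat.card (D : Set G) = 4 from c,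
      Set.ncard_insert_of_notMem (by simp [z1.symm, e1.symm, ez.symm]),
      Set.ncard_insert_of_notMem (by simp [en.symm, e1]), Set.ncard_pair (by simp [z1])])).ge hx

theorem MK.mem (M : MK z e f p q r s K) : e ∈ K ∧ f ∈ K ∧ z ∈ K ∧ p ∈ K ∧ r ∈ K ∧ s ∈ K := by
  rw [← M.gen]
  exact ⟨mem_gp_sgl (l := 0) (by decide), mem_gp_sgl (l := 1) (by decide), mem_gp_sgl (l := 2) (by decide),
    mem_gp_sgl (l := 3) (by decide), mem_gp_sgl (l := 5) (by decide), mem_gp_sgl (l := 7) (by decide)⟩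

theorem MK.le (M : MK z e f p q r s K) {L : Subgroup G} (he : e ∈ L) (hr : r ∈ L) (hs : s ∈ L) : K ≤ L := by
  obtain ⟨-, ⟨-, -, -, -, -, -, a, b, c⟩, d, -⟩ := M.k0
  have hp : p ∈ L := a ▸ cmem hr he
  have hf : f ∈ L := b ▸ cmem hs he
  rw [← M.gen]
  refine gp_sgl_le fun l hl => ?_
  interval_cases l
  exacts [he, hf, d ▸ mul_mem (mul_mem hf hp) (mul_mem hf hp), hp, c ▸ cmem hr hf, hr, inv_mem hr, hs, inv_mem hs]

theorem MK.cz (M : MK z e f p q r s K) (hx : x ∈ K) : x * z = z * x :=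
  let ⟨⟨_, _, _, _, a, _⟩, ⟨b, c, _⟩, _⟩ := M.k0
  memC.1 (M.le (memC.2 a) (memC.2 b) (memC.2 c) hx)

theorem p4 (h : x * x = 1) : x ^ 4 = 1 := by rw [show 4 = 2 * 2 from rfl, pow_mul, sq x, h, one_pow]

def Ta (z e r s a b t : G) : Prop := t * t = 1 ∧ t * z = z * t ∧ t * e = e * t ∧ t * r * t⁻¹ = a ∧ t * s * t⁻¹ = b

def Ty (z e f p r s c : G) : Prop :=
  (c * f * c⁻¹ = f ∧ (c * p * c⁻¹ = p * e ∨ (c * p * c⁻¹ = p * (e * z) ∧ ∃ t, Ta z e r s r⁻¹ s t ∧ I4 z e (t * c * f)))) ∨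
  (c * p * c⁻¹ = p ∧ (c * f * c⁻¹ = f * e ∨ (c * f * c⁻¹ = f * (e * z) ∧ ∃ t, Ta z e r s r s⁻¹ t ∧ I4 z e (t * c)))) ∨
  (c * f * c⁻¹ = f * e ∧ c * p * c⁻¹ = p * (e * z)) ∨ (c * f * c⁻¹ = f * (e * z) ∧ c * p * c⁻¹ = p * e)

structure HB (z e f p q r s : G) (K : Subgroup G) : Prop extends MK z e f p q r s K where
  nK : ∀ g, g * z = z * g → ∀ x ∈ K, g * x * g⁻¹ ∈ K
  cc : ∀ x, x * z = z * x → (∀ y ∈ K, x * y = y * x) → x ∈ K
  hx : ∃ g, g * z * g⁻¹ ∈ K ∧ g * z * g⁻¹ ≠ z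
  h4 : ∀ g, g * z * g⁻¹ ∈ K → g * z * g⁻¹ ≠ z →
    ∃ D : Subgroup G, #D = 4 ∧ ∀ x, x ∈ D ↔ x ∈ K ∧ x ^ 4 = 1 ∧ g⁻¹ * x * g⁻¹⁻¹ ∈ K
  cH : #C[z] = 1152

namespace HB
variable (H : HB z e f p q r s K)
include H

theorem cen (xz : x * z = z * x) (xe : x * e = e * x) (xr : x * r = r * x) (xs : x * s = s * x) : x = 1 ∨ x = z :=
  H.k5 x (H.cc x xz fun _ hy =>
    (memC.1 (H.toMK.le (memC.2 xe.symm) (memC.2 xr.symm) (memC.2 xs.symm) hy)).symm) xe xr xs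

theorem ty (cz : c * z = z * c) (ce : c * e = e * c) (cc : c * c = 1) (cK : c ∉ K)
    (hf : I4 z e (c * f * c⁻¹ * f)) (hp : I4 z e (c * p * c⁻¹ * p)) : Ty z e f p r s c := by
  obtain ⟨⟨-, -, ff, pp, -⟩, ⟨-, -, r3, s3, rs, er, a, b, -⟩, -⟩ := H.k0
  obtain ⟨-, -, zK, -, rK, sK⟩ := H.toMK.mem
  have xP : c * r * c⁻¹ * e * (c * r * c⁻¹)⁻¹ = c * p * c⁻¹ := by rw [← a, ← cjj, cjf ce]
  have yF : c * s * c⁻¹ * e * (c * s * c⁻¹)⁻¹ = c * f * c⁻¹ := by rw [← b, ← cjj, cjf ce]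
  obtain ⟨g, hg, ge, gx, gy, h⟩ := H.k3 _ (H.nK c cz r rK) (by rw [conj_pow, r3]; group) (xP ▸ hp)
    (by rw [← cjf ce, conj_mul, conj_pow, er]; group) _ (H.nK c cz s sK) (by rw [conj_pow, s3]; group) (cjc c rs)
    (yF ▸ hf)
  rw [xP, yF, ← cjm, ← cjm] at h
  rw [← cjm] at gx gy
  have tz := (Commute.mul_left (H.toMK.cz hg) cz).eq
  have te := (Commute.mul_left ge ce).eq
  obtain ⟨w, hw, h⟩ : ∃ w, c * g * c⁻¹ = w ∧ (g * w = 1 ∨ g * w = z → _ ∨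
      (_ ∧ (_ ∨ _ ∧ g * w = 1 ∧ _)) ∨ (_ ∧ (_ ∨ _ ∧ g * w = 1 ∧ _)) ∨ _) := by
    rcases h with ⟨v, h⟩ | ⟨v, h⟩ | ⟨v, h⟩ | ⟨v, h⟩ <;> refine ⟨_, ?_, h⟩ <;> have := cjf (I4.cm v cz ce)
    · exact this
    · rw [← this, conj_mul, mul_assoc g, ff, mul_one]
    · rw [← this, conj_mul, mul_assoc g, pp, mul_one]
    · rw [← this, conj_mul, conj_mul, mul_assoc (g * p), ff, mul_one, mul_assoc g, pp, mul_one]
  have e1 : g * w = g * c * (g * c) := by rw [← hw, inv2 cc]; simp only [mul_assoc]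
  have e2 : g * c * c = g := by rw [mul_assoc, cc, mul_one]
  have sq : ∀ y, g * c * y * (g * c)⁻¹ = y ∨ g * c * y * (g * c)⁻¹ = y⁻¹ → g * c * (g * c) * y = y * (g * c * (g * c)) :=
    fun y h => cjq.1 (by rcases h with h | h <;> simp only [cjm (g * c), h, ← conj_inv, inv_inv])
  rw [e1] at h
  rcases h (H.cen (Commute.mul_left tz tz).eq (Commute.mul_left te te).eq (sq r gx) (sq s gy)) with h | h | h | h
  · refine absurd ((mul_mem_cancel_left hg).1 ?_) cK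
    rcases H.cen tz te (cjq.1 h.1) (cjq.1 h.2) with h | h <;> rw [h]
    exacts [one_mem _, zK]
  · exact .inl ⟨h.1, h.2.imp_right fun ⟨a, b, c, d, e⟩ => ⟨a, _, ⟨b, tz, te, c, d⟩, by rwa [e2]⟩⟩
  · exact .inr (.inl ⟨h.1, h.2.imp_right fun ⟨a, b, c, d, e⟩ => ⟨a, _, ⟨b, tz, te, c, d⟩, by rwa [e2]⟩⟩)
  · exact .inr (.inr h)

variable [Finite G]

theorem exn : ∃ n, Sp z e n := by
  obtain ⟨⟨zz, ee, -⟩, -, -, -, z1, e1, en, -⟩ := H.k0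
  obtain ⟨eK, -, zK, -⟩ := H.toMK.mem
  obtain ⟨g, h1, h2⟩ := H.hx
  obtain ⟨y, -, h⟩ := ((H.k1 _ h1 (cjs g zz)).resolve_left fun h => z1 (cj1 h)).resolve_left h2
  rw [← cjm] at h
  generalize y * g = g at h
  obtain ⟨D, c4, hD⟩ := H.h4 g (h ▸ eK) (h ▸ en)
  have eD : e ∈ D := (hD e).2 ⟨eK, p4 ee, by rwa [cji h]⟩
  have zD : z ∈ D := by
    by_contra zD
    have : D ≤ zpowers e := fun x hx => by
      obtain ⟨a, b, c⟩ := (hD x).1 hx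
      have xe := cjc g (H.toMK.cz c)
      rw [h, show g * (g⁻¹ * x * g⁻¹⁻¹) * g⁻¹ = x by group] at xe
      rcases H.k2 x a b xe with (h3 | h3 | h3 | h3) | ⟨y, hy, ye, h3⟩
      · exact h3 ▸ one_mem _
      · exact absurd (h3 ▸ hx) zD
      · exact h3 ▸ mem_zpowers _
      · exact absurd ((mul_mem_cancel_left eD).1 (h3 ▸ hx)) zD
      refine absurd ((mul_mem_cancel_left hx).1 (h3 ▸ (hD _).2 ⟨cmem hy a, by rw [conj_pow, b]; group, ?_⟩)) zD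
      rw [← cjj]
      exact H.nK _ (by simpa only [cji h] using cjc g⁻¹ ye) _ c
    have h3 := card_le_of_le this
    rw [show Nat.card D = 4 from c4, Nat.card_zpowers, GW.invo_of ee e1] at h3
    omega
  obtain ⟨y, hy, h3⟩ := ((H.k1 _ ((hD z).1 zD).2.2 (cjs _ zz)).resolve_left fun h => z1 (cj1 h)).resolve_left
    fun h3 => en (h.symm.trans (by simpa using cji h3))
  exact ⟨y * g⁻¹, by rw [cjm, h3], by rw [cjm, cji h, cjf (H.toMK.cz hy)]⟩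

theorem jj (h : Sp z e n) (hx : x ∈ K) (x4 : x ^ 4 = 1) (h1 : n⁻¹ * x * n⁻¹⁻¹ ∈ K) : I4 z e x := by
  obtain ⟨⟨zz, ee, -⟩, -, -, -, z1, e1, en, ez, -⟩ := H.k0
  obtain ⟨eK, -, zK, -⟩ := H.toMK.mem
  obtain ⟨D, c4, hD⟩ := H.h4 n (h.kz ▸ eK) (h.kz ▸ en)
  exact i4_of c4 ((hD z).2 ⟨zK, p4 zz, by rwa [cji h.kt]⟩) ((hD e).2 ⟨eK, p4 ee, by rwa [cji h.kz]⟩) z1 e1 en ez
    ((hD x).2 ⟨hx, x4, h1⟩)

theorem ty' (h : Sp z e n) (hx : x = f ∨ x = p) : Ty z e f p r s (n * x * n⁻¹) := by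
  obtain ⟨⟨zz, ee, ff, pp, ez, fz, pz, fe, pe⟩, -, -, -, z1, -, -, -, nf, np⟩ := H.k0
  obtain ⟨-, fK, -, pK, -⟩ := H.toMK.mem
  have A : ∀ {x}, x = f ∨ x = p → x ∈ K ∧ x * x = 1 ∧ x * z = z * x ∧ x * e = e * x ∧ ¬ I4 z e x := by
    rintro _ (rfl | rfl)
    exacts [⟨fK, ff, fz, fe, nf⟩, ⟨pK, pp, pz, pe, np⟩]
  have h' : Sp z e n⁻¹ := ⟨cji h.kt, cji h.kz⟩
  obtain ⟨xK, xx, xz, xe, xn⟩ := A hx
  obtain ⟨cz, ce⟩ := h.hk x xz xe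
  have key : ∀ y, y = f ∨ y = p → I4 z e (n * x * n⁻¹ * y * (n * x * n⁻¹)⁻¹ * y) := fun y hy => by
    obtain ⟨yK, yy, yz, ye, -⟩ := A hy
    have h1 := H.nK _ cz y yK
    refine H.jj h (mul_mem h1 yK) ((H.k4 _ h1).2 (p4 (cjs _ yy)) y yK (p4 yy)) ?_
    have := H.nK _ (h'.hk y yz ye).1 _ (inv_mem xK)
    rw [inv2 (cjs _ yy)] at this
    convert mul_mem xK this using 1
    group
  refine H.ty cz ce (cjs n xx) (fun hK => xn ?_) (key f (.inl rfl)) (key p (.inr rfl))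
  exact H.jj h' xK (p4 xx) (by simpa only [inv_inv] using hK)

theorem main : ∃ t u k, MH z e f p q r s t u ∧ Sp z t k := by
  obtain ⟨n, h⟩ := H.exn
  have h' : Sp z e n⁻¹ := ⟨cji h.kt, cji h.kz⟩
  obtain ⟨⟨zz, ee, ff, pp, ez, fz, pz, fe, pe⟩, -, fp, pf, z1, e1, en, ez1, -⟩ := H.k0
  have tr : ∀ x y v, x = f ∨ x = p → y = f ∨ y = p → n * y * n⁻¹ * x * (n * y * n⁻¹)⁻¹ = x * v → v = 1 ∨ v = e →
      n⁻¹ * x * n⁻¹⁻¹ * y * (n⁻¹ * x * n⁻¹⁻¹)⁻¹ = y * (n⁻¹ * v * n⁻¹⁻¹) := fun x y v hx hy h1 hv => by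
    have xx : x * x = 1 := by rcases hx with rfl | rfl <;> assumption
    have yy : y * y = 1 := by rcases hy with rfl | rfl <;> assumption
    have yz : y * z = z * y := by rcases hy with rfl | rfl <;> assumption
    have h2 : y * (n⁻¹ * v * n⁻¹⁻¹) = n⁻¹ * v * n⁻¹⁻¹ * y := by
      rcases hv with rfl | rfl
      exacts [by simp, by rw [h'.kt, yz]]
    have h3 : y * (n⁻¹ * x * n⁻¹⁻¹) * y⁻¹ = n⁻¹ * x * n⁻¹⁻¹ * (n⁻¹ * v * n⁻¹⁻¹) := by rw [conj_mul, ← h1]; group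
    have h4 := cjs n⁻¹ xx
    generalize n⁻¹ * x * n⁻¹⁻¹ = a at h3 h4
    rw [h2, inv2 h4, ← mul_left_inj y⁻¹, mul_inv_cancel_right, mul_assoc, mul_assoc, ← mul_assoc y, h3, kk h4, one_mul]
  have w : ∀ c, Ty z e f p r s c → c * f * c⁻¹ ≠ f * z ∧ c * p * c⁻¹ ≠ p * z ∧ ¬ (c * f * c⁻¹ = f ∧ c * p * c⁻¹ = p) := by
    rintro c (⟨a, b | ⟨b, -⟩⟩ | ⟨a, b | ⟨b, -⟩⟩ | ⟨a, b⟩ | ⟨a, b⟩) <;> simp [a, b, z1, e1, en, ez1]
  have ne : ∀ x y, x = f ∨ x = p → y = f ∨ y = p → n * y * n⁻¹ * x * (n * y * n⁻¹)⁻¹ ≠ x * e := fun x y hx hy h1 => by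
    have := tr x y e hx hy h1 (.inr rfl)
    rw [h'.kt] at this
    rcases hy with rfl | rfl
    exacts [(w _ (H.ty' h' hx)).1 this, (w _ (H.ty' h' hx)).2.1 this]
  have n1 : ∀ x, x = f ∨ x = p → n * f * n⁻¹ * x * (n * f * n⁻¹)⁻¹ = x → n * p * n⁻¹ * x * (n * p * n⁻¹)⁻¹ = x → False :=
    fun x hx h1 h2 => (w _ (H.ty' h' hx)).2.2
      ⟨by simpa using tr x f 1 hx (.inl rfl) (by rwa [mul_one]) (.inl rfl),
        by simpa using tr x p 1 hx (.inr rfl) (by rwa [mul_one]) (.inl rfl)⟩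
  have T : ∀ y, y = f ∨ y = p → (n * y * n⁻¹ * f * (n * y * n⁻¹)⁻¹ = f ∧
        ∃ t, Ta z e r s r⁻¹ s t ∧ I4 z e (t * (n * y * n⁻¹) * f)) ∨
      (n * y * n⁻¹ * p * (n * y * n⁻¹)⁻¹ = p ∧ n * y * n⁻¹ * f * (n * y * n⁻¹)⁻¹ = f * (e * z) ∧
        ∃ t, Ta z e r s r s⁻¹ t ∧ I4 z e (t * (n * y * n⁻¹))) := fun y hy => by
    rcases H.ty' h hy with ⟨a, b | b⟩ | ⟨a, b | b⟩ | ⟨a, -⟩ | ⟨-, a⟩
    exacts [absurd b (ne p y (.inr rfl) hy), .inl ⟨a, b.2⟩, absurd b (ne f y (.inl rfl) hy), .inr ⟨a, b⟩,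
      absurd a (ne f y (.inl rfl) hy), absurd a (ne p y (.inr rfl) hy)]
  have fin : ∀ x y t u, x * x = 1 → y * y = 1 → x * z = z * x → x * e = e * x → y * z = z * y → y * e = e * y →
      x * y * (x * y) = z → n * x * n⁻¹ * f * (n * x * n⁻¹)⁻¹ = f → n * y * n⁻¹ * f * (n * y * n⁻¹)⁻¹ = f * (e * z) →
      Ta z e r s r⁻¹ s t → I4 z e (t * (n * x * n⁻¹) * f) → Ta z e r s r s⁻¹ u → I4 z e (u * (n * y * n⁻¹)) →
      x = f ∨ x = p → ∃ t u k, MH z e f p q r s t u ∧ Sp z t k := fun x y t u xx yy xz xe yz ye xy cf df ht vt hu vu hx => by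
    have cd : n * x * n⁻¹ * (n * y * n⁻¹) * (n * x * n⁻¹ * (n * y * n⁻¹)) = e := by rw [conj_mul, conj_mul, xy, h.kz]
    obtain ⟨cz, ce⟩ := h.hk x xz xe
    obtain ⟨dz, de⟩ := h.hk y yz ye
    have cc := cjs n xx
    have dd := cjs n yy
    have M : MH z e f p q r s t u := by
      generalize n * x * n⁻¹ = c at *
      generalize n * y * n⁻¹ = d at *
      obtain ⟨v, et, hv⟩ : ∃ v, t = v * f * c ∧ I4 z e v := ⟨_, by simp only [mul_assoc, iv3 ff, cc, mul_one], vt⟩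
      obtain ⟨w, eu, hw⟩ : ∃ w, u = w * d ∧ I4 z e w := ⟨_, by rw [mul_assoc, dd, mul_one], vu⟩
      have i2 : ∀ {v}, I4 z e v → v * v = 1 := by
        rintro _ (rfl | rfl | rfl | rfl) <;> simp only [mul_assoc, iv3 zz, iv3 ee, cm2 ez.symm, mul_one]
      have cd' : c * (d * (c * d)) = e := by simpa only [mul_assoc] using cd
      have tu : t * (u * (t * (u * z))) = 1 := by
        rw [← mul_assoc u, ← mul_assoc t, ← mul_assoc t u, ← mul_assoc, mul_assoc (t * u), show t * u * (t * u) = z by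
          simp only [et, eu, mul_assoc, cm2 (hv.cm cz ce), cm2 (hv.cm dz de), cm2 (hv.cm fz fe), cm2 (hw.cm cz ce),
            cm2 (hw.cm dz de), cm2 (hw.cm fz fe), cm2 (hv.cm (hw.cm rfl ez.symm).symm (hw.cm ez rfl).symm), iv3 (i2 hv),
            iv3 (i2 hw), cm2 (cjq.1 cf), mv3 (cjq.1 df), cm2 cz, cm2 ce, iv3 ff, cd', cm2 ez.symm, iv3 ee], zz]
      have tf : t * f = f * t := by simp only [et, mul_assoc, cm2 (hv.cm fz fe), cm2 (cjq.1 cf)]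
      obtain ⟨tt, -, te, tr, ts⟩ := ht
      obtain ⟨uu, -, ue, ur, us⟩ := hu
      refine mkH (sat_ext (l' := [t, u]) H.sat rfl rfl (by decide) (by decide)
        (fun n _ _ => by interval_cases n; exacts [tt, uu]) ?_) z1 H.cH.le
      simp only [List.forall_mem_cons, lprod_cons, lprod_nil, lt, List.cons_append, List.nil_append, mul_one, pow_one,
        List.not_mem_nil, false_imp_iff, implies_true, and_true]
      exact ⟨tr1 (un tt tr), sq2 tt ee te, sq2 tt ff tf, by rw [← mul_assoc, ← mul_assoc, un tt ts, mul_inv_cancel],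
        by rw [← mul_assoc, ← mul_assoc, un uu ur, mul_inv_cancel], by
        rw [← mul_assoc, ← mul_assoc, cjf' uu ue, ee], tr1 (un uu us), tu⟩
    obtain ⟨g, hg, h1⟩ := M.v1 _ (memC.2 cz) vt
    obtain ⟨a, a1, a2⟩ : ∃ a, a * e * a⁻¹ = x ∧ a * x * a⁻¹ = e := by
      obtain ⟨⟨a, -, a1⟩, ⟨b, -, b1⟩, -⟩ := M.v2
      rcases hx with rfl | rfl
      exacts [⟨a, a1⟩, ⟨b, b1⟩]
    have g1 : g * n * e * (g * n)⁻¹ = z := by rw [cjm, h.kt, cjf (memC.1 hg)]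
    rw [← cjm] at h1
    exact ⟨t, u, g * n * a * (g * n)⁻¹, M, by rw [← g1, cjj, a1, h1], by rw [← h1, cjj, a2, g1]⟩
  rcases T f (.inl rfl) with ⟨a, t, b⟩ | ⟨a, a', u, b⟩ <;> rcases T p (.inr rfl) with ⟨c, t', d⟩ | ⟨c, c', u', d⟩
  exacts [(n1 f (.inl rfl) a c).elim, fin f p t u' ff pp fz fe pz pe fp a c' b.1 b.2 d.1 d.2 (.inl rfl),
    fin p f t' u pp ff pz pe fz fe pf c a' d.1 d.2 b.1 b.2 (.inr rfl), (n1 p (.inr rfl) a c).elim]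

end HB

end Cfsg.Agent.H28.UF
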