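import Mathlib
import Cfsg.Agent.H28.UFa

/-! A group with an involution centraliser of the type of `PSU₄(3)` satisfies a presentation of its triple cover. -/

set_option autoImplicit false

namespace Cfsg.Agent.H28.UF
open Subgroup H15 FT HJ MZ PS

variable {G : Type*} [Group G] {z e f p q r s t u k : G}

namespace MH
variable (M : MH z e f p q r s t u)
include M

theorem S : (z * z = 1 ∧ z⁻¹ = z ∧ ∀ w, z * (z * w) = w) ∧ (e * e = 1 ∧ e⁻¹ = e ∧ ∀ w, e * (e * w) = w) ∧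
    (f * f = 1 ∧ f⁻¹ = f ∧ ∀ w, f * (f * w) = w) ∧ (t * t = 1 ∧ t⁻¹ = t ∧ ∀ w, t * (t * w) = w) ∧
    (e * z = z * e ∧ ∀ w, e * (z * w) = z * (e * w)) ∧ (f * z = z * f ∧ ∀ w, f * (z * w) = z * (f * w)) ∧
    (t * z = z * t ∧ ∀ w, t * (z * w) = z * (t * w)) ∧ (f * e = e * f ∧ ∀ w, f * (e * w) = e * (f * w)) ∧
    (t * e = e * t ∧ ∀ w, t * (e * w) = e * (t * w)) ∧ (t * f = f * t ∧ ∀ w, t * (f * w) = f * (t * w)) :=
  let ⟨a, b, c, d, e, f, g, h, i, j⟩ := M.c0.1
  ⟨iv3 a, iv3 b, iv3 c, iv3 d, cm2 e, cm2 f, cm2 g, cm2 h, cm2 i, cm2 j⟩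

theorem P : ((p * z = z * p ∧ ∀ w, p * (z * w) = z * p * w) ∧ (p * e = e * p ∧ ∀ w, p * (e * w) = e * p * w) ∧
    (p * f = z * f * p ∧ ∀ w, p * (f * w) = z * f * p * w) ∧ (p * t = e * t * p ∧ ∀ w, p * (t * w) = e * t * p * w)) ∧
    ((q * z = z * q ∧ ∀ w, q * (z * w) = z * q * w) ∧ (q * e = z * e * q ∧ ∀ w, q * (e * w) = z * e * q * w) ∧
    (q * f = f * q ∧ ∀ w, q * (f * w) = f * q * w) ∧ (q * t = f * t * q ∧ ∀ w, q * (t * w) = f * t * q * w)) ∧
    (s * z = z * s ∧ ∀ w, s * (z * w) = z * s * w) ∧ (s * e = f * s ∧ ∀ w, s * (e * w) = f * s * w) ∧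
    (s * f = z * e * f * s ∧ ∀ w, s * (f * w) = z * e * f * s * w) ∧ (s * t = t * s ∧ ∀ w, s * (t * w) = t * s * w) :=
  let ⟨_, ⟨a, b, c, d⟩, ⟨e, f, g, h⟩, ⟨i, j, k, l⟩, _⟩ := M.c0
  ⟨⟨mv3 a, mv3 b, mv3 c, mv3 d⟩, ⟨mv3 e, mv3 f, mv3 g, mv3 h⟩, mv3 i, mv3 j, mv3 k, mv3 l⟩

theorem lw (hk : ∀ x, x * z = z * x → x * t = t * x →
      k * x * k⁻¹ * z = z * (k * x * k⁻¹) ∧ k * x * k⁻¹ * t = t * (k * x * k⁻¹)) {w : G}
    (hw : w = e * z ∨ w = f * z ∨ w = e * f) :
    k * w * k⁻¹ = e * z ∨ k * w * k⁻¹ = f * z ∨ k * w * k⁻¹ = e * f := by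
  have S := M.S
  have P := M.P
  obtain ⟨-, -, -, ⟨sz, -, -, st⟩, -, -, -, -, -, -, -, -, -, -, -, -, -, -, -, -, n1, n2, n3, -⟩ := M.c0
  have key : ∀ a, a * z = z * a → a * t = t * a → a * a = 1 → a * (s * a * s⁻¹) = w → w ≠ 1 →
      k * w * k⁻¹ = e * z ∨ k * w * k⁻¹ = f * z ∨ k * w * k⁻¹ = e * f := fun a az at' aa h w1 => by
    have := M.w1 _ (memC.2 (hk a az at').1) (hk a az at').2 (cjs k aa) _ (memC.2 (hk s sz st).1) (hk s sz st).2
    rw [cjj, conj_mul, h] at this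
    exact this.resolve_left fun e => w1 (cj1 e)
  rcases hw with rfl | rfl | rfl
  · refine key f ?_ ?_ ?_ ?_ n2 <;> simp only [mul_assoc, S, P, mul_inv_cancel, mul_one]
  · refine key (e * f * z) ?_ ?_ ?_ ?_ n3 <;> simp only [mul_assoc, S, P, mul_inv_cancel, mul_one]
  · refine key e ?_ ?_ ?_ ?_ n1 <;> simp only [mul_assoc, S, P, mul_inv_cancel, mul_one]

theorem l1 (h : Sp z t k) (h1 : k * (e * f) * k⁻¹ = e * f) :
    k * (e * z) * k⁻¹ = f * z ∧ k * (f * z) * k⁻¹ = e * z := by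
  have S := M.S
  have P := M.P
  have a : k * (f * z) * k⁻¹ = k * (e * z) * k⁻¹ * (e * f) := by
    rw [← h1, conj_mul]; simp only [mul_assoc, S]
  obtain ⟨-, -, -, -, -, -, -, -, -, -, -, -, -, -, -, -, -, -, n1, -, -, -, -, -, n2, -⟩ := M.c0
  rcases M.lw h.hk (.inl rfl) with h2 | h2 | h2
  · rw [h2] at a
    have kz := mv3 (cjq.1 h.kz)
    have kt := mv3 (cjq.1 h.kt)
    have ke := mv3 (cjq.1 (spl S.1.1 h.kz h2))
    have kf := mv3 (cjq.1 (spl S.1.1 h.kz a))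
    have b : (q * k) ^ 3 * e = e * f * z * (q * k) ^ 3 := by simp only [cube, mul_assoc, S, P, kz, kt, ke, kf]
    refine absurd (mul_right_cancel ((M.w3 _ (memC.2 ?_) ?_ ?_).symm.trans b)) n2 <;>
      simp only [cube, mul_assoc, S, P, kz, kt, ke, kf]
  · exact ⟨h2, by rw [a, h2]; simp only [mul_assoc, S, mul_one]⟩
  · exact absurd (cje (h2.trans h1.symm)) n1

theorem exK (h : Sp z t k) : ∃ k, KK z e f s t k := by
  have S := M.S
  have P := M.P
  obtain ⟨⟨zz, -, -, tt, ez, fz, tz, -⟩, -, -, ⟨sz, -, -, st⟩, -, -, -, s3, -, -, -, -, -, -, -, -, tn, -⟩ := M.c0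
  have s1 : s * (f * z) * s⁻¹ = e * f := by simp only [mul_assoc, S, P, mul_inv_cancel, mul_one]
  have s2 : s * (e * z) * s⁻¹ = f * z := by simp only [mul_assoc, S, P, mul_inv_cancel, mul_one]
  obtain ⟨k, h, h1⟩ : ∃ k, Sp z t k ∧ k * (e * f) * k⁻¹ = e * f := by
    rcases M.lw h.hk (.inr (.inr rfl)) with h2 | h2 | h2
    · exact ⟨_, (h.mul sz st).mul sz st, by rw [cjm, cjm, h2, s2, s1]⟩
    · exact ⟨_, h.mul sz st, by rw [cjm, h2, s1]⟩
    · exact ⟨_, h, h2⟩
  obtain ⟨a1, a2⟩ := M.l1 h h1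
  obtain ⟨w, hw, wt, we, wf, ws⟩ := M.w4 _ (memC.2 (h.hk s sz st).1) (h.hk s sz st).2 (by rw [conj_pow, s3]; group)
    (by rw [← a1, cjj, s2, a2])
  have wz := memC.1 hw
  replace h := h.mul wz wt
  replace a1 : w * k * (e * z) * (w * k)⁻¹ = f * z := by rw [cjm, a1, cjf (Commute.mul_right wf wz).eq]
  replace a2 : w * k * (f * z) * (w * k)⁻¹ = e * z := by rw [cjm, a2, cjf (Commute.mul_right we wz).eq]
  rw [← cjm] at ws
  generalize w * k = k at h a1 a2 ws
  have fin : ∀ k, k * k = 1 → Sp z t k → k * (e * z) * k⁻¹ = f * z → k * s * k⁻¹ = s⁻¹ → ∃ k, KK z e f s t k :=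
    fun k kk h a b => ⟨k, kk, un kk h.kz, un kk b, by rw [un kk (spl zz h.kz a)]; simp only [mul_assoc, S]⟩
  have yz : k * k * z * (k * k)⁻¹ = z := by rw [cjm, h.kz, h.kt]
  have c : k * (k * k) * k⁻¹ = k * k := by group
  rcases M.w5 (k * k) (memC.2 (cjq.1 yz)) (cjq.1 (by rw [cjm, h.kt, h.kz])) (cjq.1 (by
      rw [cjm, ws, ← conj_inv, ws, inv_inv])) (cjq.1 (by
      rw [spl zz yz (by rw [cjm, a1, a2]), mul_assoc, zz, mul_one])) with h2 | h2 | h2 | h2
  · exact fin k h2 h a1 ws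
  · exact absurd (by rw [← h.kz, ← h2, c]) tn
  · exact absurd (by rw [← h.kt, ← h2, c]) tn
  · refine fin (k * z) ?_ (h.mul' rfl tz.symm) (by rw [cjm, cjf (c := z) (by simp only [mul_assoc, S]), a1])
      (by rw [cjm, cjf sz.symm, ws])
    rw [show k * z * (k * z) = k * z * k⁻¹ * (k * k) * z by group, h.kz, h2]
    simp only [mul_assoc, S, one_mul]

variable (K : KK z e f s t k)
include K

theorem sat10 {B : List (List ℕ × ℕ)} (h : ∀ x ∈ B, lprod (lt 1 [e, f, z, p, q, r, r⁻¹, s, s⁻¹, t, k]) x.1 ^ x.2 = 1) :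
    Sat (lt 1 [e, f, z, p, q, r, r⁻¹, s, s⁻¹, t, k]) (invT 11693350491970609216 11)
      (PS.BH ++ ([10, 2, 10, 9], 1) :: ([10, 7, 10, 7], 1) :: ([10, 0, 10, 9, 1, 2], 1) :: B) :=
  sat_ext (l' := [k]) M.sat' rfl rfl (by decide) (by decide) (fun n _ _ => by interval_cases n; exact K.kk) (by
    have S := M.S
    simp only [List.forall_mem_cons, lprod_cons, lprod_nil, lt, List.cons_append, List.nil_append, mul_one, pow_one]
    exact ⟨by rw [← mul_assoc, ← mul_assoc, K.kz, S.2.2.2.1.1], tr1 K.ks, by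
      rw [← mul_assoc, ← mul_assoc, K.ke]; simp only [mul_assoc, S], h⟩)

theorem kn (h1 : k ∈ C[z]) : False := by
  obtain ⟨-, -, -, -, -, -, -, -, -, -, -, -, -, -, -, -, tn, -⟩ := M.c0
  exact tn (K.kz.symm.trans (cjf' K.kk (memC.1 h1)))

theorem col (h : gp (lt 1 [e, f, z, p, q, r, r⁻¹, s, s⁻¹, t, k]) (sgl 11) ≤
    gp (lt 1 [e, f, z, p, q, r, r⁻¹, s, s⁻¹, t, k]) (sgl 10)) : False := by
  refine M.kn K (gp_sgl_le (fun l hl => ?_) (h (mem_gp_sgl (l := 10) (by decide))))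
  have : lt 1 [e, f, z, p, q, r, r⁻¹, s, s⁻¹, t, u] l ∈ C[z] := M.gen ▸ mem_gp_sgl (by omega)
  interval_cases l <;> exact this

theorem kf : k * f * k = t * e * z := by
  have S := M.S
  have P := M.P
  have : k * f * k⁻¹ = k * s * k⁻¹ * (k * e * k⁻¹) * (k * s * k⁻¹)⁻¹ := by rw [cjj, cjq.2 P.2.2.2.1.1]
  rw [inv2 K.kk, K.ks, K.ke] at this
  exact this.trans (cji (cjq.2 (by simp only [mul_assoc, S, P])))

theorem n3 : (p * q * k) ^ 3 = 1 := by
  have S := M.S
  have P := M.P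
  have R := And.intro (And.intro (mv K.kk K.kz) (mv K.kk (bk K.kk K.kz))) (And.intro (mv K.kk K.ke) (mv K.kk (M.kf K)))
  obtain ⟨-, -, -, -, pp, qq, pq, -, -, -, -, -, -, -, -, -, tn, -⟩ := M.c0
  have c : ∀ x, (p * q * k) ^ 3 = x → p * q * x = x * (p * q) → k * x * k⁻¹ = x := fun x h1 h2 => by
    have := (Commute.self_pow (p * q * k) 3).eq
    rw [h1, mul_assoc, ← mul_assoc x, ← h2, mul_assoc (p * q)] at this
    exact cjq.2 (mul_left_cancel this)
  rcases M.w6 ((p * q * k) ^ 3) (memC.2 (by simp only [cube, mul_assoc, S, P, R]))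
    (by simp only [cube, mul_assoc, S, P, R]) (by simp only [cube, mul_assoc, S, P, R])
    (by simp only [cube, mul_assoc, S, P, R])
    (by simp only [cube, mul_assoc, mul_inv_rev, iv3 pp, iv3 qq, iv3 K.kk, cm2 pq.symm]) with h | h | h | h
  · exact h
  · exact absurd (K.sp.kz.symm.trans (c z h (by simp only [mul_assoc, S, P]))) tn
  · refine (M.col K (colBX (M.sat10 K (B := [_]) ?_))).elim
    simp only [List.forall_mem_cons, List.not_mem_nil, false_imp_iff, implies_true, and_true, lprod_cons,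
      lprod_nil, lt, mul_one, pow_one]
    have : (p * q * k) ^ 3 * (e * f) = 1 := by rw [h]; simp only [mul_assoc, S]
    simpa only [cube, mul_assoc] using this
  · have := c _ h (by simp only [mul_assoc, S, P])
    rw [← conj_mul, K.sp.kz, cjf (by simp only [mul_assoc, S, R])] at this
    exact absurd (mul_left_cancel this) tn

theorem u3 : (u * k) ^ 3 = 1 := by
  have S := M.S
  have R := And.intro (And.intro (mv K.kk K.kz) (mv K.kk (bk K.kk K.kz))) (And.intro (mv K.kk K.ke) (mv K.kk (M.kf K)))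
  obtain ⟨⟨uu, uz, ue, uf, ut⟩, us, -⟩ := M.u0
  have U := And.intro (And.intro (mv3 uz) (mv3 ue)) (And.intro (mv3 uf) (mv3 ut))
  obtain ⟨-, -, -, -, -, -, -, -, -, -, -, -, z1, -, t1, -, tn, -⟩ := M.c0
  have c : ∀ x, (u * k) ^ 3 = x → u * k * x = x * (u * k) := fun x h => h ▸ (Commute.self_pow (u * k) 3).eq
  have cs : u * k * s = s * (u * k) := cjq.1 (by
    rw [cjm, inv2 K.kk, K.ks, ← conj_inv, us, inv_inv])
  rcases M.w5 ((u * k) ^ 3) (memC.2 (by simp only [cube, mul_assoc, S, U, R]))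
    (by simp only [cube, mul_assoc, S, U, R]) (Commute.pow_left cs 3).eq (by simp only [cube, mul_assoc, S, U, R])
    with h | h | h | h
  · exact h
  · exact absurd (by simpa only [mul_assoc, S, U, R, mul_right_inj, mul_eq_right] using c _ h) t1
  · exact absurd (by simpa only [mul_assoc, S, U, R, mul_left_inj] using (c _ h).symm) tn
  · exact absurd (by simpa only [mul_assoc, S, U, R, mul_eq_right] using (c _ h).symm) z1

theorem sat12 (w : List ℕ) (h : (k * (z * (t * (r⁻¹ * (u * (k * (lprod (lt 1 [e, f, z, p, q, r, r⁻¹, s, s⁻¹, t, u, k]) w *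
      (k * (u * r))))))))) ^ 2 = 1) :
    Sat (lt 1 [e, f, z, p, q, r, r⁻¹, s, s⁻¹, t, u, k]) (invT 823350089735190880320 12) (BC w) :=
  sat_ext (l' := [k]) M.sat rfl rfl (by decide) (by decide) (fun n _ _ => by interval_cases n; exact K.kk) (by
    have S := M.S
    simp only [List.forall_mem_cons, lprod_cons, lprod_nil, lprod_append, lt, List.cons_append, List.nil_append, mul_one,
      pow_one, List.not_mem_nil, false_imp_iff, implies_true, and_true]
    exact ⟨by rw [← mul_assoc, ← mul_assoc, K.kz, S.2.2.2.1.1], tr1 K.ks, by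
      rw [← mul_assoc, ← mul_assoc, K.ke]; simp only [mul_assoc, S], by rw [← mul_assoc, M.n3 K], M.u3 K, h⟩)

theorem col12 (h : gp (lt 1 [e, f, z, p, q, r, r⁻¹, s, s⁻¹, t, u, k]) (sgl 12) ≤
    gp (lt 1 [e, f, z, p, q, r, r⁻¹, s, s⁻¹, t, u, k]) (sgl 11)) : False :=
  M.kn K (M.gen ▸ (gp_ext (l' := [k]) rfl).le (h (mem_gp_sgl (l := 11) (by decide))))

theorem satG [Finite G] : Sat (lt 1 [e, f, z, p, q, r, r⁻¹, s, s⁻¹, t, u, k]) (invT 823350089735190880320 12) (BC [10]) := by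
  have S := M.S
  have R := And.intro (mv K.kk K.kz) (mv K.kk (bk K.kk K.kz))
  obtain ⟨-, -, -, ⟨sz, -, -, st⟩, -, -, -, -, -, rs, -⟩ := M.c0
  obtain ⟨⟨uu, -, -, -, ut⟩, us, sn, x1, xs, -⟩ := M.u0
  have g1 : k * u * r * (r⁻¹ * (t * z) * r) * (k * u * r)⁻¹ = z := by
    rw [cjm, x1, cjm, show u * (t * z) * u⁻¹ = t from cjq.2 (by simp only [mul_assoc, S, mv3 ut, cm2 M.u0.1.2.1]),
      K.sp.kt]
  have xx : r⁻¹ * (t * z) * r * (r⁻¹ * (t * z) * r) = 1 := by rw [← cji g1]; exact cjs _ S.1.1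
  have yy : k * (z * t) * (k * (z * t)) = 1 := by simp only [mul_assoc, S, R, iv3 K.kk]
  have ys : k * (z * t) * s * (k * (z * t))⁻¹ = s⁻¹ := by
    rw [cjm, cjf (Commute.mul_left sz.symm st.symm).eq, inv2 K.kk, K.ks]
  have gs : k * u * r * s * (k * u * r)⁻¹ = s := by rw [cjm, cjf rs, cjm, us, ← conj_inv, inv2 K.kk, K.ks, inv_inv]
  generalize r⁻¹ * (t * z) * r = x at g1 xx xs
  have N : ∀ m : ℕ, (k * (z * t) * x) ^ m * s * ((k * (z * t) * x) ^ m)⁻¹ = if Even m then s else s⁻¹ := fun m => by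
    induction m with
    | zero => simp
    | succ m ih =>
      rw [pow_succ, cjm, cjm _ x, cjf xs, ys, ← conj_inv, ih]
      by_cases h : Even m <;> simp [h, Nat.even_add_one]
  obtain ⟨c2, ck, ct⟩ := H20.half_pow_spec yy xx (Nat.not_odd_iff_even.1 fun o => by
    have := N (orderOf (k * (z * t) * x))
    rw [pow_orderOf_eq_one, if_neg (Nat.not_even_iff_odd.2 o)] at this
    exact sn (by simpa using this))
  have cs := N (orderOf (k * (z * t) * x) / 2)
  have cc := H20.mul_self_of_orderOf_two c2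
  have c1 := H20.ne_one_of_orderOf_two c2
  generalize (k * (z * t) * x) ^ (orderOf (k * (z * t) * x) / 2) = c at cs cc c1 ck ct
  have rel : ∀ w, k * u * r * c * (k * u * r)⁻¹ = lprod (lt 1 [e, f, z, p, q, r, r⁻¹, s, s⁻¹, t, u, k]) w →
      Sat (lt 1 [e, f, z, p, q, r, r⁻¹, s, s⁻¹, t, u, k]) (invT 823350089735190880320 12) (BC w) := fun w h => M.sat12 K w (by
    rw [← h, ← sq2 yy cc ck.eq.symm]
    simp only [mul_inv_rev, iv3 K.kk, iv3 uu, mul_assoc, inv_mul_cancel_left, inv_mul_cancel, mul_one])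
  rcases M.s2 (k * u * r * c * (k * u * r)⁻¹) (memC.2 (by simpa only [g1] using cjc (k * u * r) ct.eq)) (cjs _ cc) (by
      have := cjj (k * u * r) c s
      rw [gs, cs] at this
      rw [this]
      split_ifs
      exacts [.inl gs, .inr (by rw [← conj_inv, gs])])
    with h | h | h | h | h | h | h | h | h | h | h | h | h | h
  · exact absurd (cj1 h) c1
  · exact rel _ (h.trans (mul_one _).symm)
  · exact (M.col12 K (col0 (rel _ (by simpa only [lprod_cons, lprod_nil, lt, mul_one] using h)))).elim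
  · exact (M.col12 K (col1 (rel _ (by simpa only [lprod_cons, lprod_nil, lt, mul_one] using h)))).elim
  · exact (M.col12 K (col2 (rel _ (by simpa only [lprod_cons, lprod_nil, lt, mul_one] using h)))).elim
  · exact (M.col12 K (col3 (rel _ (by simpa only [lprod_cons, lprod_nil, lt, mul_one] using h)))).elim
  · exact (M.col12 K (col4 (rel _ (by simpa only [lprod_cons, lprod_nil, lt, mul_one] using h)))).elim
  · exact (M.col12 K (col5 (rel _ (by simpa only [lprod_cons, lprod_nil, lt, mul_one] using h)))).elim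
  · exact (M.col12 K (col6 (rel _ (by simpa only [lprod_cons, lprod_nil, lt, mul_one] using h)))).elim
  · exact (M.col12 K (col7 (rel _ (by simpa only [lprod_cons, lprod_nil, lt, mul_one] using h)))).elim
  · exact (M.col12 K (col8 (rel _ (by simpa only [lprod_cons, lprod_nil, lt, mul_one] using h)))).elim
  · exact (M.col12 K (col9 (rel _ (by simpa only [lprod_cons, lprod_nil, lt, mul_one] using h)))).elim
  · exact (M.col12 K (col10 (rel _ (by simpa only [lprod_cons, lprod_nil, lt, mul_one] using h)))).elim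
  · exact (M.col12 K (col11 (rel _ (by simpa only [lprod_cons, lprod_nil, lt, mul_one] using h)))).elim

end MH

end Cfsg.Agent.H28.UF
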